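import Mathlib
import Cfsg.Prelude.Def_Classical
import Cfsg.Agent.Lib.Helper18.UEDefs

/-!
# Project UE (helper18, S2335), piece HOM (proved by helper77)

The model group `GJ σ m β` embeds into `SU (m + m) F q` by conjugation with a change of basis
`P` with `Pᵀ * σ(P) = Jb m β`.
-/

set_option autoImplicit false

namespace Cfsg.Agent.Lib.Helper18.UE

open Matrix

universe u

variable {F : Type u} [Field F] {m : ℕ}

theorem uehom_herm_eq (σ : F →+* F) {q : ℕ} (hσ : ∀ x, σ x = x ^ q) (n : ℕ)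
    (u v : Fin n → F) : Cfsg.hermForm n F q u v = u ⬝ᵥ (fun i => σ (v i)) := by
  unfold Cfsg.hermForm dotProduct
  simp only [hσ]

theorem uehom_map_mulVec (σ : F →+* F) (n : ℕ) (A : Matrix (Fin n) (Fin n) F)
    (w : Fin n → F) : (fun i => σ ((A *ᵥ w) i)) = (A.map σ) *ᵥ (fun i => σ (w i)) := by
  funext i
  simp only [Matrix.mulVec, dotProduct, map_sum, map_mul, Matrix.map_apply]

theorem uehom_preserve (σ : F →+* F) {q : ℕ} (hσ : ∀ x, σ x = x ^ q) (n : ℕ)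
    (A : Matrix (Fin n) (Fin n) F) (hA : Aᵀ * A.map σ = 1) (u v : Fin n → F) :
    Cfsg.hermForm n F q (A *ᵥ u) (A *ᵥ v) = Cfsg.hermForm n F q u v := by
  rw [uehom_herm_eq σ hσ, uehom_herm_eq σ hσ, uehom_map_mulVec]
  calc (A *ᵥ u) ⬝ᵥ (A.map σ *ᵥ fun i => σ (v i))
      = (u ᵥ* Aᵀ) ⬝ᵥ (A.map σ *ᵥ fun i => σ (v i)) := by rw [Matrix.vecMul_transpose]
    _ = u ⬝ᵥ (Aᵀ *ᵥ (A.map σ *ᵥ fun i => σ (v i))) :=
        (Matrix.dotProduct_mulVec u Aᵀ (A.map σ *ᵥ fun i => σ (v i))).symm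
    _ = u ⬝ᵥ ((Aᵀ * A.map σ) *ᵥ fun i => σ (v i)) := by rw [Matrix.mulVec_mulVec]
    _ = u ⬝ᵥ (fun i => σ (v i)) := by rw [hA, Matrix.one_mulVec]

-- piece HOM
theorem model_hom [Fintype F] {q : ℕ} (hF : Fintype.card F = q ^ 2) (σ : F →+* F)
    (hσ : ∀ x, σ x = x ^ q) (m : ℕ) (β : F) (P : Matrix (Fin (m + m)) (Fin m ⊕ Fin m) F)
    (P' : Matrix (Fin m ⊕ Fin m) (Fin (m + m)) F) (h1 : P * P' = 1) (h2 : P' * P = 1)
    (h3 : Pᵀ * P.map σ = Jb m β) :
    ∃ φ : ↥(GJ σ m β) →* ↥(Cfsg.SU (m + m) F q), Function.Injective φ := by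
  classical
  have hAA : ∀ B : Matrix (Fin m ⊕ Fin m) (Fin m ⊕ Fin m) F, B ∈ GJ σ m β →
      (P * B * P')ᵀ * (P * B * P').map σ = 1 := by
    intro B hB
    have hB1 : Bᵀ * Jb m β * B.map σ = Jb m β := hB.1
    rw [Matrix.transpose_mul, Matrix.transpose_mul, Matrix.map_mul, Matrix.map_mul]
    calc P'ᵀ * (Bᵀ * Pᵀ) * (P.map σ * B.map σ * P'.map σ)
        = P'ᵀ * (Bᵀ * (Pᵀ * P.map σ) * B.map σ) * P'.map σ := by
          simp only [Matrix.mul_assoc]
      _ = P'ᵀ * (Pᵀ * P.map σ) * P'.map σ := by rw [h3, hB1]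
      _ = (P * P')ᵀ * (P * P').map σ := by
          rw [Matrix.transpose_mul, Matrix.map_mul]
          simp only [Matrix.mul_assoc]
      _ = 1 := by
          rw [h1, Matrix.transpose_one, Matrix.map_one σ (map_zero σ) (map_one σ),
            Matrix.one_mul]
  have hdet : ∀ B : Matrix (Fin m ⊕ Fin m) (Fin m ⊕ Fin m) F, B.det = 1 →
      (P * B * P').det = 1 := by
    intro B hB
    rw [Matrix.det_conj_of_mul_eq_one h1 h2, hB]
  have hmem : ∀ B : ↥(GJ σ m β),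
      (⟨P * B.1 * P', hdet B.1 B.2.2⟩ : SpecialLinearGroup (Fin (m + m)) F) ∈
        Cfsg.SU (m + m) F q := by
    intro B u v
    exact uehom_preserve σ hσ (m + m) _ (hAA B.1 B.2) u v
  refine ⟨{ toFun := fun B => ⟨⟨P * B.1 * P', hdet B.1 B.2.2⟩, hmem B⟩,
            map_one' := ?_, map_mul' := ?_ }, ?_⟩
  · apply Subtype.ext
    apply Subtype.ext
    show P * (1 : Matrix (Fin m ⊕ Fin m) (Fin m ⊕ Fin m) F) * P' = 1
    rw [Matrix.mul_one, h1]
  · intro B C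
    apply Subtype.ext
    apply Subtype.ext
    show P * (B.1 * C.1) * P' = (P * B.1 * P') * (P * C.1 * P')
    calc P * (B.1 * C.1) * P' = P * (B.1 * (P' * P) * C.1) * P' := by
          rw [h2, Matrix.mul_one]
      _ = (P * B.1 * P') * (P * C.1 * P') := by simp only [Matrix.mul_assoc]
  · intro B C hBC
    have h4 : P * B.1 * P' = P * C.1 * P' := congrArg (fun x => (x.1.1 : Matrix _ _ F)) hBC
    apply Subtype.ext
    calc B.1 = (P' * P) * B.1 * (P' * P) := by rw [h2, Matrix.one_mul, Matrix.mul_one]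
      _ = P' * (P * B.1 * P') * P := by simp only [Matrix.mul_assoc]
      _ = P' * (P * C.1 * P') * P := by rw [h4]
      _ = (P' * P) * C.1 * (P' * P) := by simp only [Matrix.mul_assoc]
      _ = C.1 := by rw [h2, Matrix.one_mul, Matrix.mul_one]

end Cfsg.Agent.Lib.Helper18.UE
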