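import Mathlib
import Cfsg.Agent.Lib.Helper18.LSDefs
import Cfsg.Agent.Lib.Helper18.WRDefs
import Cfsg.Agent.Lib.Helper83.IrrBasic

/-!
# Project WR (helper18, S2347), piece IRRFIN (proved by helper77)

A minimal nonzero invariant subspace of a representation yields an irreducible representation
on `Fin k → ℂ`, `k` its dimension.
-/

set_option autoImplicit false

namespace Cfsg.Agent.Lib.Helper18.WR

open Matrix

universe u

variable {F : Type u} [Field F] {n : ℕ}

-- piece IRRFIN
theorem irr_fin_of_min {G : Type*} [Group G] {E : Type*} [AddCommGroup E] [Module ℂ E]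
    [FiniteDimensional ℂ E] (ω : Representation ℂ G E) (C : Submodule ℂ E)
    (hC : ∀ g, ∀ f ∈ C, ω g f ∈ C) (hne : C ≠ ⊥)
    (hmin : ∀ C' : Submodule ℂ E, C' ≤ C → (∀ g, ∀ f ∈ C', ω g f ∈ C') → C' = ⊥ ∨ C' = C)
    (k : ℕ) (hk : Module.finrank ℂ C = k) :
    ∃ ρ : Representation ℂ G (Fin k → ℂ), ρ.IsIrreducible := by
  -- the restricted representation
  obtain ⟨ρC, hρC⟩ : ∃ ρC : Representation ℂ G ↥C,
      ∀ (g : G) (x : ↥C), ((ρC g x : ↥C) : E) = ω g (x : E) :=
    ⟨{ toFun := fun g => (ω g).restrict (hC g)
       map_one' := by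
         apply LinearMap.ext
         intro x
         apply Subtype.ext
         rw [LinearMap.coe_restrict_apply, map_one]
         rfl
       map_mul' := fun g h => by
         apply LinearMap.ext
         intro x
         apply Subtype.ext
         rw [LinearMap.coe_restrict_apply, map_mul]
         rfl }, fun g x => rfl⟩
  have hnC : Nontrivial ↥C := (Submodule.nontrivial_iff_ne_bot).2 hne
  have hirrC : ρC.IsIrreducible := by
    refine { exists_pair_ne := ?_, eq_bot_or_eq_top := ?_ }
    · refine ⟨⊥, ⊤, fun h => ?_⟩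
      have h1 : (⊥ : Subrepresentation ρC).toSubmodule =
          (⊤ : Subrepresentation ρC).toSubmodule := by rw [h]
      exact bot_ne_top h1
    · intro S
      have hle : S.toSubmodule.map C.subtype ≤ C := by
        rintro _ ⟨x, -, rfl⟩
        exact x.2
      have hinv : ∀ g, ∀ f ∈ S.toSubmodule.map C.subtype,
          ω g f ∈ S.toSubmodule.map C.subtype := by
        rintro g _ ⟨x, hx, rfl⟩
        exact ⟨ρC g x, S.apply_mem_toSubmodule g hx, hρC g x⟩
      rcases hmin _ hle hinv with h | h
      · left
        apply Subrepresentation.toSubmodule_injective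
        change S.toSubmodule = ⊥
        rw [eq_bot_iff]
        intro x hx
        have h1 : (x : E) ∈ S.toSubmodule.map C.subtype := ⟨x, hx, rfl⟩
        rw [h, Submodule.mem_bot] at h1
        rw [Submodule.mem_bot]
        exact Subtype.ext h1
      · right
        apply Subrepresentation.toSubmodule_injective
        change S.toSubmodule = ⊤
        rw [eq_top_iff]
        intro x _
        have h1 : (x : E) ∈ S.toSubmodule.map C.subtype := by rw [h]; exact x.2
        obtain ⟨y, hy, hyx⟩ := h1
        have hyx' : y = x := Subtype.ext hyx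
        rw [← hyx']
        exact hy
  -- transport to `Fin k → ℂ`
  have hfin : Module.finrank ℂ ↥C = Module.finrank ℂ (Fin k → ℂ) := by
    rw [hk, Module.finrank_fin_fun]
  obtain ⟨e⟩ : Nonempty (↥C ≃ₗ[ℂ] (Fin k → ℂ)) := ⟨LinearEquiv.ofFinrankEq _ _ hfin⟩
  obtain ⟨ρ, hρ⟩ : ∃ ρ : Representation ℂ G (Fin k → ℂ),
      ∀ (g : G) (v : ↥C), ρ g (e v) = e (ρC g v) :=
    ⟨{ toFun := fun g => e.toLinearMap ∘ₗ ρC g ∘ₗ e.symm.toLinearMap
       map_one' := by
         apply LinearMap.ext
         intro v
         show e (ρC 1 (e.symm v)) = v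
         rw [map_one]
         exact e.apply_symm_apply v
       map_mul' := fun g h => by
         apply LinearMap.ext
         intro v
         show e (ρC (g * h) (e.symm v)) = e (ρC g (e.symm (e (ρC h (e.symm v)))))
         rw [map_mul, e.symm_apply_apply]
         rfl }, fun g v => by
      show e (ρC g (e.symm (e v))) = e (ρC g v)
      rw [e.symm_apply_apply]⟩
  exact ⟨ρ, Cfsg.Agent.Lib.Helper83.irreducible_of_equiv ρC ρ e
    (fun g => ⟨g, fun v => (hρ g v).symm⟩) hirrC⟩

end Cfsg.Agent.Lib.Helper18.WR
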