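import Mathlib
import Cfsg.Agent.Lib.Helper61.F15Defs
import Cfsg.Agent.Lib.Helper11.TTComp

set_option autoImplicit false

/-! Piece P10 of S1615 (for helper61): facts about `Qa D a`. -/

namespace Cfsg.Agent.Lib.Helper77.F15

open Cfsg Cfsg.Agent.Lib.Helper11 Cfsg.Agent.Lib.Helper61.F15

variable {G : Type*} [Group G] {D : Set G}

/-- conjugation by an element commuting with `a` preserves `Dn D a` -/
theorem Dn_conj (hD : IsThreeTranspositionClass D) {a g p : G} (hg : Commute g a)
    (hp : p ∈ Dn D a) : g * p * g⁻¹ ∈ Dn D a := by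
  obtain ⟨hpD, hpa, hap⟩ := hp
  refine ⟨tt_conj_mem hD hpD g, ?_, ?_⟩
  · intro h
    apply hpa
    have h1 : p = g⁻¹ * (g * p * g⁻¹) * g := by group
    rw [h1, h]
    have h2 : g⁻¹ * a * g = a := by
      rw [mul_assoc, ← hg.eq]
      group
    exact h2
  · exact (hg.symm.mul_right hap).mul_right hg.symm.inv_right

/-- distinct members of `Dn D a` do not commute -/
theorem Dn_not_commute (hcoc : Coc D) {a p q : G} (ha : a ∈ D) (hp : p ∈ Dn D a)
    (hq : q ∈ Dn D a) (hpq : p ≠ q) : ¬ Commute p q := by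
  intro h
  exact hcoc p hp.1 q hq.1 a ha hpq (fun e => hp.2.1 e.symm) (fun e => hq.2.1 e.symm) h
    hp.2.2 hq.2.2

theorem Qa_commute {a t : G} (ht : t ∈ Qa D a) : Commute t a := by
  have hle : Qa D a ≤ Subgroup.centralizer ({a} : Set G) := by
    unfold Qa
    rw [Subgroup.closure_le]
    rintro t ⟨p, q, hp, hq, rfl⟩
    rw [SetLike.mem_coe, Subgroup.mem_centralizer_iff]
    intro y hy
    rw [Set.mem_singleton_iff] at hy
    rw [hy]
    exact (hp.2.2.mul_right hq.2.2).eq
  have h := hle ht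
  rw [Subgroup.mem_centralizer_iff] at h
  exact (h a rfl).symm

theorem Qa_conj_Dn (hD : IsThreeTranspositionClass D) {a t p : G} (ht : t ∈ Qa D a)
    (hp : p ∈ Dn D a) : t * p * t⁻¹ ∈ Dn D a :=
  Dn_conj hD (Qa_commute ht) hp

theorem Qa_conj_by (hD : IsThreeTranspositionClass D) {a t p : G} (hp : p ∈ Dn D a)
    (ht : t ∈ Qa D a) : p * t * p⁻¹ ∈ Qa D a := by
  have hpa : Commute p a := hp.2.2.symm
  unfold Qa at ht ⊢
  induction ht using Subgroup.closure_induction with
  | mem x hx =>
    obtain ⟨p1, p2, hp1, hp2, rfl⟩ := hx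
    apply Subgroup.subset_closure
    refine ⟨p * p1 * p⁻¹, p * p2 * p⁻¹, Dn_conj hD hpa hp1, Dn_conj hD hpa hp2, ?_⟩
    group
  | one =>
    have e : p * 1 * p⁻¹ = 1 := by group
    rw [e]
    exact one_mem _
  | mul x y _ _ hx hy =>
    have e : p * (x * y) * p⁻¹ = (p * x * p⁻¹) * (p * y * p⁻¹) := by group
    rw [e]
    exact mul_mem hx hy
  | inv x _ hx =>
    have e : p * x⁻¹ * p⁻¹ = (p * x * p⁻¹)⁻¹ := by group
    rw [e]
    exact inv_mem hx

theorem Qa_trans (hD : IsThreeTranspositionClass D) (hcoc : Coc D) {a p q : G} (ha : a ∈ D)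
    (hp : p ∈ Dn D a) (hq : q ∈ Dn D a) : ∃ t ∈ Qa D a, t * p * t⁻¹ = q := by
  by_cases hpq : p = q
  · subst hpq
    exact ⟨1, one_mem _, by group⟩
  · have hnc := Dn_not_commute hcoc ha hp hq hpq
    have hbr := (tt_braid hD hp.1 hq.1 hnc).1
    refine ⟨p * q, Subgroup.subset_closure ⟨p, q, hp, hq, rfl⟩, ?_⟩
    have hpp := tt_sq hD hp.1
    have hqq := tt_sq hD hq.1
    have hpi := tt_inv hD hp.1
    have hqi := tt_inv hD hq.1
    rw [mul_inv_rev, hpi, hqi]
    calc p * q * p * (q * p) = (p * q * p) * q * p := by group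
      _ = (q * p * q) * q * p := by rw [hbr]
      _ = q * p * (q * q) * p := by group
      _ = q * (p * p) := by rw [hqq]; group
      _ = q := by rw [hpp, mul_one]

theorem Qa_pgroup [Finite G] (hD : IsThreeTranspositionClass D) (hcoc : Coc D) {a : G}
    (ha : a ∈ D) : IsPGroup 3 (Qa D a) := by
  by_cases hne : (Dn D a).Nonempty
  · obtain ⟨d, hd⟩ := hne
    have hE : IsThreeTranspositionSet (Dn D a) :=
      ⟨fun x hx => hD.1.1 x hx.1, fun x hx y hy => hD.1.2 x hx.1 y hy.1⟩
    have hHa : ∀ h ∈ Subgroup.closure (Dn D a), Commute h a := by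
      have hle : Subgroup.closure (Dn D a) ≤ Subgroup.centralizer ({a} : Set G) := by
        rw [Subgroup.closure_le]
        intro x hx
        rw [SetLike.mem_coe, Subgroup.mem_centralizer_iff]
        intro y hy
        rw [Set.mem_singleton_iff] at hy
        rw [hy]
        exact hx.2.2.eq
      intro h hh
      have h1 := hle hh
      rw [Subgroup.mem_centralizer_iff] at h1
      exact (h1 a rfl).symm
    obtain ⟨P, hP3, -, hP⟩ := width_one_sub (H := Subgroup.closure (Dn D a)) hE rfl
      (fun h hh e he => Dn_conj hD (hHa h hh) he)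
      (fun x hx y hy hxy => by
        by_contra hne
        exact Dn_not_commute hcoc ha hx hy hne hxy) hd
    have hnot : ∀ p ∈ Dn D a, p ∉ P := by
      intro p hp hpP
      obtain ⟨k, hk⟩ := hP3 ⟨p, hpP⟩
      have h1 : p ^ (3 ^ k) = 1 := by
        have := congrArg Subtype.val hk
        simpa using this
      have h2 := orderOf_dvd_of_pow_eq_one h1
      rw [hD.1.1 p hp.1] at h2
      have h3 := (Nat.prime_two.dvd_of_dvd_pow h2)
      omega
    have hdp : ∀ p ∈ Dn D a, d * p ∈ P := by
      intro p hp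
      rcases hP p (Subgroup.subset_closure hp) with h | h
      · exact absurd h (hnot p hp)
      · exact h
    have hle : Qa D a ≤ P := by
      unfold Qa
      rw [Subgroup.closure_le]
      rintro t ⟨p, q, hp, hq, rfl⟩
      have e : p * q = (d * p)⁻¹ * (d * q) := by
        rw [mul_inv_rev, tt_inv hD hp.1]
        group
      rw [SetLike.mem_coe, e]
      exact mul_mem (inv_mem (hdp p hp)) (hdp q hq)
    exact hP3.to_le hle
  · have hbot : Qa D a = ⊥ := by
      unfold Qa
      rw [Subgroup.closure_eq_bot_iff]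
      rintro t ⟨p, q, hp, -, -⟩
      exact absurd ⟨p, hp⟩ hne
    rw [hbot]
    exact IsPGroup.of_bot

end Cfsg.Agent.Lib.Helper77.F15
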