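import Cfsg.Agent.Lib.Helper46.BSW0
import Cfsg.Agent.Lib.Helper4.CharExp2
import Cfsg.Agent.Lib.Helper92.BSWG1

/-!
# Brauer–Suzuki–Wall, piece VALB (poster helper46, S3282): values of `Δ` off `K`
-/

set_option autoImplicit false

namespace Cfsg.Agent.Lib.Helper77.BSWVALB

open Cfsg Cfsg.Agent.Lib.Helper4 Cfsg.Agent.Lib.Helper46.BSW
open scoped ComplexConjugate

universe u

variable {G : Type u} [Group G]

/-- a rational algebraic integer in `ℂ` is an integer -/
theorem int_of_isIntegral_rat (r : ℚ) (h : IsIntegral ℤ ((r : ℚ) : ℂ)) : ∃ m : ℤ, (r : ℂ) = (m : ℂ) := by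
  have h1 : IsIntegral ℤ r := by
    have : algebraMap ℚ ℂ r = (r : ℂ) := rfl
    rw [← this] at h
    exact (isIntegral_algebraMap_iff (algebraMap ℚ ℂ).injective).mp h
  obtain ⟨y, hy⟩ := IsIntegrallyClosed.isIntegral_iff.mp h1
  refine ⟨y, ?_⟩
  have hy' : (y : ℚ) = r := by simpa using hy
  rw [← hy']
  simp

theorem off_ne_one {K : Subgroup G} {g : G} (hg : Off K g) : g ≠ 1 := by
  rintro rfl
  exact hg 1 (by simp)

open scoped Classical in
/-- splitting a sum over `G` into `1`, the nonidentity elements conjugate into `K`, and the rest -/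
theorem sum_split [Fintype G] (K : Subgroup G) (F : G → ℂ) :
    ∑ g : G, F g = F 1 + ∑ g : G, (if ¬ Off K g ∧ g ≠ 1 then F g else 0)
      + ∑ g : G, (if Off K g then F g else 0) := by
  have h1 : F 1 = ∑ g : G, (if g = 1 then F g else 0) := by
    rw [Finset.sum_ite_eq' Finset.univ (1 : G) F]
    simp
  rw [h1, ← Finset.sum_add_distrib, ← Finset.sum_add_distrib]
  refine Finset.sum_congr rfl fun g _ => ?_
  by_cases hg1 : g = 1
  · subst hg1
    have : ¬ Off K (1 : G) := fun h => off_ne_one h rfl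
    simp [this]
  · by_cases hO : Off K g
    · simp [hg1, hO]
    · simp [hg1, hO]

open scoped Classical in
theorem sum_K_const [Fintype G] (K : Subgroup G) (F : G → ℂ) (c : ℂ)
    (hF : ∀ x ∈ K, x ≠ 1 → F x = c) :
    ∑ x : G, (if x ∈ K ∧ x ≠ 1 then F x else 0) = ((Nat.card K : ℂ) - 1) * c := by
  have h1 : ∑ x : G, (if x ∈ K ∧ x ≠ 1 then F x else 0) =
      ∑ x : G, (if x ∈ K ∧ x ≠ 1 then c else 0) := by
    refine Finset.sum_congr rfl fun x _ => ?_
    by_cases hx : x ∈ K ∧ x ≠ 1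
    · rw [if_pos hx, if_pos hx, hF x hx.1 hx.2]
    · rw [if_neg hx, if_neg hx]
  rw [h1, ← Finset.sum_filter, Finset.sum_const, nsmul_eq_mul]
  have h2 : (Finset.univ.filter (fun x : G => x ∈ K ∧ x ≠ 1)) =
      (Finset.univ.filter (fun x : G => x ∈ K)).erase 1 := by
    ext x
    simp only [Finset.mem_filter, Finset.mem_univ, true_and, Finset.mem_erase]
    tauto
  have h3 : (Finset.univ.filter (fun x : G => x ∈ K)).card = Nat.card K := by
    rw [Nat.card_eq_fintype_card, Fintype.card_subtype]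
  have h4 : (1 : G) ∈ Finset.univ.filter (fun x : G => x ∈ K) := by
    simp [K.one_mem]
  rw [h2, Finset.card_erase_of_mem h4, h3]
  have hpos : 1 ≤ Nat.card K := Nat.card_pos
  rw [Nat.cast_sub hpos, Nat.cast_one]

end Cfsg.Agent.Lib.Helper77.BSWVALB

namespace Cfsg.Agent.Lib.Helper46.BSW

open Cfsg Cfsg.Agent.Lib.Helper4 Cfsg.Agent.Lib.Helper77.BSWVALB
open scoped ComplexConjugate

universe u

variable {G : Type u} [Group G]

/-! ### Piece VALB : values of `Δ` off `K` -/
theorem stage1_of_stage1a [Fintype G] [Fintype (IrrCharacter G)] {t s : G} {K : Subgroup G}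
    (h : Setup t s K) (hk : 4 ≤ Nat.card K) (δ : ℤ) (Δ : IrrCharacter G) (hΔ : Δ ≠ trivIrr)
    (hA : Stage1a K δ Δ) : Stage1 K δ Δ := by
  classical
  set k : ℕ := Nat.card K with hk_def
  set n : ℕ := (Subgroup.centralizer ({t} : Set G)).index with hn_def
  have hcardH := setup_card_cent h
  have hG : Nat.card G = 2 * k * n := by
    rw [← hcardH]
    exact (Subgroup.card_mul_index _).symm
  have hδ := hA.hδ
  have hkZ : (4 : ℤ) ≤ (k : ℤ) := by exact_mod_cast hk
  have hn : (n : ℤ) = (2 * (k : ℤ) + δ) * ((k : ℤ) + δ) := by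
    have h1 := hA.index
    rw [hG] at h1
    push_cast at h1
    have hk0 : (2 * (k : ℤ)) ≠ 0 := by omega
    apply mul_left_cancel₀ hk0
    linarith
  have hGC : (Nat.card G : ℂ) = 2 * (k : ℂ) * (n : ℂ) := by
    rw [hG]
    push_cast
    ring
  have hnC : (n : ℂ) = (2 * (k : ℂ) + (δ : ℂ)) * ((k : ℂ) + (δ : ℂ)) := by exact_mod_cast hn
  have hδ2 : (δ : ℂ) * (δ : ℂ) = 1 := by
    rcases hδ with rfl | rfl <;> norm_num
  -- class functions
  have cfΔ : IsClassFunction G (Δ : G → ℂ) := isClassFunction_irr Δ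
  have cf1 : IsClassFunction G (fun _ : G => (1 : ℂ)) := fun _ _ => rfl
  have cfΔ2 : IsClassFunction G (fun g : G => (Δ : G → ℂ) g * conj ((Δ : G → ℂ) g)) := by
    intro g x
    show (Δ : G → ℂ) (x * g * x⁻¹) * conj ((Δ : G → ℂ) (x * g * x⁻¹)) =
      (Δ : G → ℂ) g * conj ((Δ : G → ℂ) g)
    rw [cfΔ g x]
  -- sums over the nonidentity elements conjugate into `K`
  have S1 := setup_count h (fun _ : G => (1 : ℂ)) cf1
  rw [sum_K_const K (fun _ : G => (1 : ℂ)) 1 (fun _ _ _ => rfl)] at S1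
  have S2 := setup_count h (Δ : G → ℂ) cfΔ
  rw [sum_K_const K (Δ : G → ℂ) (δ : ℂ) hA.valK] at S2
  have S3 := setup_count h (fun g : G => (Δ : G → ℂ) g * conj ((Δ : G → ℂ) g)) cfΔ2
  rw [sum_K_const K (fun g : G => (Δ : G → ℂ) g * conj ((Δ : G → ℂ) g)) 1 (by
    intro x hx hx1
    show (Δ : G → ℂ) x * conj ((Δ : G → ℂ) x) = 1
    rw [hA.valK x hx hx1]
    have : conj (δ : ℂ) = (δ : ℂ) := map_intCast (starRingEnd ℂ) δ
    rw [this, hδ2])] at S3
  -- orthogonality
  have T1 : ∑ g : G, (Δ : G → ℂ) g = 0 := by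
    have h1 := classInner_irr Δ trivIrr
    rw [if_neg hΔ, classInner] at h1
    have hne : (Nat.card G : ℂ)⁻¹ ≠ 0 := inv_ne_zero card_ne_zero_complex
    have h2 := (mul_eq_zero.1 h1).resolve_left hne
    rw [← h2]
    refine Finset.sum_congr rfl fun g _ => ?_
    rw [show ((trivIrr : IrrCharacter G) : G → ℂ) g = 1 from rfl, map_one, mul_one]
  have T2 : ∑ g : G, (Δ : G → ℂ) g * conj ((Δ : G → ℂ) g) = (Nat.card G : ℂ) := by
    have h1 := classInner_irr Δ Δ
    rw [if_pos rfl, classInner] at h1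
    have hne : (Nat.card G : ℂ) ≠ 0 := card_ne_zero_complex
    field_simp at h1
    exact h1
  -- the three sums off `K`
  have U0 := sum_split K (fun _ : G => (1 : ℂ))
  have U1 := sum_split K (Δ : G → ℂ)
  have U2 := sum_split K (fun g : G => (Δ : G → ℂ) g * conj ((Δ : G → ℂ) g))
  rw [S1] at U0
  rw [S2, T1, hA.deg] at U1
  rw [S3, T2, hA.deg] at U2
  have hc0 : ∑ _g : G, (1 : ℂ) = (Nat.card G : ℂ) := by
    rw [Finset.sum_const, Finset.card_univ, Nat.card_eq_fintype_card]
    simp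
  rw [hc0] at U0
  have hconj : conj (2 * (k : ℂ) + (δ : ℂ)) = 2 * (k : ℂ) + (δ : ℂ) := by
    rw [map_add, map_mul, map_intCast, map_natCast, map_ofNat]
  rw [hconj] at U2
  set O0 : ℂ := ∑ g : G, (if Off K g then (1 : ℂ) else 0) with hO0
  set O1 : ℂ := ∑ g : G, (if Off K g then (Δ : G → ℂ) g else 0) with hO1
  set O2 : ℂ := ∑ g : G, (if Off K g then (Δ : G → ℂ) g * conj ((Δ : G → ℂ) g) else 0) with hO2
  -- integrality
  have hint : ∀ z, Off K z → ∃ m : ℤ, (Δ : G → ℂ) z = (m : ℂ) := by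
    intro z hz
    have hkne : (k : ℂ) ≠ 0 := by
      have : k ≠ 0 := by omega
      exact_mod_cast this
    have hk1ne : (k : ℂ) - 1 ≠ 0 := by
      have : (k : ℤ) - 1 ≠ 0 := by omega
      exact_mod_cast this
    rcases hδ with hδ1 | hδ1
    · have e := hA.inv_pos hδ1 z hz
      have e2 : (Δ : G → ℂ) z =
          (((((invCount z : ℕ) : ℚ) - (2 * (k : ℚ) + 1)) / (k : ℚ) : ℚ) : ℂ) := by
        push_cast
        field_simp
        linear_combination -e
      obtain ⟨m, hm⟩ := int_of_isIntegral_rat _ (e2 ▸ irr_isIntegral Δ z)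
      exact ⟨m, e2.trans hm⟩
    · have e := hA.inv_neg hδ1 z hz
      have e2 : (Δ : G → ℂ) z =
          ((((invCount z : ℕ) : ℚ) / ((k : ℚ) - 1) : ℚ) : ℂ) := by
        push_cast
        field_simp
        linear_combination -e
      obtain ⟨m, hm⟩ := int_of_isIntegral_rat _ (e2 ▸ irr_isIntegral Δ z)
      exact ⟨m, e2.trans hm⟩
  choose! m hm using hint
  -- the key vanishing sum
  have hV : O2 + (δ : ℂ) * O1 = 0 := by
    linear_combination (-1 : ℂ) * U2 - (δ : ℂ) * U1 + hGC - ((n : ℂ) * ((k : ℂ) - 1)) * hδ2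
      + 2 * hnC
  have hVZ : ∑ g : G, (if Off K g then m g * (m g + δ) else 0) = 0 := by
    have hcast : ((∑ g : G, (if Off K g then m g * (m g + δ) else 0) : ℤ) : ℂ) =
        O2 + (δ : ℂ) * O1 := by
      rw [hO2, hO1, Finset.mul_sum, ← Finset.sum_add_distrib]
      push_cast
      refine Finset.sum_congr rfl fun g _ => ?_
      by_cases hg : Off K g
      · rw [if_pos hg, if_pos hg, if_pos hg, hm g hg, map_intCast]
        ring
      · rw [if_neg hg, if_neg hg, if_neg hg]
        simp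
    rw [hV] at hcast
    exact_mod_cast hcast
  have hnonneg : ∀ g ∈ (Finset.univ : Finset G), 0 ≤ (if Off K g then m g * (m g + δ) else 0) := by
    intro g _
    split_ifs
    · rcases hδ with rfl | rfl
      · have : m g ≤ -1 ∨ 0 ≤ m g := by omega
        rcases this with h1 | h1 <;> nlinarith
      · have : m g ≤ 0 ∨ 1 ≤ m g := by omega
        rcases this with h1 | h1 <;> nlinarith
    · exact le_refl 0
  have hterm := (Finset.sum_eq_zero_iff_of_nonneg hnonneg).1 hVZ
  have hoff : ∀ z, Off K z → (Δ : G → ℂ) z = 0 ∨ (Δ : G → ℂ) z = -(δ : ℂ) := by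
    intro z hz
    have h1 := hterm z (Finset.mem_univ z)
    rw [if_pos hz] at h1
    rcases mul_eq_zero.1 h1 with h2 | h2
    · left
      rw [hm z hz, h2]
      simp
    · right
      have : m z = -δ := by linarith
      rw [hm z hz, this]
      push_cast
      ring
  have hδne : (δ : ℂ) ≠ 0 := by
    intro h0
    rw [h0] at hδ2
    simp at hδ2
  refine ⟨hA, hoff, ?_, ?_⟩
  · -- card of E0
    have hcard : (Nat.card {z : G // Off K z ∧ (Δ : G → ℂ) z = 0} : ℂ) = O0 + (δ : ℂ) * O1 := by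
      rw [Nat.card_eq_fintype_card, Fintype.card_subtype, hO0, hO1, Finset.mul_sum,
        ← Finset.sum_add_distrib, ← Finset.sum_boole]
      refine Finset.sum_congr rfl fun g _ => ?_
      by_cases hg : Off K g
      · rw [if_pos hg, if_pos hg]
        rcases hoff g hg with h0 | h0
        · rw [if_pos ⟨hg, h0⟩, h0]
          ring
        · have hne : (Δ : G → ℂ) g ≠ 0 := by
            rw [h0]
            exact neg_ne_zero.2 hδne
          rw [if_neg (fun hh => hne hh.2), h0]
          linear_combination hδ2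
      · rw [if_neg hg, if_neg hg, if_neg (fun hh => hg hh.1)]
        ring
    have hval : O0 + (δ : ℂ) * O1 = (2 * (k : ℂ) + (δ : ℂ)) ^ 2 - 1 := by
      linear_combination (-1 : ℂ) * U0 - (δ : ℂ) * U1 + hGC
        - ((n : ℂ) * ((k : ℂ) - 1)) * hδ2 + 2 * hnC
    rw [hval] at hcard
    exact_mod_cast hcard
  · -- existence of an element with value -δ
    by_contra hne
    push Not at hne
    have hO1z : O1 = 0 := by
      rw [hO1]
      refine Finset.sum_eq_zero fun g _ => ?_
      by_cases hg : Off K g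
      · rw [if_pos hg]
        rcases hoff g hg with h0 | h0
        · exact h0
        · exact absurd h0 (hne g hg)
      · rw [if_neg hg]
    rw [hO1z] at U1
    have hZ : (2 * (k : ℤ) + δ) + (n : ℤ) * (((k : ℤ) - 1) * δ) = 0 := by
      have : ((2 * (k : ℤ) + δ + (n : ℤ) * (((k : ℤ) - 1) * δ) : ℤ) : ℂ) = 0 := by
        push_cast
        linear_combination -U1
      exact_mod_cast this
    rw [hn] at hZ
    rcases hδ with rfl | rfl
    · nlinarith
    · nlinarith [mul_pos (show (0 : ℤ) < 2 * (k : ℤ) - 1 by omega)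
        (show (0 : ℤ) < ((k : ℤ) - 1) * ((k : ℤ) - 1) - 1 by nlinarith)]

end Cfsg.Agent.Lib.Helper46.BSW
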