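import Cfsg.Agent.Lib.Helper47.S76Defs
import Cfsg.Agent.Lib.Helper47.QfB

/-!
# S5976 project (helper47), piece USTDC (helper77): transport a form with an isometry and a
commutant property to the standard symplectic group
-/

set_option autoImplicit false

universe u

namespace Cfsg.Agent.Lib.Helper77.S76USTDC

open Matrix Polynomial Cfsg.Agent.Lib.Helper47 Cfsg.Agent.Lib.Helper47.S76

variable {F : Type u} [Field F]

-- PIECE USTDC
theorem sp_of_form_comm [Fintype F] (d r : ℕ)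
    (B : (Fin d ⊕ Fin d → F) → (Fin d ⊕ Fin d → F) → F)
    (g : (Fin d ⊕ Fin d → F) →ₗ[F] (Fin d ⊕ Fin d → F))
    (hB : IsSForm (RingHom.id F) (-1) B) (hnd : Nondeg B) (halt : ∀ x, B x x = 0)
    (hg : ∀ x y, B (g x) (g y) = B x y) (hgr : g ^ r = 1) (hfix : ∀ v, g v = v → v = 0)
    (hcomm : ∀ (T : (Fin d ⊕ Fin d → F) →ₗ[F] (Fin d ⊕ Fin d → F)) (δ : F),
        (∀ v, T (g v) = g (T v)) → (∀ x y, B (T x) y = - B x (T y)) → (∀ v, T (T v) = δ • v) →
        ∃ c : F, c * c = δ) :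
    ∃ Y : Matrix (Fin d ⊕ Fin d) (Fin d ⊕ Fin d) F, Y ∈ Matrix.symplecticGroup (Fin d) F ∧
      Y ^ r = 1 ∧ (∀ v, Y *ᵥ v = v → v = 0) ∧
      ∀ (T : Matrix (Fin d ⊕ Fin d) (Fin d ⊕ Fin d) F) (δ : F), T * Y = Y * T → IsSkew d T →
        T * T = δ • (1 : Matrix (Fin d ⊕ Fin d) (Fin d ⊕ Fin d) F) → ∃ c : F, c * c = δ := by
  obtain ⟨φ, -, hφ⟩ := exists_isometry_conj (F := F) (σ := RingHom.id F) (ε := -1)
    (fun x => rfl) (Or.inl ⟨rfl, rfl⟩)
    (Module.finrank F (Fin d ⊕ Fin d → F)) (Fin d ⊕ Fin d → F) (Fin d ⊕ Fin d → F)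
    (spForm (Fin d) F) B LinearMap.id LinearMap.id rfl
    spForm_isSForm hB spForm_nondeg hnd (fun _ x => spForm_alt x) (fun _ x => halt x)
    Module.End.isSemisimple_id Module.End.isSemisimple_id (fun x y => rfl) (fun x y => rfl) rfl
  obtain ⟨h, hh⟩ : ∃ h : (Fin d ⊕ Fin d → F) →ₗ[F] (Fin d ⊕ Fin d → F),
      ∀ x, h x = φ.symm (g (φ x)) :=
    ⟨φ.symm.toLinearMap ∘ₗ g ∘ₗ φ.toLinearMap, fun x => rfl⟩
  have hpow : ∀ n x, (h ^ n) x = φ.symm ((g ^ n) (φ x)) := by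
    intro n
    induction n with
    | zero =>
      intro x
      rw [pow_zero, pow_zero, Module.End.one_apply, Module.End.one_apply, φ.symm_apply_apply]
    | succ n ih =>
      intro x
      rw [pow_succ, Module.End.mul_apply, ih, pow_succ, Module.End.mul_apply, hh,
        φ.apply_symm_apply]
  have hhr : h ^ r = 1 := by
    apply LinearMap.ext
    intro x
    rw [hpow, hgr, Module.End.one_apply, Module.End.one_apply, φ.symm_apply_apply]
  have e1 : ∀ z, (LinearMap.toMatrixAlgEquiv' h) *ᵥ z = h z := by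
    intro z
    rw [← Matrix.toLin'_apply]
    exact congrFun (congrArg DFunLike.coe (Matrix.toLin'_toMatrix' h)) z
  refine ⟨LinearMap.toMatrixAlgEquiv' h, ?_, ?_, ?_, ?_⟩
  · apply mem_sp_of_isometry
    intro x y
    rw [e1, e1, hh, hh, ← hφ, φ.apply_symm_apply, φ.apply_symm_apply, hg, hφ]
  · rw [← map_pow, hhr, map_one]
  · intro v hv
    rw [e1, hh] at hv
    have h1 : g (φ v) = φ v := by
      have := congrArg φ hv
      rw [φ.apply_symm_apply] at this
      exact this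
    have h2 := hfix _ h1
    exact φ.map_eq_zero_iff.mp h2
  · intro T δ hTY hskew hTT
    obtain ⟨T', hT'⟩ : ∃ T' : (Fin d ⊕ Fin d → F) →ₗ[F] (Fin d ⊕ Fin d → F),
        ∀ x, T' x = φ (T *ᵥ (φ.symm x)) :=
      ⟨φ.toLinearMap ∘ₗ Matrix.toLin' T ∘ₗ φ.symm.toLinearMap, fun x => by
        simp [Matrix.toLin'_apply]⟩
    apply hcomm T' δ
    · intro v
      rw [hT', hT']
      have h1 : φ.symm (g v) = (LinearMap.toMatrixAlgEquiv' h) *ᵥ (φ.symm v) := by
        rw [e1, hh, φ.apply_symm_apply]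
      rw [h1, Matrix.mulVec_mulVec, hTY, ← Matrix.mulVec_mulVec, e1, hh, φ.apply_symm_apply]
    · intro x y
      rw [hT', hT']
      have hx : B (φ (T *ᵥ φ.symm x)) y = spForm (Fin d) F (T *ᵥ φ.symm x) (φ.symm y) := by
        rw [← hφ, φ.apply_symm_apply]
      have hy : B x (φ (T *ᵥ φ.symm y)) = spForm (Fin d) F (φ.symm x) (T *ᵥ φ.symm y) := by
        rw [← hφ, φ.apply_symm_apply]
      rw [hx, hy, hskew]
    · intro v
      rw [hT', hT', φ.symm_apply_apply, Matrix.mulVec_mulVec, hTT, Matrix.smul_mulVec,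
        Matrix.one_mulVec, map_smul, φ.apply_symm_apply]

end Cfsg.Agent.Lib.Helper77.S76USTDC
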