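import Mathlib

/-!
# Piece PD of S2930 (helper6): three orbits give two maximal overgroups
-/

set_option autoImplicit false

namespace Cfsg.Agent.Lib.Helper6.PM3

open scoped Pointwise
open MulAction

/-- membership of a translate in an orbit of a subgroup -/
theorem pd_smul_mem_orbit (n : ℕ) (S : Subgroup (alternatingGroup (Fin n)))
    (g : alternatingGroup (Fin n)) (hg : g ∈ S) (p b : Fin n) :
    g • b ∈ orbit S p ↔ b ∈ orbit S p := by
  rw [← MulAction.orbit_eq_iff, ← MulAction.orbit_eq_iff]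
  have : orbit S (g • b) = orbit S b := MulAction.orbit_smul (⟨g, hg⟩ : S) b
  rw [this]

theorem pd_le_stabilizer (n : ℕ) (S : Subgroup (alternatingGroup (Fin n))) (p : Fin n) :
    S ≤ stabilizer (alternatingGroup (Fin n)) (orbit S p) := by
  intro g hg
  rw [MulAction.mem_stabilizer_set]
  intro b
  exact pd_smul_mem_orbit n S g hg p b

theorem pd_symm (n : ℕ) (S : Subgroup (alternatingGroup (Fin n))) (p q : Fin n)
    (h : q ∉ orbit S p) : p ∉ orbit S q := by
  intro hp
  apply h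
  rw [MulAction.orbit_eq_iff.mpr hp]
  exact MulAction.mem_orbit_self q

theorem pd_disjoint (n : ℕ) (S : Subgroup (alternatingGroup (Fin n))) (p q : Fin n)
    (h : q ∉ orbit S p) : Disjoint (orbit S p) (orbit S q) := by
  rw [Set.disjoint_left]
  intro w hw1 hw2
  apply h
  have e1 := MulAction.orbit_eq_iff.mpr hw1
  have e2 := MulAction.orbit_eq_iff.mpr hw2
  rw [← e1, e2]
  exact MulAction.mem_orbit_self q

theorem pd_not_both (n : ℕ) (S : Subgroup (alternatingGroup (Fin n))) (p q r : Fin n)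
    (hpq : q ∉ orbit S p) (hpr : r ∉ orbit S p) (hqr : r ∉ orbit S q) :
    ¬ (Nat.card (Fin n) = 2 * (orbit S p).ncard ∧ Nat.card (Fin n) = 2 * (orbit S q).ncard) := by
  rintro ⟨h1, h2⟩
  have hdisj : Disjoint (orbit S p) (orbit S q) := pd_disjoint n S p q hpq
  have hcard : (orbit S p ∪ orbit S q).ncard = (orbit S p).ncard + (orbit S q).ncard :=
    Set.ncard_union_eq hdisj (Set.toFinite _) (Set.toFinite _)
  have hsub : orbit S p ∪ orbit S q ⊆ ({r}ᶜ : Set (Fin n)) := by
    intro w hw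
    rcases hw with hw | hw
    · intro h; rw [Set.mem_singleton_iff] at h; exact hpr (h ▸ hw)
    · intro h; rw [Set.mem_singleton_iff] at h; exact hqr (h ▸ hw)
  have hle := Set.ncard_le_ncard hsub (Set.toFinite _)
  have hc : ({r}ᶜ : Set (Fin n)).ncard = Nat.card (Fin n) - 1 := by
    rw [Set.ncard_compl, Set.ncard_singleton]
  have hpos : 0 < Nat.card (Fin n) := by
    rw [Nat.card_eq_fintype_card, Fintype.card_fin]
    exact Fin.pos r
  omega

theorem pd_core (n : ℕ) (hn : 5 ≤ n) (S : Subgroup (alternatingGroup (Fin n))) (p q r : Fin n)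
    (hpq : q ∉ orbit S p) (hpr : r ∉ orbit S p) (hqr : r ∉ orbit S q)
    (h1 : Nat.card (Fin n) ≠ 2 * (orbit S p).ncard)
    (h2 : Nat.card (Fin n) ≠ 2 * (orbit S q).ncard) :
    ∃ M₁ M₂ : Subgroup (alternatingGroup (Fin n)), IsCoatom M₁ ∧ IsCoatom M₂ ∧ S ≤ M₁ ∧ S ≤ M₂ ∧
      M₁ ≠ M₂ := by
  classical
  have hps : p ∈ orbit S p := MulAction.mem_orbit_self p
  have hqt : q ∈ orbit S q := MulAction.mem_orbit_self q
  have hqr' : q ≠ r := fun h => hqr (h ▸ hqt)
  refine ⟨stabilizer (alternatingGroup (Fin n)) (orbit S p),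
    stabilizer (alternatingGroup (Fin n)) (orbit S q),
    alternatingGroup.isCoatom_stabilizer ⟨p, hps⟩ ⟨q, Set.mem_compl hpq⟩ h1,
    alternatingGroup.isCoatom_stabilizer ⟨q, hqt⟩ ⟨r, Set.mem_compl hqr⟩ h2,
    pd_le_stabilizer n S p, pd_le_stabilizer n S q, ?_⟩
  -- three further points
  have hcard : 2 < ((Finset.univ.erase q).erase r).card := by
    rw [Finset.card_erase_of_mem (Finset.mem_erase.mpr ⟨hqr'.symm, Finset.mem_univ _⟩),
      Finset.card_erase_of_mem (Finset.mem_univ _), Finset.card_univ, Fintype.card_fin]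
    omega
  obtain ⟨a, b, c, ha, hb, hc, hab, hac, hbc⟩ := Finset.two_lt_card_iff.mp hcard
  simp only [Finset.mem_erase, Finset.mem_univ, and_true] at ha hb hc
  -- a pair on the same side of `s`
  obtain ⟨a', b', hne, ha'q, ha'r, hb'q, hb'r, hside⟩ : ∃ a' b' : Fin n, a' ≠ b' ∧ a' ≠ q ∧
      a' ≠ r ∧ b' ≠ q ∧ b' ≠ r ∧ (a' ∈ orbit S p ↔ b' ∈ orbit S p) := by
    by_cases h1 : (a ∈ orbit S p ↔ b ∈ orbit S p)
    · exact ⟨a, b, hab, ha.2, ha.1, hb.2, hb.1, h1⟩
    · by_cases h2 : (a ∈ orbit S p ↔ c ∈ orbit S p)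
      · exact ⟨a, c, hac, ha.2, ha.1, hc.2, hc.1, h2⟩
      · exact ⟨b, c, hbc, hb.2, hb.1, hc.2, hc.1, by tauto⟩
  -- the element
  have hsign : Equiv.Perm.sign (Equiv.swap q r * Equiv.swap a' b') = 1 := by
    rw [Equiv.Perm.sign_mul, Equiv.Perm.sign_swap hqr', Equiv.Perm.sign_swap hne]
    rfl
  let g : alternatingGroup (Fin n) :=
    ⟨Equiv.swap q r * Equiv.swap a' b', Equiv.Perm.mem_alternatingGroup.mpr hsign⟩
  have hgv : ∀ w : Fin n, g • w = Equiv.swap q r (Equiv.swap a' b' w) := fun w => rfl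
  intro hM
  have hg1 : g ∈ stabilizer (alternatingGroup (Fin n)) (orbit S p) := by
    rw [MulAction.mem_stabilizer_set]
    intro w
    rw [hgv]
    by_cases hwa : w = a'
    · rw [hwa, Equiv.swap_apply_left, Equiv.swap_apply_of_ne_of_ne hb'q hb'r]
      exact hside.symm
    · by_cases hwb : w = b'
      · rw [hwb, Equiv.swap_apply_right, Equiv.swap_apply_of_ne_of_ne ha'q ha'r]
        exact hside
      · rw [Equiv.swap_apply_of_ne_of_ne hwa hwb]
        by_cases hwq : w = q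
        · rw [hwq, Equiv.swap_apply_left]
          exact ⟨fun h => absurd h hpr, fun h => absurd h hpq⟩
        · by_cases hwr : w = r
          · rw [hwr, Equiv.swap_apply_right]
            exact ⟨fun h => absurd h hpq, fun h => absurd h hpr⟩
          · rw [Equiv.swap_apply_of_ne_of_ne hwq hwr]
  rw [hM, MulAction.mem_stabilizer_set] at hg1
  have := (hg1 q).mpr hqt
  rw [hgv, Equiv.swap_apply_of_ne_of_ne ha'q.symm hb'q.symm, Equiv.swap_apply_left] at this
  exact hqr this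

theorem two_coatoms_of_three_orbits (n : ℕ) (hn : 5 ≤ n) (S : Subgroup (alternatingGroup (Fin n)))
    (x y z : Fin n) (hxy : y ∉ orbit S x) (hxz : z ∉ orbit S x) (hyz : z ∉ orbit S y) :
    ∃ M₁ M₂ : Subgroup (alternatingGroup (Fin n)), IsCoatom M₁ ∧ IsCoatom M₂ ∧ S ≤ M₁ ∧ S ≤ M₂ ∧
      M₁ ≠ M₂ := by
  have hyx : x ∉ orbit S y := pd_symm n S x y hxy
  have hzx : x ∉ orbit S z := pd_symm n S x z hxz
  have hzy : y ∉ orbit S z := pd_symm n S y z hyz
  by_cases hX : Nat.card (Fin n) = 2 * (orbit S x).ncard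
  · have hY : Nat.card (Fin n) ≠ 2 * (orbit S y).ncard :=
      fun h => pd_not_both n S x y z hxy hxz hyz ⟨hX, h⟩
    have hZ : Nat.card (Fin n) ≠ 2 * (orbit S z).ncard :=
      fun h => pd_not_both n S x z y hxz hxy hzy ⟨hX, h⟩
    exact pd_core n hn S y z x hyz hyx hzx hY hZ
  · by_cases hY : Nat.card (Fin n) = 2 * (orbit S y).ncard
    · have hZ : Nat.card (Fin n) ≠ 2 * (orbit S z).ncard :=
        fun h => pd_not_both n S y z x hyz hyx hzx ⟨hY, h⟩
      exact pd_core n hn S x z y hxz hxy hzy hX hZ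
    · exact pd_core n hn S x y z hxy hxz hyz hX hY

end Cfsg.Agent.Lib.Helper6.PM3
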