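import Mathlib
import Cfsg.Agent.Lib.Helper4.FCDefs

/-!
# Project FC (S4146, helper4), piece LFK3 (helper77)

`K = CHA A H` is abelian: by LFK2, `m ρ ∈ {1, n, m, n m}` with `ρ = |K : C_K(k₁)|` dividing `|H|`,
prime to `n`; so `ρ = 1`.
-/

set_option autoImplicit false

namespace Cfsg.Agent.Lib.Helper4.FC

universe u

theorem fc_lfk3 : LFK2Stmt.{u} → LFK3Stmt.{u} := by
  intro hLFK2 G _ _ n m A H k1 k2 hctx hk1 hk2
  have hctx' := hctx
  obtain ⟨hfour, hAn, hAab, hcop, hAH, hsup, hAcs, hrel⟩ := hctx'
  obtain ⟨hn1, hm1, hnm, hcs4, -, -, -⟩ := hfour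
  -- a noncentral element of `A`
  have hnotle : ¬ A ≤ Subgroup.center G := by
    intro hle
    have h1 : (Subgroup.center G).relIndex A = 1 := Subgroup.relIndex_eq_one.mpr hle
    rw [hrel] at h1
    omega
  obtain ⟨y, hyA, hyZ⟩ := SetLike.not_le_iff_exists.mp hnotle
  have hcsy : cs y = m := by
    rcases hAcs y hyA with h | h
    · exfalso
      apply hyZ
      have htop : Cen y = ⊤ := Subgroup.index_eq_one.mp h
      rw [Subgroup.mem_center_iff]
      intro g
      have hg : g ∈ Cen y := by
        rw [htop]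
        exact Subgroup.mem_top g
      exact (Subgroup.mem_centralizer_iff.mp hg y (Set.mem_singleton y)).symm
    · exact h
  have key := hLFK2 G n m A H y k1 hctx hyA hcsy hk1
  -- `ρ` is prime to `n`
  have hcompl : Subgroup.IsComplement' A H := by
    apply Subgroup.isComplement'_of_disjoint_and_mul_eq_univ
    · exact disjoint_iff.mpr hAH
    · rw [← Subgroup.normal_mul, hsup, Subgroup.coe_top]
  have hHcard : A.index = Nat.card H := hcompl.symm.index_eq_card
  have hKH : CHA A H ≤ H := inf_le_left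
  have hρ1 : (Cen k1).relIndex (CHA A H) ∣ Nat.card (CHA A H) := Subgroup.index_dvd_card _
  have hρ2 : (Cen k1).relIndex (CHA A H) ∣ A.index := by
    rw [hHcard]
    exact hρ1.trans (Subgroup.card_dvd_of_le hKH)
  have hn_dvd : n ∣ Nat.card A := by
    rw [← hrel]
    exact Subgroup.index_dvd_card _
  have hcop' : n.Coprime ((Cen k1).relIndex (CHA A H)) :=
    (hcop.coprime_dvd_left hn_dvd).coprime_dvd_right hρ2
  have hρ : (Cen k1).relIndex (CHA A H) = 1 := by
    rcases hcs4 (y * k1) with h | h | h | h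
    · rw [key] at h
      have hm : m = 1 := Nat.dvd_one.mp ⟨_, h.symm⟩
      omega
    · rw [key] at h
      have hm : m = 1 := hnm.symm.eq_one_of_dvd (Dvd.intro _ h)
      omega
    · rw [key] at h
      exact Nat.eq_of_mul_eq_mul_left (by omega : 0 < m) (by rw [h, mul_one])
    · rw [key, mul_comm n m] at h
      have h2 : (Cen k1).relIndex (CHA A H) = n :=
        Nat.eq_of_mul_eq_mul_left (by omega : 0 < m) h
      rw [h2] at hcop'
      have hn : n = 1 := (Nat.coprime_self n).mp hcop'
      omega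
  have hle : CHA A H ≤ Cen k1 := Subgroup.relIndex_eq_one.mp hρ
  exact Subgroup.mem_centralizer_iff.mp (hle hk2) k1 (Set.mem_singleton k1)

end Cfsg.Agent.Lib.Helper4.FC
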