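import Mathlib
import Cfsg.Agent.Lib.Helper4.FCDefs

/-!
# Project FC (S4146, helper4), piece STEP3 (helper77)

`t ≠ s`. If some noncentral `s`-element `w` lies in `C(b)`: `cs w ∈ {n, n m}`, `cs (b w) = n m`
(L3), HALF gives `n ∣ t^x s^y`, and `s ∤ n`. Otherwise all `s`-elements of `C(b)` are central and
ZSYL gives `(n m)_s < m_s`, absurd.
-/

set_option autoImplicit false

namespace Cfsg.Agent.Lib.Helper4.FC

universe u

theorem step3_helper77_not_central {G : Type u} [Group G] (x : G) (h : cs x ≠ 1) :
    x ∉ Subgroup.center G := by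
  intro hx
  apply h
  have htop : Cen x = ⊤ := by
    rw [eq_top_iff]
    intro g _
    rw [Subgroup.mem_centralizer_iff]
    intro y hy
    rw [Set.mem_singleton_iff] at hy
    subst hy
    exact (Subgroup.mem_center_iff.mp hx g).symm
  show (Cen x).index = 1
  rw [htop, Subgroup.index_top]

theorem step3_helper77_central_of_cs_one {G : Type u} [Group G] (x : G) (h : cs x = 1) :
    x ∈ Subgroup.center G := by
  have htop : Cen x = ⊤ := Subgroup.index_eq_one.mp h
  rw [Subgroup.mem_center_iff]
  intro g
  have hg : g ∈ Cen x := by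
    rw [htop]
    exact Subgroup.mem_top g
  exact (Subgroup.mem_centralizer_iff.mp hg x (Set.mem_singleton x)).symm

theorem fc_step3 : L3Stmt.{u} → HalfStmt.{u} → ZSylStmt.{u} → Step3Stmt.{u} := by
  intro hL3 hHalf hZSyl G _ _ n m s t a u b hfour hs ht hsn hm hnob hsa hcsa hcsau hcomm htb hcsb
  have hfour' := hfour
  obtain ⟨hn1, hm1, hnm, hcs4, -, -, -⟩ := hfour'
  have hts : t ≠ s := by
    rintro rfl
    exact hnob b htb hcsb
  by_cases hex : ∃ w : G, Prim s w ∧ w ∈ Cen b ∧ w ∉ Subgroup.center G
  · obtain ⟨w, hsw, hwb, hwZ⟩ := hex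
    have hcsw1 : cs w ≠ 1 := fun h => hwZ (step3_helper77_central_of_cs_one w h)
    have hcswm : cs w ≠ m := hnob w hsw
    have hcommbw : Commute b w :=
      Subgroup.mem_centralizer_iff.mp hwb b (Set.mem_singleton b)
    obtain ⟨k, hk⟩ := htb
    obtain ⟨l, hl⟩ := hsw
    have hcop : (orderOf b).Coprime (orderOf w) := by
      rw [hk, hl]
      exact Nat.Coprime.pow _ _ ((Nat.coprime_primes ht hs).mpr hts)
    have hcen := hL3 G b w hcommbw hcop
    have hdvd1 : cs b ∣ cs (b * w) := by
      show (Cen b).index ∣ (Cen (b * w)).index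
      rw [hcen]
      exact Subgroup.index_dvd_of_le inf_le_left
    have hdvd2 : cs w ∣ cs (b * w) := by
      show (Cen w).index ∣ (Cen (b * w)).index
      rw [hcen]
      exact Subgroup.index_dvd_of_le inf_le_right
    have hnm_dvd : n * m ∣ cs (b * w) := by
      rcases hcs4 w with h | h | h | h
      · exact absurd h hcsw1
      · rw [h] at hdvd2
        rw [hcsb] at hdvd1
        exact hnm.mul_dvd_of_dvd_of_dvd hdvd2 hdvd1
      · exact absurd h hcswm
      · rw [h] at hdvd2
        exact hdvd2
    have hbw : cs (b * w) = n * m := by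
      rcases hcs4 (b * w) with h | h | h | h
      · rw [h] at hnm_dvd
        have := Nat.le_of_dvd one_pos hnm_dvd
        nlinarith
      · rw [h] at hnm_dvd
        have := Nat.le_of_dvd (by omega) hnm_dvd
        nlinarith
      · rw [h] at hnm_dvd
        have := Nat.le_of_dvd (by omega) hnm_dvd
        nlinarith
      · exact h
    obtain ⟨x, y, hxy⟩ :=
      hHalf G n m t s b w hfour ht hs (Ne.symm hts) ⟨k, hk⟩ hcsb ⟨l, hl⟩ hwb hbw
    have hcopn : n.Coprime (s ^ y) := by
      apply Nat.Coprime.pow_right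
      exact ((Nat.Prime.coprime_iff_not_dvd hs).mpr hsn).symm
    have hnt : n ∣ t ^ x := hcopn.dvd_of_dvd_mul_right hxy
    obtain ⟨j, -, hj⟩ := (Nat.dvd_prime_pow ht).mp hnt
    exact ⟨j, hj⟩
  · exfalso
    have hall : ∀ w : G, Prim s w → w ∈ Cen b → w ∈ Subgroup.center G := by
      intro w hw hwb
      by_contra hwZ
      exact hex ⟨w, hw, hwb, hwZ⟩
    have haZ : a ∉ Subgroup.center G := by
      apply step3_helper77_not_central
      show cs a ≠ 1
      rw [hcsa]
      omega
    have hacen : a ∈ Cen (a * u) := by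
      rw [Subgroup.mem_centralizer_iff]
      intro y hy
      rw [Set.mem_singleton_iff] at hy
      subst hy
      rw [mul_assoc, ← hcomm]
    have hlt := hZSyl G s b (a * u) a hs hall hsa haZ hacen
    rw [hcsau, hcsb, Nat.factorization_mul (by omega) (by omega)] at hlt
    simp only [Finsupp.add_apply] at hlt
    omega

end Cfsg.Agent.Lib.Helper4.FC
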