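import Mathlib

set_option autoImplicit false

/-!
# Galois descent lemma for free modules (helper77)

`ft`: a finite group acting faithfully on a field has a normal basis element with a trace-dual
family.  `gd`: operator form of Galois descent: a field `L` acting (non-unitally) on `V`
together with a compatible semilinear action of `H` makes the range of the unit of `L`
a free module over `H`.
-/

namespace Cfsg.Agent.Lib.Helper77.FrobFree

open Module
open scoped Classical

/-- `FD ψ U W`: the subspace `U` is the internal direct sum of the translates `ψ h '' W`. -/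
def FD {k V H : Type*} [Field k] [AddCommGroup V] [Module k V] [Fintype H]
    (ψ : H → Module.End k V) (U W : Submodule k V) : Prop :=
  (∀ h, ∀ w ∈ W, ψ h w ∈ U) ∧
  (∀ u ∈ U, ∃ c : H → V, (∀ h, c h ∈ W) ∧ u = ∑ h, ψ h (c h)) ∧
  (∀ c : H → V, (∀ h, c h ∈ W) → ∑ h, ψ h (c h) = 0 → ∀ h, c h = 0)

theorem ft_field {L : Type*} [Field L] {H : Type*} [Group H] [Fintype H]
    [MulSemiringAction H L] [FaithfulSMul H L] :
    ∃ (θ : L) (d : H → L),
      (∀ g g' : H, ∑ h : H, h • ((g • θ) * d g') = if g = g' then 1 else 0) := by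
  classical
  let K := FixedPoints.subfield H L
  have : IsGalois K L := IsGalois.of_fixed_field L H
  let e : H ≃* (L ≃ₐ[K] L) := FixedPoints.toAlgAutMulEquiv H L
  let b := IsGalois.normalBasis K L
  have hnd := traceForm_nondegenerate K L
  let d' := (Algebra.traceForm K L).dualBasis hnd b
  refine ⟨b 1, fun g => d' (e g), fun g g' => ?_⟩
  have h1 : ∀ h : H, ∀ x : L, h • x = e h x := fun h x => rfl
  calc ∑ h : H, h • ((g • b 1) * d' (e g'))
      = ∑ h : H, e h (b (e g) * d' (e g')) := by
        apply Finset.sum_congr rfl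
        intro h _
        rw [h1 h, h1 g, IsGalois.normalBasis_apply (e g)]
    _ = ∑ σ : L ≃ₐ[K] L, σ (b (e g) * d' (e g')) :=
        Equiv.sum_comp e.toEquiv (fun σ : L ≃ₐ[K] L => σ (b (e g) * d' (e g')))
    _ = algebraMap K L (Algebra.trace K L (b (e g) * d' (e g'))) :=
        (trace_eq_sum_automorphisms _).symm
    _ = algebraMap K L (Algebra.traceForm K L (d' (e g')) (b (e g))) := by
        rw [Algebra.traceForm_apply, mul_comm]
    _ = if g = g' then 1 else 0 := by
        rw [LinearMap.BilinForm.apply_dualBasis_left]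
        by_cases hg : g = g'
        · simp [hg]
        · have : e g ≠ e g' := fun h => hg (e.injective h)
          simp [hg, this]


theorem ft {L : Type*} [CommRing L] (hL : IsField L) {H : Type*} [Group H] [Fintype H]
    [MulSemiringAction H L] [FaithfulSMul H L] :
    ∃ (θ : L) (d : H → L),
      (∀ g g' : H, ∑ h : H, h • ((g • θ) * d g') = if g = g' then 1 else 0) ∧
      (∀ h : H, ∑ g : H, (g • θ) * (h • d g) = if h = 1 then 1 else 0) := by
  obtain ⟨θ, d, hd⟩ : ∃ (θ : L) (d : H → L),
      ∀ g g' : H, ∑ h : H, h • ((g • θ) * d g') = if g = g' then 1 else 0 := by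
    letI : Field L := hL.toField
    exact ft_field
  refine ⟨θ, d, hd, ?_⟩
  let A : Matrix H H L := fun g h => h • (g • θ)
  let B : Matrix H H L := fun h g => h • d g
  have hAB : A * B = 1 := by
    ext g g'
    rw [Matrix.mul_apply, Matrix.one_apply, ← hd g g']
    apply Finset.sum_congr rfl
    intro h _
    simp only [A, B, smul_mul']
  have hBA : B * A = 1 := mul_eq_one_comm.mp hAB
  intro h
  have h2 := congrFun (congrFun hBA h) 1
  rw [Matrix.mul_apply, Matrix.one_apply] at h2
  rw [← h2]
  apply Finset.sum_congr rfl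
  intro g _
  simp only [A, B, one_smul]
  ring

theorem gd {k V : Type*} [Field k] [AddCommGroup V] [Module k V]
    {L : Type*} [CommRing L] (hL : IsField L) {H : Type*} [Group H] [Fintype H]
    [MulSemiringAction H L] [FaithfulSMul H L]
    (ι : L → Module.End k V) (hadd : ∀ x y, ι (x + y) = ι x + ι y)
    (hmul : ∀ x y, ι (x * y) = ι x * ι y)
    (τ : H →* Module.End k V) (hcomp : ∀ h x, ι (h • x) * τ h = τ h * ι x) :
    ∃ W : Submodule k V, FD τ (LinearMap.range (ι 1)) W := by
  obtain ⟨θ, d, hd1, hd2⟩ := ft hL (H := H)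
  let ιA : L →+ Module.End k V := AddMonoidHom.mk' ι hadd
  have hι0 : ι 0 = 0 := ιA.map_zero
  have hιsum : ∀ (s : Finset H) (f : H → L), ι (∑ g ∈ s, f g) = ∑ g ∈ s, ι (f g) :=
    fun s f => map_sum ιA f s
  have h11 : ι 1 * ι 1 = ι 1 := by rw [← hmul, one_mul]
  have hτ1 : ∀ h, ι 1 * τ h = τ h * ι 1 := fun h => by
    have := hcomp h 1; rwa [smul_one] at this
  have happ : ∀ (h : H) (x : L) (v : V), ι (h • x) (τ h v) = τ h (ι x v) := by
    intro h x v
    have := congrArg (fun f : Module.End k V => f v) (hcomp h x)
    simpa only [Module.End.mul_apply] using this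
  let Fix : Submodule k V :=
    { carrier := {w | ι 1 w = w ∧ ∀ h, τ h w = w}
      add_mem' := by
        rintro a b ⟨ha, ha'⟩ ⟨hb, hb'⟩
        exact ⟨by rw [map_add, ha, hb], fun h => by rw [map_add, ha' h, hb' h]⟩
      zero_mem' := ⟨map_zero _, fun h => map_zero _⟩
      smul_mem' := by
        rintro c a ⟨ha, ha'⟩
        exact ⟨by rw [map_smul, ha], fun h => by rw [map_smul, ha' h]⟩ }
  have key : ∀ g : H, ∀ w ∈ Fix, τ g (ι θ w) = ι (g • θ) w := by
    intro g w hw
    rw [← happ g θ w, hw.2 g]
  refine ⟨Fix.map (ι θ), ?_, ?_, ?_⟩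
  · rintro h w ⟨w₀, hw₀, rfl⟩
    rw [key h w₀ hw₀]
    refine ⟨ι (h • θ) w₀, ?_⟩
    rw [← Module.End.mul_apply, ← hmul, one_mul]
  · rintro u ⟨v, rfl⟩
    have hu1 : ι 1 (ι 1 v) = ι 1 v := by rw [← Module.End.mul_apply, h11]
    generalize ι 1 v = u at hu1
    let w : H → V := fun g => ∑ h : H, τ h (ι (d g) u)
    have hwFix : ∀ g, w g ∈ Fix := by
      intro g
      refine ⟨?_, fun x => ?_⟩
      · simp only [w, map_sum]
        apply Finset.sum_congr rfl
        intro h _
        have := happ h 1 (ι (d g) u)
        rw [smul_one] at this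
        rw [this, ← Module.End.mul_apply (ι 1), ← hmul, one_mul]
      · simp only [w, map_sum]
        rw [← Equiv.sum_comp (Equiv.mulLeft x) (fun h => τ h (ι (d g) u))]
        apply Finset.sum_congr rfl
        intro h _
        simp only [Equiv.coe_mulLeft, map_mul, Module.End.mul_apply]
    refine ⟨fun g => ι θ (w g), fun g => ⟨w g, hwFix g, rfl⟩, ?_⟩
    calc u = ι 1 u := hu1.symm
      _ = ∑ h : H, ι (if h = 1 then 1 else 0) (τ h u) := by
          rw [Finset.sum_eq_single 1]
          · simp
          · intro h _ hh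
            simp [hh, hι0]
          · simp
      _ = ∑ h : H, ι (∑ g : H, (g • θ) * (h • d g)) (τ h u) := by simp_rw [hd2]
      _ = ∑ h : H, ∑ g : H, ι (g • θ) (τ h (ι (d g) u)) := by
          apply Finset.sum_congr rfl
          intro h _
          rw [hιsum, LinearMap.sum_apply]
          apply Finset.sum_congr rfl
          intro g _
          rw [hmul, Module.End.mul_apply, happ]
      _ = ∑ g : H, ∑ h : H, ι (g • θ) (τ h (ι (d g) u)) := Finset.sum_comm
      _ = ∑ g : H, τ g (ι θ (w g)) := by
          apply Finset.sum_congr rfl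
          intro g _
          rw [key g (w g) (hwFix g)]
          simp only [w, map_sum]
  · intro c hc hsum g'
    choose w hw hwc using hc
    have hsum' : ∑ g : H, ι (g • θ) (w g) = 0 := by
      rw [← hsum]
      apply Finset.sum_congr rfl
      intro g _
      rw [← hwc g, key g (w g) (hw g)]
    have h3 : ∑ h : H, τ h (ι (d g') (∑ g : H, ι (g • θ) (w g))) = w g' := by
      calc ∑ h : H, τ h (ι (d g') (∑ g : H, ι (g • θ) (w g)))
          = ∑ h : H, ∑ g : H, ι (h • ((g • θ) * d g')) (w g) := by
            apply Finset.sum_congr rfl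
            intro h _
            rw [map_sum, map_sum]
            apply Finset.sum_congr rfl
            intro g _
            have e1 := happ h ((g • θ) * d g') (w g)
            rw [(hw g).2 h] at e1
            rw [e1, mul_comm, hmul, Module.End.mul_apply]
        _ = ∑ g : H, ι (∑ h : H, h • ((g • θ) * d g')) (w g) := by
            rw [Finset.sum_comm]
            apply Finset.sum_congr rfl
            intro g _
            rw [hιsum, LinearMap.sum_apply]
        _ = ∑ g : H, ι (if g = g' then 1 else 0) (w g) := by simp_rw [hd1]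
        _ = w g' := by
            rw [Finset.sum_eq_single g']
            · simp [(hw g').1]
            · intro g _ hg
              simp [hg, hι0]
            · simp
    rw [← hwc g', ← h3, hsum']
    simp

end Cfsg.Agent.Lib.Helper77.FrobFree
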