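import Cfsg.Agent.Lib.Helper77.FrobFreeA

set_option autoImplicit false

/-!
# Operator algebra of a finite abelian group of invertible order (helper77)

Averaging idempotent, Maschke idempotents in the span `RZ ζ` of the operators `ζ z`,
minimal idempotents.
-/

namespace Cfsg.Agent.Lib.Helper77.FrobFree

open Module
open scoped Classical

section Avg

variable {k V : Type*} [Field k] [AddCommGroup V] [Module k V]
variable {Z : Type*} [Group Z] [Fintype Z]

/-- The averaging operator of a representation. -/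
noncomputable def avg (ζ : Z →* Module.End k V) : Module.End k V :=
  (Fintype.card Z : k)⁻¹ • ∑ z : Z, ζ z

theorem mul_avg (ζ : Z →* Module.End k V) (z : Z) : ζ z * avg ζ = avg ζ := by
  unfold avg
  rw [mul_smul_comm, Finset.mul_sum]
  congr 1
  exact Fintype.sum_equiv (Equiv.mulLeft z) (fun w => ζ z * ζ w) (fun w => ζ w)
    (fun w => (map_mul ζ z w).symm)

theorem avg_mul (ζ : Z →* Module.End k V) (z : Z) : avg ζ * ζ z = avg ζ := by
  unfold avg
  rw [smul_mul_assoc, Finset.sum_mul]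
  congr 1
  exact Fintype.sum_equiv (Equiv.mulRight z) (fun w => ζ w * ζ z) (fun w => ζ w)
    (fun w => (map_mul ζ w z).symm)

theorem avg_idem (ζ : Z →* Module.End k V) (hcard : (Fintype.card Z : k) ≠ 0) :
    avg ζ * avg ζ = avg ζ := by
  have h1 : (∑ z : Z, ζ z) * avg ζ = (Fintype.card Z : k) • avg ζ := by
    rw [Finset.sum_mul]
    simp only [mul_avg]
    rw [Finset.sum_const, Finset.card_univ, Nat.cast_smul_eq_nsmul]
  calc avg ζ * avg ζ = ((Fintype.card Z : k)⁻¹ • ∑ z : Z, ζ z) * avg ζ := rfl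
    _ = avg ζ := by rw [smul_mul_assoc, h1, smul_smul, inv_mul_cancel₀ hcard, one_smul]

theorem avg_apply_of_fixed (ζ : Z →* Module.End k V) (hcard : (Fintype.card Z : k) ≠ 0)
    (v : V) (hv : ∀ z, ζ z v = v) : avg ζ v = v := by
  unfold avg
  rw [LinearMap.smul_apply, LinearMap.sum_apply]
  simp only [hv]
  rw [Finset.sum_const, Finset.card_univ, ← Nat.cast_smul_eq_nsmul k, smul_smul,
    inv_mul_cancel₀ hcard, one_smul]

theorem fixed_of_avg_apply (ζ : Z →* Module.End k V) (v : V) (hv : avg ζ v = v) (z : Z) :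
    ζ z v = v := by
  rw [← hv, ← Module.End.mul_apply, mul_avg]

theorem avg_comm (ζ : Z →* Module.End k V) (hζ : Function.Injective ζ)
    (s s' : Module.End k V) (hs' : s' * s = 1)
    (hN : ∀ z, ∃ z', s * ζ z = ζ z' * s) : s * avg ζ = avg ζ * s := by
  choose σ hσ using hN
  have hinj : Function.Injective σ := by
    intro z w hzw
    apply hζ
    have h1 : s * ζ z = s * ζ w := by rw [hσ z, hσ w, hzw]
    calc ζ z = (s' * s) * ζ z := by rw [hs', one_mul]
      _ = s' * (s * ζ w) := by rw [mul_assoc, h1]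
      _ = ζ w := by rw [← mul_assoc, hs', one_mul]
  have hbij : Function.Bijective σ := Finite.injective_iff_bijective.mp hinj
  unfold avg
  rw [mul_smul_comm, smul_mul_assoc, Finset.mul_sum, Finset.sum_mul]
  congr 1
  rw [← Equiv.sum_comp (Equiv.ofBijective σ hbij) (fun w => ζ w * s)]
  apply Finset.sum_congr rfl
  intro z _
  rw [hσ z]
  rfl

/-- The algebra spanned by the operators `ζ z`. -/
noncomputable def RZ (ζ : Z →* Module.End k V) : Subalgebra k (Module.End k V) :=
  Algebra.adjoin k (Set.range ζ)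

theorem RZ_toSubmodule (ζ : Z →* Module.End k V) :
    Subalgebra.toSubmodule (RZ ζ) = Submodule.span k (Set.range ζ) := by
  unfold RZ
  rw [Algebra.adjoin_eq_span]
  congr 1
  have : Submonoid.closure (Set.range ζ) = MonoidHom.mrange ζ := by
    rw [← MonoidHom.coe_mrange, Submonoid.closure_eq]
  rw [this, MonoidHom.coe_mrange]

theorem mem_RZ (ζ : Z →* Module.End k V) (z : Z) : ζ z ∈ RZ ζ :=
  Algebra.subset_adjoin ⟨z, rfl⟩

theorem RZ_induction (ζ : Z →* Module.End k V) (p : Module.End k V → Prop)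
    (hgen : ∀ z, p (ζ z)) (h0 : p 0) (hadd : ∀ a b, p a → p b → p (a + b))
    (hsmul : ∀ (c : k) a, p a → p (c • a)) : ∀ a ∈ RZ ζ, p a := by
  intro a ha
  have ha' : a ∈ Submodule.span k (Set.range ζ) := by
    rw [← RZ_toSubmodule]; exact ha
  clear ha
  induction ha' using Submodule.span_induction with
  | mem x hx => obtain ⟨z, rfl⟩ := hx; exact hgen z
  | zero => exact h0
  | add x y _ _ hx hy => exact hadd x y hx hy
  | smul c x _ hx => exact hsmul c x hx

theorem RZ_comm (ζ : Z →* Module.End k V) (hcomm : ∀ z w, ζ z * ζ w = ζ w * ζ z) :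
    ∀ a ∈ RZ ζ, ∀ b ∈ RZ ζ, a * b = b * a := by
  have h1 : ∀ z, ∀ b ∈ RZ ζ, ζ z * b = b * ζ z := by
    intro z
    apply RZ_induction ζ (fun b => ζ z * b = b * ζ z)
    · intro w; exact hcomm z w
    · simp
    · intro a b ha hb; rw [mul_add, add_mul, ha, hb]
    · intro c a ha; rw [mul_smul_comm, smul_mul_assoc, ha]
  intro a ha b hb
  revert a
  apply RZ_induction ζ (fun a => a * b = b * a)
  · intro z; exact h1 z b hb
  · simp
  · intro a a' ha ha'; rw [mul_add, add_mul, ha, ha']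
  · intro c a ha; rw [mul_smul_comm, smul_mul_assoc, ha]

theorem RZ_conj (ζ : Z →* Module.End k V) (s s' : Module.End k V) (hs : s * s' = 1)
    (hN : ∀ z, ∃ z', s * ζ z = ζ z' * s) : ∀ a ∈ RZ ζ, s * a * s' ∈ RZ ζ := by
  apply RZ_induction ζ (fun a => s * a * s' ∈ RZ ζ)
  · intro z
    obtain ⟨z', hz'⟩ := hN z
    rw [hz', mul_assoc, hs, mul_one]
    exact mem_RZ ζ z'
  · simp
  · intro a b ha hb
    rw [mul_add, add_mul]
    exact (RZ ζ).add_mem ha hb
  · intro c a ha
    rw [mul_smul_comm, smul_mul_assoc]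
    exact (RZ ζ).smul_mem ha c

theorem avg_mem_RZ (ζ : Z →* Module.End k V) : avg ζ ∈ RZ ζ := by
  unfold avg
  exact (RZ ζ).smul_mem ((RZ ζ).sum_mem fun z _ => mem_RZ ζ z) _

/-- Maschke: every principal ideal of `RZ ζ` is generated by an idempotent. -/
theorem maschke_idem (ζ : Z →* Module.End k V) (hcard : (Fintype.card Z : k) ≠ 0)
    (hcomm : ∀ z w, ζ z * ζ w = ζ w * ζ z) (x : Module.End k V) (hx : x ∈ RZ ζ) :
    ∃ f ∈ RZ ζ, ∃ y ∈ RZ ζ, f = x * y ∧ f * f = f ∧ x * f = x := by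
  have hc := RZ_comm ζ hcomm
  let I : Submodule k (Module.End k V) :=
    (Subalgebra.toSubmodule (RZ ζ)).map (LinearMap.mulLeft k x)
  have hI : ∀ a, a ∈ I ↔ ∃ r ∈ RZ ζ, a = x * r := by
    intro a
    constructor
    · rintro ⟨r, hr, rfl⟩; exact ⟨r, hr, rfl⟩
    · rintro ⟨r, hr, rfl⟩; exact ⟨r, hr, rfl⟩
  have hImul : ∀ r ∈ RZ ζ, ∀ a ∈ I, r * a ∈ I := by
    intro r hr a ha
    obtain ⟨r', hr', rfl⟩ := (hI a).mp ha
    refine (hI _).mpr ⟨r * r', (RZ ζ).mul_mem hr hr', ?_⟩
    rw [← mul_assoc, hc r hr x hx, mul_assoc]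
  obtain ⟨I', hI'⟩ := Submodule.exists_isCompl I
  let π : Module.End k V →ₗ[k] Module.End k V :=
    I.subtype ∘ₗ Submodule.projectionOnto I I' hI'
  have hπI : ∀ a, π a ∈ I := fun a => (Submodule.projectionOnto I I' hI' a).2
  have hπid : ∀ a ∈ I, π a = a := by
    intro a ha
    have := Submodule.projectionOnto_apply_left hI' (⟨a, ha⟩ : I)
    simp only [π, LinearMap.comp_apply, Submodule.subtype_apply]
    exact congrArg Subtype.val this
  let P : Module.End k V → Module.End k V := fun a =>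
    (Fintype.card Z : k)⁻¹ • ∑ z : Z, ζ z * π (ζ z⁻¹ * a)
  have hPI : ∀ a, P a ∈ I := fun a =>
    I.smul_mem _ (I.sum_mem fun z _ => hImul _ (mem_RZ ζ z) _ (hπI _))
  have hPid : ∀ a ∈ I, P a = a := by
    intro a ha
    have h1 : ∀ z : Z, ζ z * π (ζ z⁻¹ * a) = a := by
      intro z
      rw [hπid _ (hImul _ (mem_RZ ζ z⁻¹) a ha), ← mul_assoc, ← map_mul, mul_inv_cancel,
        map_one, one_mul]
    simp only [P, h1]
    rw [Finset.sum_const, Finset.card_univ, ← Nat.cast_smul_eq_nsmul k, smul_smul,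
      inv_mul_cancel₀ hcard, one_smul]
  have hPadd : ∀ a b, P (a + b) = P a + P b := by
    intro a b
    simp only [P, mul_add, map_add, Finset.sum_add_distrib, smul_add]
  have hPsmul : ∀ (c : k) a, P (c • a) = c • P a := by
    intro c a
    simp only [P, mul_smul_comm, map_smul, ← Finset.smul_sum]
    rw [smul_comm]
  have hPgen : ∀ (w : Z) a, P (ζ w * a) = ζ w * P a := by
    intro w a
    simp only [P]
    rw [mul_smul_comm, Finset.mul_sum]
    congr 1
    refine (Fintype.sum_equiv (Equiv.mulLeft w) (fun z => ζ w * (ζ z * π (ζ z⁻¹ * a)))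
      (fun z => ζ z * π (ζ z⁻¹ * (ζ w * a))) (fun z => ?_)).symm
    have h1 : ζ (w * z)⁻¹ * (ζ w * a) = ζ z⁻¹ * a := by
      rw [← mul_assoc, ← map_mul]
      congr 2
      group
    simp only [Equiv.coe_mulLeft]
    rw [h1, map_mul ζ w z, mul_assoc]
  have hPmul : ∀ r ∈ RZ ζ, ∀ a, P (r * a) = r * P a := by
    apply RZ_induction ζ (fun r => ∀ a, P (r * a) = r * P a)
    · intro w a; exact hPgen w a
    · intro a
      have h0 : P 0 = 0 := by simpa using hPsmul 0 0
      rw [zero_mul, zero_mul, h0]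
    · intro r r' hr hr' a
      rw [add_mul, add_mul, hPadd, hr, hr']
    · intro c r hr a
      rw [smul_mul_assoc, smul_mul_assoc, hPsmul, hr]
  have hxI : x ∈ I := (hI x).mpr ⟨1, (RZ ζ).one_mem, (mul_one x).symm⟩
  obtain ⟨y, hy, hfy⟩ := (hI (P 1)).mp (hPI 1)
  have hfR : P 1 ∈ RZ ζ := by rw [hfy]; exact (RZ ζ).mul_mem hx hy
  refine ⟨P 1, hfR, y, hy, hfy, ?_, ?_⟩
  · have := hPmul (P 1) hfR 1
    rw [mul_one, hPid _ (hPI 1)] at this
    exact this.symm
  · have := hPmul x hx 1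
    rw [mul_one, hPid x hxI] at this
    exact this.symm

end Avg

end Cfsg.Agent.Lib.Helper77.FrobFree
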