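import Cfsg.Agent.Lib.Helper77.FrobFreeB

set_option autoImplicit false

/-!
# Minimal idempotents and their corner fields (helper77)
-/

namespace Cfsg.Agent.Lib.Helper77.FrobFree

open Module
open scoped Classical

section Idem

variable {k V : Type*} [Field k] [AddCommGroup V] [Module k V]

theorem mem_range_idem {e : Module.End k V} (he : e * e = e) (v : V) :
    v ∈ LinearMap.range e ↔ e v = v := by
  constructor
  · rintro ⟨w, rfl⟩; rw [← Module.End.mul_apply, he]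
  · intro h; exact ⟨v, h⟩

/-- `e` is a nonzero idempotent of `R` below `ε` of minimal rank. -/
def IsMinIdem (R : Subalgebra k (Module.End k V)) (ε e : Module.End k V) : Prop :=
  e ∈ R ∧ e * e = e ∧ e * ε = e ∧ e ≠ 0 ∧
    ∀ f ∈ R, f * f = f → f * ε = f → f ≠ 0 →
      finrank k (LinearMap.range e) ≤ finrank k (LinearMap.range f)

theorem exists_minIdem (R : Subalgebra k (Module.End k V)) (ε : Module.End k V)
    (hε : ε ∈ R) (hεε : ε * ε = ε) (hε0 : ε ≠ 0) : ∃ e, IsMinIdem R ε e := by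
  let S : Set ℕ := {n | ∃ f ∈ R, f * f = f ∧ f * ε = f ∧ f ≠ 0 ∧
    finrank k (LinearMap.range f) = n}
  have hS : S.Nonempty := ⟨_, ε, hε, hεε, hεε, hε0, rfl⟩
  obtain ⟨e, he, hee, heε, he0, hn⟩ := Nat.sInf_mem hS
  refine ⟨e, he, hee, heε, he0, fun f hf hff hfε hf0 => ?_⟩
  rw [hn]
  exact Nat.sInf_le ⟨f, hf, hff, hfε, hf0, rfl⟩

theorem minIdem_eq [FiniteDimensional k V] {R : Subalgebra k (Module.End k V)}
    (hc : ∀ a ∈ R, ∀ b ∈ R, a * b = b * a) {ε e : Module.End k V} (hmin : IsMinIdem R ε e)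
    {f : Module.End k V} (hf : f ∈ R) (hff : f * f = f) (hfe : f * e = f) (hf0 : f ≠ 0) :
    f = e := by
  obtain ⟨he, hee, heε, he0, hmin'⟩ := hmin
  have hfε : f * ε = f := by rw [← hfe, mul_assoc, heε]
  have hle : LinearMap.range f ≤ LinearMap.range e := by
    rintro _ ⟨v, rfl⟩
    refine ⟨f v, ?_⟩
    rw [← Module.End.mul_apply, hc e he f hf, hfe]
  have heq : LinearMap.range f = LinearMap.range e :=
    Submodule.eq_of_le_of_finrank_le hle (hmin' f hf hff hfε hf0)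
  have h2 : f * e = e := by
    ext v
    have : e v ∈ LinearMap.range f := heq ▸ ⟨v, rfl⟩
    rw [Module.End.mul_apply]
    exact (mem_range_idem hff _).mp this
  rw [← hfe, h2]

/-- The corner ring `eR` of a commutative subalgebra at an idempotent `e`. -/
def Corner (R : Subalgebra k (Module.End k V)) (e : Module.End k V)
    (_he : e ∈ R) (_hee : e * e = e) (_hc : ∀ a ∈ R, ∀ b ∈ R, a * b = b * a) : Type _ :=
  {r : Module.End k V // r ∈ R ∧ r * e = r}

variable {R : Subalgebra k (Module.End k V)} {e : Module.End k V}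
  {he : e ∈ R} {hee : e * e = e} {hc : ∀ a ∈ R, ∀ b ∈ R, a * b = b * a}

instance : Zero (Corner R e he hee hc) := ⟨⟨0, R.zero_mem, zero_mul _⟩⟩
instance : One (Corner R e he hee hc) := ⟨⟨e, he, hee⟩⟩
instance : Add (Corner R e he hee hc) :=
  ⟨fun a b => ⟨a.1 + b.1, R.add_mem a.2.1 b.2.1, by rw [add_mul, a.2.2, b.2.2]⟩⟩
instance : Neg (Corner R e he hee hc) :=
  ⟨fun a => ⟨-a.1, R.neg_mem a.2.1, by rw [neg_mul, a.2.2]⟩⟩
instance : Mul (Corner R e he hee hc) :=
  ⟨fun a b => ⟨a.1 * b.1, R.mul_mem a.2.1 b.2.1, by rw [mul_assoc, b.2.2]⟩⟩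

@[simp] theorem Corner.val_zero : (0 : Corner R e he hee hc).1 = 0 := rfl
@[simp] theorem Corner.val_one : (1 : Corner R e he hee hc).1 = e := rfl
@[simp] theorem Corner.val_add (a b : Corner R e he hee hc) : (a + b).1 = a.1 + b.1 := rfl
@[simp] theorem Corner.val_neg (a : Corner R e he hee hc) : (-a).1 = -a.1 := rfl
@[simp] theorem Corner.val_mul (a b : Corner R e he hee hc) : (a * b).1 = a.1 * b.1 := rfl

instance : CommRing (Corner R e he hee hc) where
  add_assoc a b c := Subtype.ext (add_assoc _ _ _)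
  zero_add a := Subtype.ext (zero_add _)
  add_zero a := Subtype.ext (add_zero _)
  nsmul := nsmulRec
  zsmul := zsmulRec
  neg_add_cancel a := Subtype.ext (neg_add_cancel _)
  add_comm a b := Subtype.ext (add_comm _ _)
  left_distrib a b c := Subtype.ext (mul_add _ _ _)
  right_distrib a b c := Subtype.ext (add_mul _ _ _)
  zero_mul a := Subtype.ext (zero_mul _)
  mul_zero a := Subtype.ext (mul_zero _)
  mul_assoc a b c := Subtype.ext (mul_assoc _ _ _)
  one_mul a := Subtype.ext (by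
    show e * a.1 = a.1
    rw [hc e he a.1 a.2.1, a.2.2])
  mul_one a := Subtype.ext a.2.2
  mul_comm a b := Subtype.ext (hc _ a.2.1 _ b.2.1)

theorem corner_isField [FiniteDimensional k V] {Z : Type*} [Group Z] [Fintype Z]
    (ζ : Z →* Module.End k V) (hcard : (Fintype.card Z : k) ≠ 0)
    (hcomm : ∀ z w, ζ z * ζ w = ζ w * ζ z) {ε e : Module.End k V}
    (hmin : IsMinIdem (RZ ζ) ε e) :
    IsField (Corner (RZ ζ) e hmin.1 hmin.2.1 (RZ_comm ζ hcomm)) := by
  have hc := RZ_comm ζ hcomm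
  refine ⟨⟨0, 1, ?_⟩, mul_comm, ?_⟩
  · intro h
    exact hmin.2.2.2.1 (congrArg Subtype.val h).symm
  · intro a ha
    obtain ⟨x, hxR, hxe⟩ := a
    have hx0 : x ≠ 0 := fun h => ha (Subtype.ext h)
    obtain ⟨f, hfR, y, hyR, hfy, hff, hxf⟩ := maschke_idem ζ hcard hcomm x hxR
    have hf0 : f ≠ 0 := by
      intro h
      rw [h, mul_zero] at hxf
      exact hx0 hxf.symm
    have hfe : f * e = f := by
      rw [hfy, mul_assoc, hc y hyR e hmin.1, ← mul_assoc, hxe]
    have hfeq : f = e := minIdem_eq hc hmin hfR hff hfe hf0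
    refine ⟨⟨y * e, (RZ ζ).mul_mem hyR hmin.1, by rw [mul_assoc, hmin.2.1]⟩, ?_⟩
    apply Subtype.ext
    show x * (y * e) = e
    rw [← mul_assoc, ← hfy, hfeq, hmin.2.1]

/-- The conjugation action of a subgroup stabilising `e` on the corner ring. -/
@[reducible] noncomputable def cornerAction {H : Type*} [Group H] (ψ : H →* Module.End k V)
    (He : Subgroup H) (hR : ∀ h ∈ He, ∀ a ∈ R, ψ h * a * ψ h⁻¹ ∈ R)
    (hHe : ∀ h ∈ He, ψ h * e = e * ψ h) :
    MulSemiringAction ↥He (Corner R e he hee hc) where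
  smul h a := ⟨ψ h * a.1 * ψ (h : H)⁻¹, hR h h.2 a.1 a.2.1, by
    rw [mul_assoc, hHe _ (He.inv_mem h.2), ← mul_assoc, mul_assoc (ψ h), a.2.2]⟩
  one_smul a := Subtype.ext (by
    show ψ ((1 : ↥He) : H) * a.1 * ψ ((1 : ↥He) : H)⁻¹ = a.1
    simp)
  mul_smul g h a := Subtype.ext (by
    show ψ ((g * h : ↥He) : H) * a.1 * ψ ((g * h : ↥He) : H)⁻¹
      = ψ g * (ψ h * a.1 * ψ (h : H)⁻¹) * ψ (g : H)⁻¹
    simp [mul_assoc])
  smul_zero h := Subtype.ext (by
    show ψ h * (0 : Module.End k V) * ψ (h : H)⁻¹ = 0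
    simp)
  smul_add h a b := Subtype.ext (by
    show ψ h * (a.1 + b.1) * ψ (h : H)⁻¹ = ψ h * a.1 * ψ (h : H)⁻¹ + ψ h * b.1 * ψ (h : H)⁻¹
    rw [mul_add, add_mul])
  smul_one h := Subtype.ext (by
    show ψ h * e * ψ (h : H)⁻¹ = e
    rw [hHe h h.2, mul_assoc, ← map_mul, mul_inv_cancel, map_one, mul_one])
  smul_mul h a b := Subtype.ext (by
    show ψ h * (a.1 * b.1) * ψ (h : H)⁻¹
      = (ψ h * a.1 * ψ (h : H)⁻¹) * (ψ h * b.1 * ψ (h : H)⁻¹)
    have h1 : ψ (h : H)⁻¹ * ψ h = 1 := by rw [← map_mul, inv_mul_cancel, map_one]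
    calc ψ h * (a.1 * b.1) * ψ (h : H)⁻¹
        = ψ h * a.1 * (1 * b.1) * ψ (h : H)⁻¹ := by rw [one_mul]; simp only [mul_assoc]
      _ = (ψ h * a.1 * ψ (h : H)⁻¹) * (ψ h * b.1 * ψ (h : H)⁻¹) := by
          rw [← h1]; simp only [mul_assoc])

end Idem

end Cfsg.Agent.Lib.Helper77.FrobFree
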