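import Cfsg.Agent.Lib.Helper77.FrobFreeC

set_option autoImplicit false

/-!
# Assembly lemmas for free decompositions (helper77)
-/

namespace Cfsg.Agent.Lib.Helper77.FrobFree

open Module
open scoped Classical

section Assembly

variable {k V : Type*} [Field k] [AddCommGroup V] [Module k V]

theorem fd_zero {H : Type*} [Fintype H] (ψ : H → Module.End k V) :
    FD ψ (LinearMap.range (0 : Module.End k V)) ⊥ := by
  refine ⟨?_, ?_, ?_⟩
  · intro h w hw
    rw [(Submodule.mem_bot k).mp hw, map_zero]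
    exact Submodule.zero_mem _
  · rintro u ⟨v, rfl⟩
    exact ⟨fun _ => 0, fun _ => Submodule.zero_mem _, by simp⟩
  · intro c hc _ h
    exact (Submodule.mem_bot k).mp (hc h)

theorem fd_add {H : Type*} [Fintype H] (ψ : H → Module.End k V) (E₁ E₂ : Module.End k V)
    (h1 : E₁ * E₁ = E₁) (h2 : E₂ * E₂ = E₂) (h12 : E₁ * E₂ = 0) (h21 : E₂ * E₁ = 0)
    {W₁ W₂ : Submodule k V} (hW₁ : FD ψ (LinearMap.range E₁) W₁)
    (hW₂ : FD ψ (LinearMap.range E₂) W₂) :
    FD ψ (LinearMap.range (E₁ + E₂)) (W₁ ⊔ W₂) := by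
  have hsum : (E₁ + E₂) * (E₁ + E₂) = E₁ + E₂ := by
    rw [add_mul, mul_add, mul_add, h1, h2, h12, h21, add_zero, zero_add]
  have r1 : ∀ v, v ∈ LinearMap.range E₁ → E₁ v = v ∧ E₂ v = 0 := by
    intro v hv
    have := (mem_range_idem h1 v).mp hv
    refine ⟨this, ?_⟩
    rw [← this, ← Module.End.mul_apply, h21]
    rfl
  have r2 : ∀ v, v ∈ LinearMap.range E₂ → E₂ v = v ∧ E₁ v = 0 := by
    intro v hv
    have := (mem_range_idem h2 v).mp hv
    refine ⟨this, ?_⟩
    rw [← this, ← Module.End.mul_apply, h12]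
    rfl
  refine ⟨?_, ?_, ?_⟩
  · intro h w hw
    obtain ⟨w₁, hw₁, w₂, hw₂, rfl⟩ := Submodule.mem_sup.mp hw
    have a1 := r1 _ (hW₁.1 h w₁ hw₁)
    have a2 := r2 _ (hW₂.1 h w₂ hw₂)
    refine (mem_range_idem hsum _).mpr ?_
    simp only [map_add, LinearMap.add_apply, a1.1, a1.2, a2.1, a2.2, add_zero, zero_add]
  · rintro u ⟨v, rfl⟩
    obtain ⟨c₁, hc₁, e₁⟩ := hW₁.2.1 (E₁ v) ⟨v, rfl⟩
    obtain ⟨c₂, hc₂, e₂⟩ := hW₂.2.1 (E₂ v) ⟨v, rfl⟩
    refine ⟨fun h => c₁ h + c₂ h, fun h => Submodule.add_mem_sup (hc₁ h) (hc₂ h), ?_⟩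
    simp only [LinearMap.add_apply, map_add, Finset.sum_add_distrib, ← e₁, ← e₂]
  · intro c hc hsum0
    have hc' : ∀ h, ∃ a ∈ W₁, ∃ b ∈ W₂, a + b = c h := fun h => Submodule.mem_sup.mp (hc h)
    choose a ha b hb hab using hc'
    have e0 : ∑ h, ψ h (a h) + ∑ h, ψ h (b h) = 0 := by
      rw [← Finset.sum_add_distrib, ← hsum0]
      apply Finset.sum_congr rfl
      intro h _
      rw [← hab h, map_add]
    have ea : ∑ h, ψ h (a h) = 0 := by
      have := congrArg E₁ e0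
      rw [map_add, map_sum, map_sum, map_zero] at this
      have s1 : ∑ h, E₁ (ψ h (a h)) = ∑ h, ψ h (a h) :=
        Finset.sum_congr rfl fun h _ => (r1 _ (hW₁.1 h _ (ha h))).1
      have s2 : ∑ h, E₁ (ψ h (b h)) = 0 :=
        Finset.sum_eq_zero fun h _ => (r2 _ (hW₂.1 h _ (hb h))).2
      rw [s1, s2, add_zero] at this
      exact this
    have eb : ∑ h, ψ h (b h) = 0 := by
      rw [ea, zero_add] at e0
      exact e0
    intro h
    rw [← hab h, hW₁.2.2 a ha ea h, hW₂.2.2 b hb eb h, add_zero]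

theorem fd_orbit {H : Type*} [Group H] [Fintype H] (ψ : H →* Module.End k V)
    (e : Module.End k V) (hee : e * e = e) (He : Subgroup H)
    (hHe : ∀ h, h ∈ He ↔ ψ h * e = e * ψ h)
    (horth : ∀ h, h ∉ He → e * (ψ h * e * ψ h⁻¹) = 0)
    {W : Submodule k V} (hW : FD (fun x : ↥He => ψ (x : H)) (LinearMap.range e) W) :
    ∃ E : Module.End k V, E * E = E ∧ e * E = e ∧ E * e = e ∧ (∀ h, ψ h * E = E * ψ h) ∧
      E ∈ AddSubmonoid.closure (Set.range fun h : H => ψ h * e * ψ h⁻¹) ∧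
      FD ψ (LinearMap.range E) W := by
  let γ : H → Module.End k V → Module.End k V := fun h a => ψ h * a * ψ h⁻¹
  have hψinv : ∀ h : H, ψ h * ψ h⁻¹ = 1 := fun h => by
    rw [← map_mul, mul_inv_cancel, map_one]
  have hψinv' : ∀ h : H, ψ h⁻¹ * ψ h = 1 := fun h => by
    rw [← map_mul, inv_mul_cancel, map_one]
  have γmul : ∀ g h a, γ (g * h) a = γ g (γ h a) := by
    intro g h a
    simp only [γ, map_mul, mul_inv_rev, mul_assoc]
  have γ1 : ∀ a, γ 1 a = a := by
    intro a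
    simp [γ]
  have γprod : ∀ h a b, γ h (a * b) = γ h a * γ h b := by
    intro h a b
    simp only [γ]
    calc ψ h * (a * b) * ψ h⁻¹ = ψ h * a * (1 * b) * ψ h⁻¹ := by
          rw [one_mul]; simp only [mul_assoc]
      _ = ψ h * a * ψ h⁻¹ * (ψ h * b * ψ h⁻¹) := by
          rw [← hψinv' h]; simp only [mul_assoc]
  have γ0 : ∀ h, γ h 0 = 0 := by
    intro h
    simp [γ]
  have γinj : ∀ h, Function.Injective (γ h) := by
    intro h a b hab
    have := congrArg (γ h⁻¹) hab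
    rwa [← γmul, ← γmul, inv_mul_cancel, γ1, γ1] at this
  have γfix : ∀ h, γ h e = e ↔ h ∈ He := by
    intro h
    rw [hHe]
    constructor
    · intro hh
      calc ψ h * e = ψ h * e * (ψ h⁻¹ * ψ h) := by rw [hψinv', mul_one]
        _ = γ h e * ψ h := by simp only [γ, mul_assoc]
        _ = e * ψ h := by rw [hh]
    · intro hh
      simp only [γ]
      rw [hh, mul_assoc, hψinv, mul_one]
  have horb : ∀ g h : H, γ g e * γ h e = if γ g e = γ h e then γ g e else 0 := by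
    intro g h
    have h1 : γ g e * γ h e = γ g (e * γ (g⁻¹ * h) e) := by
      rw [γprod, ← γmul, mul_inv_cancel_left]
    by_cases hm : g⁻¹ * h ∈ He
    · have h2 : γ (g⁻¹ * h) e = e := (γfix _).mpr hm
      have h3 : γ h e = γ g e := by
        have := congrArg (γ g) h2
        rwa [← γmul, mul_inv_cancel_left] at this
      rw [h1, h2, hee, if_pos h3.symm]
    · have h3 : γ g e ≠ γ h e := by
        intro hh
        apply hm
        rw [← γfix, γmul, ← hh, ← γmul, inv_mul_cancel, γ1]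
      rw [h1, horth _ hm, γ0, if_neg h3]
  let 𝒪 : Finset (Module.End k V) := Finset.univ.image (fun h : H => γ h e)
  have h𝒪 : ∀ a, a ∈ 𝒪 ↔ ∃ h, γ h e = a := by
    intro a
    simp [𝒪]
  let E : Module.End k V := ∑ a ∈ 𝒪, a
  have hEdef : E = ∑ a ∈ 𝒪, a := rfl
  have horb' : ∀ a ∈ 𝒪, ∀ b ∈ 𝒪, a * b = if a = b then a else 0 := by
    intro a ha b hb
    obtain ⟨g, rfl⟩ := (h𝒪 a).mp ha
    obtain ⟨h, rfl⟩ := (h𝒪 b).mp hb
    exact horb g h
  have he𝒪 : e ∈ 𝒪 := (h𝒪 e).mpr ⟨1, γ1 e⟩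
  have haE : ∀ a ∈ 𝒪, a * E = a := by
    intro a ha
    rw [hEdef, Finset.mul_sum, Finset.sum_congr rfl (fun b hb => horb' a ha b hb),
      Finset.sum_ite_eq, if_pos ha]
  have hEa : ∀ a ∈ 𝒪, E * a = a := by
    intro a ha
    rw [hEdef, Finset.sum_mul, Finset.sum_congr rfl (fun b hb => horb' b hb a ha),
      Finset.sum_ite_eq', if_pos ha]
  have hEE : E * E = E := by
    calc E * E = (∑ a ∈ 𝒪, a) * E := rfl
      _ = ∑ a ∈ 𝒪, a * E := Finset.sum_mul _ _ _
      _ = E := Finset.sum_congr rfl haE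
  have hγE : ∀ h, γ h E = E := by
    intro h
    have him : 𝒪.image (γ h) = 𝒪 := by
      ext a
      simp only [Finset.mem_image, h𝒪]
      constructor
      · rintro ⟨b, ⟨g, rfl⟩, rfl⟩
        exact ⟨h * g, γmul h g e⟩
      · rintro ⟨g, rfl⟩
        exact ⟨γ (h⁻¹ * g) e, ⟨_, rfl⟩, by rw [← γmul, mul_inv_cancel_left]⟩
    have h1 : γ h E = ∑ a ∈ 𝒪, γ h a := by
      simp only [γ, hEdef, Finset.mul_sum, Finset.sum_mul]
    rw [h1]
    calc ∑ a ∈ 𝒪, γ h a = ∑ b ∈ 𝒪.image (γ h), b :=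
          (Finset.sum_image (f := fun b => b) (g := γ h) (s := 𝒪)
            (fun a _ b _ hab => γinj h hab)).symm
      _ = E := by rw [him]
  have hψE : ∀ h, ψ h * E = E * ψ h := by
    intro h
    calc ψ h * E = ψ h * E * (ψ h⁻¹ * ψ h) := by rw [hψinv', mul_one]
      _ = γ h E * ψ h := by simp only [γ, mul_assoc]
      _ = E * ψ h := by rw [hγE]
  have hrep : ∀ a : 𝒪, ∃ t : H, γ t e = a.1 := fun a => (h𝒪 a.1).mp a.2
  choose t ht using hrep
  have hmem : ∀ h : H, γ h e ∈ 𝒪 := fun h => (h𝒪 _).mpr ⟨h, rfl⟩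
  have htx : ∀ (a : 𝒪) (x : He), γ (t a * (x : H)) e = a.1 := by
    intro a x
    rw [γmul, (γfix _).mpr x.2, ht]
  obtain ⟨Φ, hΦ⟩ : ∃ Φ : 𝒪 × He ≃ H, ∀ (a : 𝒪) (x : He), Φ (a, x) = t a * x := by
    refine ⟨
    { toFun := fun p => t p.1 * p.2
      invFun := fun h => (⟨γ h e, hmem h⟩, ⟨(t ⟨γ h e, hmem h⟩)⁻¹ * h, by
          rw [← γfix, γmul]
          have h6 := ht ⟨γ h e, hmem h⟩
          have h5 : γ (t ⟨γ h e, hmem h⟩)⁻¹ (γ (t ⟨γ h e, hmem h⟩) e) = e := by
            rw [← γmul, inv_mul_cancel, γ1]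
          rw [h6] at h5
          exact h5⟩)
      left_inv := by
        rintro ⟨a, x⟩
        have h2 : (⟨γ (t a * (x : H)) e, hmem _⟩ : 𝒪) = a := Subtype.ext (htx a x)
        refine Prod.ext h2 (Subtype.ext ?_)
        show (t ⟨γ (t a * (x : H)) e, hmem _⟩)⁻¹ * (t a * x) = x
        rw [h2, inv_mul_cancel_left]
      right_inv := by
        intro h
        show t ⟨γ h e, hmem h⟩ * ((t ⟨γ h e, hmem h⟩)⁻¹ * h) = h
        rw [mul_inv_cancel_left] }, fun a x => rfl⟩
  have hWe : ∀ w ∈ W, e w = w := by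
    intro w hw
    have := hW.1 1 w hw
    simp only [OneMemClass.coe_one, map_one, Module.End.one_apply] at this
    exact (mem_range_idem hee w).mp this
  have hψw : ∀ (h : H), ∀ w ∈ W, γ h e (ψ h w) = ψ h w := by
    intro h w hw
    simp only [γ, Module.End.mul_apply]
    rw [← Module.End.mul_apply (ψ h⁻¹), hψinv', Module.End.one_apply, hWe w hw]
  have hsumE : ∀ v : V, ∑ a : 𝒪, a.1 v = E v := by
    intro v
    rw [hEdef, LinearMap.sum_apply]
    exact Finset.sum_coe_sort 𝒪 (fun a => a v)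
  refine ⟨E, hEE, haE e he𝒪, hEa e he𝒪, hψE, ?_, ?_, ?_, ?_⟩
  · rw [hEdef]
    refine AddSubmonoid.sum_mem _ fun a ha => AddSubmonoid.subset_closure ?_
    obtain ⟨h, rfl⟩ := (h𝒪 a).mp ha
    exact ⟨h, rfl⟩
  · intro h w hw
    refine (mem_range_idem hEE _).mpr ?_
    rw [← hψw h w hw, ← Module.End.mul_apply, hEa _ (hmem h)]
  · intro u hu
    have hEu : E u = u := (mem_range_idem hEE u).mp hu
    have hex : ∀ a : 𝒪, ∃ c : He → V, (∀ x, c x ∈ W) ∧
        e (ψ (t a)⁻¹ u) = ∑ x : He, ψ (x : H) (c x) := fun a => hW.2.1 _ ⟨_, rfl⟩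
    choose c hc hcs using hex
    refine ⟨fun h => c (Φ.symm h).1 (Φ.symm h).2, fun h => hc _ _, ?_⟩
    calc u = E u := hEu.symm
      _ = ∑ a : 𝒪, a.1 u := (hsumE u).symm
      _ = ∑ a : 𝒪, ∑ x : He, ψ (Φ (a, x)) (c a x) := by
          apply Finset.sum_congr rfl
          intro a _
          have h5 : a.1 u = ψ (t a) (e (ψ (t a)⁻¹ u)) := by
            rw [← ht a]
            rfl
          rw [h5, hcs a, map_sum]
          apply Finset.sum_congr rfl
          intro x _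
          rw [hΦ, map_mul, Module.End.mul_apply]
      _ = ∑ p : 𝒪 × He, ψ (Φ p) (c p.1 p.2) :=
          (Fintype.sum_prod_type (fun p : 𝒪 × He => ψ (Φ p) (c p.1 p.2))).symm
      _ = ∑ p : 𝒪 × He, ψ (Φ p) (c (Φ.symm (Φ p)).1 (Φ.symm (Φ p)).2) := by
          apply Finset.sum_congr rfl
          intro p _
          rw [Equiv.symm_apply_apply]
      _ = ∑ h : H, ψ h (c (Φ.symm h).1 (Φ.symm h).2) :=
          Equiv.sum_comp Φ (fun h => ψ h (c (Φ.symm h).1 (Φ.symm h).2))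
  · intro c hc hsum
    have hsum' : ∑ a : 𝒪, ∑ x : He, ψ (Φ (a, x)) (c (Φ (a, x))) = 0 := by
      rw [← hsum, ← Equiv.sum_comp Φ (fun h => ψ h (c h))]
      exact (Fintype.sum_prod_type (fun p : 𝒪 × He => ψ (Φ p) (c (Φ p)))).symm
    have hzero : ∀ (a₀ : 𝒪) (x : He), c (t a₀ * x) = 0 := by
      intro a₀
      have h1 : ∑ x : He, ψ (t a₀ * (x : H)) (c (t a₀ * x)) = 0 := by
        have h2 := congrArg (a₀.1) hsum'
        rw [map_zero, map_sum] at h2
        rw [← h2]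
        symm
        rw [Finset.sum_eq_single a₀]
        · rw [map_sum]
          apply Finset.sum_congr rfl
          intro x _
          rw [hΦ]
          conv_lhs => rw [← hψw (t a₀ * x) _ (hc _), htx a₀ x]
          rw [← Module.End.mul_apply, horb' _ a₀.2 _ a₀.2, if_pos rfl]
          rw [← htx a₀ x, hψw (t a₀ * x) _ (hc _)]
        · intro a _ hne
          rw [map_sum]
          apply Finset.sum_eq_zero
          intro x _
          rw [hΦ, ← hψw (t a * x) _ (hc _), htx a x, ← Module.End.mul_apply,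
            horb' _ a₀.2 _ a.2, if_neg (fun h => hne (Subtype.ext h).symm)]
          rfl
        · intro h
          exact absurd (Finset.mem_univ _) h
      have h3 : ∑ x : He, ψ (x : H) (c (t a₀ * x)) = 0 := by
        have h4 := congrArg (ψ (t a₀)⁻¹) h1
        rw [map_zero, map_sum] at h4
        rw [← h4]
        apply Finset.sum_congr rfl
        intro x _
        rw [map_mul, Module.End.mul_apply, ← Module.End.mul_apply (ψ (t a₀)⁻¹), hψinv',
          Module.End.one_apply]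
      exact hW.2.2 (fun x => c (t a₀ * x)) (fun x => hc _) h3
    intro h
    have := hzero (Φ.symm h).1 (Φ.symm h).2
    rw [← hΦ] at this
    simpa using this

end Assembly

end Cfsg.Agent.Lib.Helper77.FrobFree
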