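import Cfsg.Agent.Lib.Helper77.FrobFreeD

set_option autoImplicit false

/-!
# Freeness of the non-fixed part for an abelian group of invertible order (helper77)
-/

namespace Cfsg.Agent.Lib.Helper77.FrobFree

open Module
open scoped Classical

section P

variable {k V : Type*} [Field k] [AddCommGroup V] [Module k V] [FiniteDimensional k V]
variable {Z : Type*} [Group Z] [Fintype Z]

set_option maxHeartbeats 1000000 in
theorem thmP_aux (ζ : Z →* Module.End k V) (hcard : (Fintype.card Z : k) ≠ 0)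
    (hcomm : ∀ z w, ζ z * ζ w = ζ w * ζ z)
    {H : Type*} [Group H] [Fintype H] (ψ : H →* Module.End k V)
    (hN : ∀ h z, ∃ z', ψ h * ζ z = ζ z' * ψ h)
    (hGP : ∀ x : H, x ≠ 1 → ∀ U' : Submodule k V, (∀ z, ∀ u ∈ U', ζ z u ∈ U') →
      (∀ u ∈ U', ψ x u ∈ U') → (∀ z, ∀ u ∈ U', ψ x (ζ z u) = ζ z (ψ x u)) →
      ∀ u ∈ U', ∀ z, ζ z u = u) :
    ∀ n : ℕ, ∀ ε : Module.End k V, ε ∈ RZ ζ → ε * ε = ε → ε * avg ζ = 0 →
      (∀ h, ψ h * ε = ε * ψ h) → finrank k (LinearMap.range ε) = n →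
      ∃ W : Submodule k V, FD ψ (LinearMap.range ε) W := by
  have hc := RZ_comm ζ hcomm
  have hψinv : ∀ h : H, ψ h * ψ h⁻¹ = 1 := fun h => by
    rw [← map_mul, mul_inv_cancel, map_one]
  have hψinv' : ∀ h : H, ψ h⁻¹ * ψ h = 1 := fun h => by
    rw [← map_mul, inv_mul_cancel, map_one]
  have hconj : ∀ h : H, ∀ a ∈ RZ ζ, ψ h * a * ψ h⁻¹ ∈ RZ ζ :=
    fun h => RZ_conj ζ (ψ h) (ψ h⁻¹) (hψinv h) (hN h)
  intro n
  induction n using Nat.strong_induction_on with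
  | _ n ih =>
  intro ε hεR hεε hεavg hεψ hn
  by_cases hε0 : ε = 0
  · subst hε0
    exact ⟨⊥, fd_zero _⟩
  obtain ⟨e, hmin⟩ := exists_minIdem (RZ ζ) ε hεR hεε hε0
  have heR := hmin.1
  have hee := hmin.2.1
  have heε := hmin.2.2.1
  have he0 := hmin.2.2.2.1
  have hεe : ε * e = e := by rw [hc ε hεR e heR, heε]
  let He : Subgroup H :=
    { carrier := {h | ψ h * e = e * ψ h}
      one_mem' := by simp
      mul_mem' := by
        intro a b ha hb
        change ψ a * e = e * ψ a at ha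
        change ψ b * e = e * ψ b at hb
        change ψ (a * b) * e = e * ψ (a * b)
        rw [map_mul, mul_assoc, hb, ← mul_assoc, ha, mul_assoc]
      inv_mem' := by
        intro a ha
        change ψ a * e = e * ψ a at ha
        change ψ a⁻¹ * e = e * ψ a⁻¹
        calc ψ a⁻¹ * e = ψ a⁻¹ * e * (ψ a * ψ a⁻¹) := by rw [hψinv, mul_one]
          _ = ψ a⁻¹ * (e * ψ a) * ψ a⁻¹ := by simp only [mul_assoc]
          _ = ψ a⁻¹ * (ψ a * e) * ψ a⁻¹ := by rw [ha]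
          _ = e * ψ a⁻¹ := by rw [← mul_assoc, hψinv', one_mul] }
  have hHe : ∀ h, h ∈ He ↔ ψ h * e = e * ψ h := fun h => Iff.rfl
  have hfield := corner_isField ζ hcard hcomm hmin
  letI act : MulSemiringAction ↥He (Corner (RZ ζ) e hmin.1 hmin.2.1 (RZ_comm ζ hcomm)) :=
    cornerAction ψ He (fun h _ a ha => hconj h a ha) (fun h hh => hh)
  have hsmul_val : ∀ (h : ↥He) (a : Corner (RZ ζ) e hmin.1 hmin.2.1 (RZ_comm ζ hcomm)),
      (h • a).1 = ψ h * a.1 * ψ (h : H)⁻¹ := fun h a => rfl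
  have hfaith : FaithfulSMul ↥He (Corner (RZ ζ) e hmin.1 hmin.2.1 (RZ_comm ζ hcomm)) := by
    refine ⟨fun {h₁ h₂} hh => ?_⟩
    by_contra hne
    have hx1 : (h₂⁻¹ * h₁ : ↥He) ≠ 1 := by
      intro h
      exact hne (inv_mul_eq_one.mp h).symm
    have hxtriv : ∀ a : Corner (RZ ζ) e hmin.1 hmin.2.1 (RZ_comm ζ hcomm),
        (h₂⁻¹ * h₁ : ↥He) • a = a := by
      intro a
      rw [mul_smul, hh a, ← mul_smul, inv_mul_cancel, one_smul]
    generalize (h₂⁻¹ * h₁ : ↥He) = x at hx1 hxtriv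
    have hxH : (x : H) ≠ 1 := fun h => hx1 (Subtype.ext h)
    have hxe : ψ x * e = e * ψ x := x.2
    have hcz : ∀ z, ψ x * (ζ z * e) = ζ z * e * ψ x := by
      intro z
      have this : ψ x * (ζ z * e) * ψ (x : H)⁻¹ = ζ z * e :=
        congrArg Subtype.val (hxtriv ⟨ζ z * e, (RZ ζ).mul_mem (mem_RZ ζ z) heR,
          by rw [mul_assoc, hee]⟩)
      calc ψ x * (ζ z * e) = ψ x * (ζ z * e) * (ψ (x : H)⁻¹ * ψ x) := by
            rw [hψinv', mul_one]
        _ = (ψ x * (ζ z * e) * ψ (x : H)⁻¹) * ψ x := by simp only [mul_assoc]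
        _ = ζ z * e * ψ x := by rw [this]
    have hU := hGP x hxH (LinearMap.range e) (by
        rintro z _ ⟨v, rfl⟩
        exact ⟨ζ z v, by
          rw [← Module.End.mul_apply, ← Module.End.mul_apply, hc e heR (ζ z) (mem_RZ ζ z)]⟩)
      (by
        rintro _ ⟨v, rfl⟩
        exact ⟨ψ x v, by rw [← Module.End.mul_apply, ← Module.End.mul_apply, hxe]⟩)
      (by
        rintro z _ ⟨v, rfl⟩
        have h1 := congrArg (fun f : Module.End k V => f v) (hcz z)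
        simp only [Module.End.mul_apply] at h1
        rw [h1]
        have h2 := congrArg (fun f : Module.End k V => f v) hxe
        simp only [Module.End.mul_apply] at h2
        rw [h2])
    apply he0
    ext v
    have h1 : ∀ z, ζ z (e v) = e v := hU (e v) ⟨v, rfl⟩
    have h2 : avg ζ (e v) = e v := avg_apply_of_fixed ζ hcard _ h1
    have h3 : e v = ε (avg ζ (e v)) := by rw [h2, ← Module.End.mul_apply, hεe]
    rw [h3, ← Module.End.mul_apply, hεavg]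
    rfl
  obtain ⟨W₁, hW₁⟩ := gd hfield (H := ↥He) (fun a => a.1) (fun _ _ => rfl) (fun _ _ => rfl)
    (ψ.comp He.subtype) (by
      intro h a
      show ψ h * a.1 * ψ (h : H)⁻¹ * ψ h = ψ h * a.1
      rw [mul_assoc, hψinv', mul_one])
  have hW₁' : FD (fun x : ↥He => ψ (x : H)) (LinearMap.range e) W₁ := hW₁
  have horth : ∀ h, h ∉ He → e * (ψ h * e * ψ h⁻¹) = 0 := by
    intro h hh
    by_contra hne
    have claim : ∀ g : H, e * (ψ g * e * ψ g⁻¹) ≠ 0 → e * (ψ g * e * ψ g⁻¹) = e := by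
      intro g hg
      have hgR : ψ g * e * ψ g⁻¹ ∈ RZ ζ := hconj g e heR
      have hgg : (ψ g * e * ψ g⁻¹) * (ψ g * e * ψ g⁻¹) = ψ g * e * ψ g⁻¹ := by
        calc (ψ g * e * ψ g⁻¹) * (ψ g * e * ψ g⁻¹)
            = ψ g * e * (ψ g⁻¹ * ψ g) * e * ψ g⁻¹ := by simp only [mul_assoc]
          _ = ψ g * e * ψ g⁻¹ := by rw [hψinv', mul_one, mul_assoc (ψ g), hee]
      refine minIdem_eq hc hmin ((RZ ζ).mul_mem heR hgR) ?_ ?_ hg
      · calc e * (ψ g * e * ψ g⁻¹) * (e * (ψ g * e * ψ g⁻¹))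
            = e * ((ψ g * e * ψ g⁻¹) * e) * (ψ g * e * ψ g⁻¹) := by simp only [mul_assoc]
          _ = e * (e * (ψ g * e * ψ g⁻¹)) * (ψ g * e * ψ g⁻¹) := by rw [hc _ hgR e heR]
          _ = (e * e) * ((ψ g * e * ψ g⁻¹) * (ψ g * e * ψ g⁻¹)) := by simp only [mul_assoc]
          _ = e * (ψ g * e * ψ g⁻¹) := by rw [hee, hgg]
      · rw [mul_assoc, hc _ hgR e heR, ← mul_assoc, hee]
    have h1 := claim h hne
    have h2 : e * (ψ h⁻¹ * e * ψ h) = e := by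
      have := claim h⁻¹
      rw [inv_inv] at this
      apply this
      intro h0
      have h3 : ψ h * (e * (ψ h⁻¹ * e * ψ h)) * ψ h⁻¹ = (ψ h * e * ψ h⁻¹) * e := by
        calc ψ h * (e * (ψ h⁻¹ * e * ψ h)) * ψ h⁻¹
            = ψ h * e * ψ h⁻¹ * e * (ψ h * ψ h⁻¹) := by simp only [mul_assoc]
          _ = (ψ h * e * ψ h⁻¹) * e := by rw [hψinv, mul_one]
      rw [h0, mul_zero, zero_mul, hc _ (hconj h e heR) e heR, h1] at h3
      exact he0 h3.symm
    have h4 : (ψ h * e * ψ h⁻¹) * e = ψ h * e * ψ h⁻¹ := by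
      calc (ψ h * e * ψ h⁻¹) * e = ψ h * e * ψ h⁻¹ * e * (ψ h * ψ h⁻¹) := by
            rw [hψinv, mul_one]
        _ = ψ h * (e * (ψ h⁻¹ * e * ψ h)) * ψ h⁻¹ := by simp only [mul_assoc]
        _ = ψ h * e * ψ h⁻¹ := by rw [h2]
    have h5 : ψ h * e * ψ h⁻¹ = e := by
      rw [← h4, hc _ (hconj h e heR) e heR, h1]
    apply hh
    show ψ h * e = e * ψ h
    calc ψ h * e = ψ h * e * (ψ h⁻¹ * ψ h) := by rw [hψinv', mul_one]
      _ = (ψ h * e * ψ h⁻¹) * ψ h := by simp only [mul_assoc]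
      _ = e * ψ h := by rw [h5]
  obtain ⟨E, hEE, heE, hEe, hψE, hEcl, hFDE⟩ := fd_orbit ψ e hee He hHe horth hW₁'
  have hER' : E ∈ RZ ζ ∧ E * ε = E := by
    clear hFDE hψE hEe heE hEE
    induction hEcl using AddSubmonoid.closure_induction with
    | mem x hx =>
      obtain ⟨h, rfl⟩ := hx
      refine ⟨hconj h e heR, ?_⟩
      have : ψ h⁻¹ * ε = ε * ψ h⁻¹ := hεψ h⁻¹
      rw [mul_assoc, this, ← mul_assoc, mul_assoc (ψ h), heε]
    | zero => exact ⟨(RZ ζ).zero_mem, zero_mul _⟩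
    | add x y _ _ hx hy => exact ⟨(RZ ζ).add_mem hx.1 hy.1, by rw [add_mul, hx.2, hy.2]⟩
  obtain ⟨hER, hEε⟩ := hER'
  have hεE : ε * E = E := by rw [hc ε hεR E hER, hEε]
  have hε'R : ε - E ∈ RZ ζ := (RZ ζ).sub_mem hεR hER
  have hε'ε' : (ε - E) * (ε - E) = ε - E := by
    rw [sub_mul, mul_sub, mul_sub, hεε, hεE, hEε, hEE, sub_self, sub_zero]
  have hε'avg : (ε - E) * avg ζ = 0 := by
    rw [sub_mul, hεavg, ← hEε, mul_assoc, hεavg, mul_zero, sub_zero]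
  have hε'ψ : ∀ h, ψ h * (ε - E) = (ε - E) * ψ h := by
    intro h
    rw [mul_sub, sub_mul, hεψ h, hψE h]
  have hlt : finrank k (LinearMap.range (ε - E)) < n := by
    rw [← hn]
    apply Submodule.finrank_lt_finrank_of_lt
    refine lt_of_le_of_ne ?_ ?_
    · rintro _ ⟨v, rfl⟩
      refine ⟨(ε - E) v, ?_⟩
      rw [← Module.End.mul_apply, mul_sub, hεε, hεE]
    · intro heq
      apply he0
      ext v
      have h1 : e v ∈ LinearMap.range ε := ⟨e v, by rw [← Module.End.mul_apply, hεe]⟩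
      rw [← heq] at h1
      obtain ⟨w, hw⟩ := h1
      have h2 : e v = e ((ε - E) w) := by rw [hw, ← Module.End.mul_apply, hee]
      rw [h2, ← Module.End.mul_apply, mul_sub, heε, heE, sub_self]
      rfl
  obtain ⟨W₂, hW₂⟩ := ih _ hlt (ε - E) hε'R hε'ε' hε'avg hε'ψ rfl
  have h12 : E * (ε - E) = 0 := by rw [mul_sub, hEε, hEE, sub_self]
  have h21 : (ε - E) * E = 0 := by rw [sub_mul, hεE, hEE, sub_self]
  have hfin := fd_add ψ E (ε - E) hEE hε'ε' h12 h21 hFDE hW₂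
  rw [add_sub_cancel] at hfin
  exact ⟨_, hfin⟩

theorem thmP (ζ : Z →* Module.End k V) (hζ : Function.Injective ζ)
    (hcard : (Fintype.card Z : k) ≠ 0)
    (hcomm : ∀ z w, ζ z * ζ w = ζ w * ζ z)
    {H : Type*} [Group H] [Fintype H] (ψ : H →* Module.End k V)
    (hN : ∀ h z, ∃ z', ψ h * ζ z = ζ z' * ψ h)
    (hGP : ∀ x : H, x ≠ 1 → ∀ U' : Submodule k V, (∀ z, ∀ u ∈ U', ζ z u ∈ U') →
      (∀ u ∈ U', ψ x u ∈ U') → (∀ z, ∀ u ∈ U', ψ x (ζ z u) = ζ z (ψ x u)) →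
      ∀ u ∈ U', ∀ z, ζ z u = u) :
    ∃ W : Submodule k V, FD ψ (LinearMap.range (1 - avg ζ)) W := by
  refine thmP_aux ζ hcard hcomm ψ hN hGP _ (1 - avg ζ) ?_ ?_ ?_ ?_ rfl
  · exact (RZ ζ).sub_mem (RZ ζ).one_mem (avg_mem_RZ ζ)
  · rw [sub_mul, mul_sub, mul_sub, avg_idem ζ hcard, one_mul, mul_one, one_mul, sub_self,
      sub_zero]
  · rw [sub_mul, one_mul, avg_idem ζ hcard, sub_self]
  · intro h
    have h1 : ψ h⁻¹ * ψ h = 1 := by rw [← map_mul, inv_mul_cancel, map_one]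
    rw [mul_sub, sub_mul, mul_one, one_mul, avg_comm ζ hζ (ψ h) (ψ h⁻¹) h1 (hN h)]

end P

end Cfsg.Agent.Lib.Helper77.FrobFree
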