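import Cfsg.Agent.Lib.Helper77.FrobFreeE
import Cfsg.Agent.Lib.Helper16.PFix

set_option autoImplicit false

/-!
# Free modules for Frobenius-like actions: the group-theoretic part (helper77)
-/

namespace Cfsg.Agent.Lib.Helper77.FrobFree

open Module
open scoped Classical

section Lift

variable {k V : Type*} [Field k] [AddCommGroup V] [Module k V]

/-- Lifting lemma: if `ψ x` (`x ≠ 1`) commutes with `φ f` on an `x`-invariant subspace `U`,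
then `φ f` is trivial on `U`. -/
theorem lift_lemma {F H : Type*} [Group F] [Finite F] [Group H] [Finite H]
    (φ : F →* Module.End k V) (ψ : H →* Module.End k V)
    (hN : ∀ h f, ∃ f', ψ h * φ f = φ f' * ψ h)
    (hGP : ∀ h : H, h ≠ 1 → ∀ f : F, ψ h * φ f = φ f * ψ h → φ f = 1)
    (x : H) (hx : x ≠ 1) (U : Submodule k V) (hU : ∀ u ∈ U, ψ x u ∈ U)
    (f : F) (hf : ∀ u ∈ U, ψ x (φ f u) = φ f (ψ x u)) : ∀ u ∈ U, φ f u = u := by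
  have hss' : ψ x * ψ x⁻¹ = 1 := by rw [← map_mul, mul_inv_cancel, map_one]
  have hs's : ψ x⁻¹ * ψ x = 1 := by rw [← map_mul, inv_mul_cancel, map_one]
  have hφinv : ∀ g : F, φ g⁻¹ * φ g = 1 := fun g => by
    rw [← map_mul, inv_mul_cancel, map_one]
  have hφinv' : ∀ g : F, φ g * φ g⁻¹ = 1 := fun g => by
    rw [← map_mul, mul_inv_cancel, map_one]
  -- invariance under `ψ x⁻¹`
  have hxinv : x⁻¹ = x ^ (orderOf x - 1) := by
    have h1 : x * x ^ (orderOf x - 1) = 1 := by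
      rw [← pow_succ', Nat.sub_add_cancel (orderOf_pos x), pow_orderOf_eq_one]
    exact inv_eq_of_mul_eq_one_right h1
  have hUpow : ∀ m : ℕ, ∀ u ∈ U, (ψ x ^ m) u ∈ U := by
    intro m
    induction m with
    | zero => intro u hu; simpa using hu
    | succ m ih =>
      intro u hu
      rw [pow_succ, Module.End.mul_apply]
      exact ih _ (hU u hu)
  have hU' : ∀ u ∈ U, ψ x⁻¹ u ∈ U := by
    intro u hu
    rw [hxinv, map_pow]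
    exact hUpow _ u hu
  -- the twisted map is injective on `range φ`
  have hinj : ∀ f₁ f₂ : F, φ f₁⁻¹ * (ψ x * φ f₁ * ψ x⁻¹) = φ f₂⁻¹ * (ψ x * φ f₂ * ψ x⁻¹) →
      φ f₁ = φ f₂ := by
    intro f₁ f₂ h
    have h1 : φ (f₂ * f₁⁻¹) * ψ x = ψ x * φ (f₂ * f₁⁻¹) := by
      have h2 : φ f₂ * (φ f₁⁻¹ * (ψ x * φ f₁ * ψ x⁻¹)) * ψ x * φ f₁⁻¹
          = φ f₂ * (φ f₂⁻¹ * (ψ x * φ f₂ * ψ x⁻¹)) * ψ x * φ f₁⁻¹ := by rw [h]
      have h3 : φ f₂ * (φ f₁⁻¹ * (ψ x * φ f₁ * ψ x⁻¹)) * ψ x * φ f₁⁻¹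
          = φ (f₂ * f₁⁻¹) * ψ x := by
        calc φ f₂ * (φ f₁⁻¹ * (ψ x * φ f₁ * ψ x⁻¹)) * ψ x * φ f₁⁻¹
            = φ f₂ * φ f₁⁻¹ * ψ x * (φ f₁ * ((ψ x⁻¹ * ψ x) * φ f₁⁻¹)) := by
              simp only [mul_assoc]
          _ = φ (f₂ * f₁⁻¹) * ψ x := by
              rw [hs's, one_mul, hφinv', mul_one, map_mul]
      have h4 : φ f₂ * (φ f₂⁻¹ * (ψ x * φ f₂ * ψ x⁻¹)) * ψ x * φ f₁⁻¹
          = ψ x * φ (f₂ * f₁⁻¹) := by
        calc φ f₂ * (φ f₂⁻¹ * (ψ x * φ f₂ * ψ x⁻¹)) * ψ x * φ f₁⁻¹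
            = (φ f₂ * φ f₂⁻¹) * (ψ x * (φ f₂ * ((ψ x⁻¹ * ψ x) * φ f₁⁻¹))) := by
              simp only [mul_assoc]
          _ = ψ x * φ (f₂ * f₁⁻¹) := by
              rw [hs's, one_mul, hφinv', one_mul, map_mul]
      rw [← h3, h2, h4]
    have h5 : φ (f₂ * f₁⁻¹) = 1 := hGP x hx _ h1.symm
    calc φ f₁ = φ (f₂ * f₁⁻¹) * φ f₁ := by rw [h5, one_mul]
      _ = φ f₂ := by rw [← map_mul, inv_mul_cancel_right]
  -- the kernel set
  let 𝒦 : Set F := {g | ∀ u ∈ U, φ g u = u}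
  have h𝒦inv : ∀ g : F, g ∈ 𝒦 → ∀ u ∈ U, φ g⁻¹ u = u := by
    intro g hg u hu
    conv_lhs => rw [← hg u hu]
    rw [← Module.End.mul_apply, hφinv, Module.End.one_apply]
  -- twisted map on F (choice of conjugate)
  choose c hc using fun g : F => hN x g
  have hconj : ∀ g : F, ψ x * φ g * ψ x⁻¹ = φ (c g) := by
    intro g
    rw [hc g, mul_assoc, hss', mul_one]
  let T : F → F := fun g => g⁻¹ * c g
  have hT : ∀ g : F, φ (T g) = φ g⁻¹ * (ψ x * φ g * ψ x⁻¹) := by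
    intro g
    simp only [T]
    rw [map_mul, hconj]
  have hT𝒦 : ∀ g : F, g ∈ 𝒦 → T g ∈ 𝒦 := by
    intro g hg u hu
    rw [hT, Module.End.mul_apply, Module.End.mul_apply, Module.End.mul_apply,
      hg _ (hU' u hu), ← Module.End.mul_apply (ψ x), hss', Module.End.one_apply]
    exact h𝒦inv g hg u hu
  -- work in the finite quotient set `φ '' 𝒦`
  let S : Set (Module.End k V) := φ '' 𝒦
  have hSfin : S.Finite := (Set.toFinite 𝒦).image φ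
  haveI : Finite S := hSfin
  have hex : ∀ a : S, ∃ g : F, g ∈ 𝒦 ∧ φ g = a.1 := fun a => a.2
  choose r hr𝒦 hr using hex
  let Tq : S → S := fun a => ⟨φ (T (r a)), ⟨T (r a), hT𝒦 _ (hr𝒦 a), rfl⟩⟩
  have hTq_inj : Function.Injective Tq := by
    intro a b hab
    have h1 : φ (T (r a)) = φ (T (r b)) := congrArg Subtype.val hab
    rw [hT, hT] at h1
    apply Subtype.ext
    rw [← hr a, ← hr b]
    exact hinj _ _ h1
  have hTq_surj : Function.Surjective Tq := Finite.injective_iff_surjective.mp hTq_inj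
  -- `T f ∈ 𝒦`
  have hTf : T f ∈ 𝒦 := by
    intro u hu
    rw [hT, Module.End.mul_apply, Module.End.mul_apply, Module.End.mul_apply,
      hf _ (hU' u hu), ← Module.End.mul_apply (ψ x), hss', Module.End.one_apply,
      ← Module.End.mul_apply, hφinv, Module.End.one_apply]
  obtain ⟨b, hb⟩ := hTq_surj ⟨φ (T f), ⟨T f, hTf, rfl⟩⟩
  have h2 : φ (T (r b)) = φ (T f) := congrArg Subtype.val hb
  rw [hT, hT] at h2
  have h3 : φ (r b) = φ f := hinj _ _ h2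
  intro u hu
  rw [← h3]
  exact hr𝒦 b u hu

end Lift

section QCen

variable {G : Type*} [Group G]

/-- The `q`-elements of `𝔽` commuting with all `q`-elements of `𝔽`. -/
def qCen (𝔽 : Subgroup G) (q : ℕ) : Subgroup G where
  carrier := {z | z ∈ 𝔽 ∧ (∃ n : ℕ, z ^ (q ^ n) = 1) ∧
    ∀ a ∈ 𝔽, (∃ n : ℕ, a ^ (q ^ n) = 1) → a * z = z * a}
  one_mem' := ⟨𝔽.one_mem, ⟨0, by simp⟩, fun a _ _ => by simp⟩
  mul_mem' := by
    rintro z w ⟨hz, ⟨n, hn⟩, hzc⟩ ⟨hw, ⟨m, hm⟩, hwc⟩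
    refine ⟨𝔽.mul_mem hz hw, ⟨n + m, ?_⟩, fun a ha haq => ?_⟩
    · have hcomm : Commute z w := (hzc w hw ⟨m, hm⟩).symm
      rw [hcomm.mul_pow]
      have h1 : z ^ (q ^ (n + m)) = 1 := by rw [pow_add, pow_mul, hn, one_pow]
      have h2 : w ^ (q ^ (n + m)) = 1 := by rw [pow_add, mul_comm, pow_mul, hm, one_pow]
      rw [h1, h2, one_mul]
    · rw [← mul_assoc, hzc a ha haq, mul_assoc, hwc a ha haq, mul_assoc]
  inv_mem' := by
    rintro z ⟨hz, ⟨n, hn⟩, hzc⟩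
    refine ⟨𝔽.inv_mem hz, ⟨n, by rw [inv_pow, hn, inv_one]⟩, fun a ha haq => ?_⟩
    have := hzc a ha haq
    calc a * z⁻¹ = z⁻¹ * (z * a) * z⁻¹ := by group
      _ = z⁻¹ * (a * z) * z⁻¹ := by rw [this]
      _ = z⁻¹ * a := by group

theorem mem_qCen (𝔽 : Subgroup G) (q : ℕ) (z : G) : z ∈ qCen 𝔽 q ↔
    z ∈ 𝔽 ∧ (∃ n : ℕ, z ^ (q ^ n) = 1) ∧
      ∀ a ∈ 𝔽, (∃ n : ℕ, a ^ (q ^ n) = 1) → a * z = z * a := Iff.rfl

theorem qCen_le (𝔽 : Subgroup G) (q : ℕ) : qCen 𝔽 q ≤ 𝔽 := fun _ hz => hz.1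

theorem qCen_comm (𝔽 : Subgroup G) (q : ℕ) (z w : G) (hz : z ∈ qCen 𝔽 q) (hw : w ∈ qCen 𝔽 q) :
    z * w = w * z := hw.2.2 z hz.1 hz.2.1

theorem qCen_isPGroup (𝔽 : Subgroup G) (q : ℕ) : IsPGroup q (qCen 𝔽 q) := by
  rintro ⟨z, hz⟩
  obtain ⟨n, hn⟩ := hz.2.1
  exact ⟨n, Subtype.ext hn⟩

theorem qCen_conj (𝔽 : Subgroup G) (q : ℕ) (s : G) (hs : ∀ a ∈ 𝔽, s * a * s⁻¹ ∈ 𝔽)
    (hs' : ∀ a ∈ 𝔽, s⁻¹ * a * s ∈ 𝔽) (z : G) (hz : z ∈ qCen 𝔽 q) :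
    s * z * s⁻¹ ∈ qCen 𝔽 q := by
  obtain ⟨hzF, ⟨n, hn⟩, hzc⟩ := hz
  refine ⟨hs z hzF, ⟨n, by rw [conj_pow, hn, mul_one, mul_inv_cancel]⟩, fun a ha haq => ?_⟩
  obtain ⟨m, hm⟩ := haq
  have h1 : (s⁻¹ * a * s) ^ (q ^ m) = 1 := by
    have := conj_pow (a := s⁻¹) (b := a) (i := q ^ m)
    rw [inv_inv] at this
    rw [this, hm, mul_one, inv_mul_cancel]
  have h2 := hzc (s⁻¹ * a * s) (hs' a ha) ⟨m, h1⟩
  calc a * (s * z * s⁻¹) = s * ((s⁻¹ * a * s) * z) * s⁻¹ := by group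
    _ = s * (z * (s⁻¹ * a * s)) * s⁻¹ := by rw [h2]
    _ = s * z * s⁻¹ * a := by group

theorem qCen_nontrivial (𝔽 : Subgroup G) [Finite 𝔽] (hnil : Group.IsNilpotent 𝔽)
    (q : ℕ) [hq : Fact q.Prime] (hdvd : q ∣ Nat.card 𝔽) : ∃ z ∈ qCen 𝔽 q, z ≠ 1 := by
  let P : Sylow q 𝔽 := default
  haveI : (P : Subgroup 𝔽).Normal := inferInstance
  have hPne : (P : Subgroup 𝔽) ≠ ⊥ := P.ne_bot_of_dvd_card hdvd
  haveI : Nontrivial (P : Subgroup 𝔽) := (Subgroup.nontrivial_iff_ne_bot _).mpr hPne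
  haveI := IsPGroup.center_nontrivial P.2
  obtain ⟨z₀, hz₀⟩ := exists_ne (1 : Subgroup.center (P : Subgroup 𝔽))
  haveI := Sylow.unique_of_normal P inferInstance
  refine ⟨((z₀ : (P : Subgroup 𝔽)) : 𝔽), ⟨SetLike.coe_mem _, ?_, ?_⟩, ?_⟩
  · obtain ⟨n, hn⟩ := P.2 (z₀ : (P : Subgroup 𝔽))
    refine ⟨n, ?_⟩
    have := congrArg (fun y : (P : Subgroup 𝔽) => ((y : 𝔽) : G)) hn
    simpa using this
  · rintro a ha ⟨n, hn⟩
    have hn' : (⟨a, ha⟩ : 𝔽) ^ (q ^ n) = 1 := Subtype.ext hn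
    have hpz : IsPGroup q (Subgroup.zpowers (⟨a, ha⟩ : 𝔽)) := by
      have h1 : orderOf (⟨a, ha⟩ : 𝔽) ∣ q ^ n := orderOf_dvd_of_pow_eq_one hn'
      obtain ⟨j, -, hj⟩ := (Nat.dvd_prime_pow hq.out).mp h1
      exact IsPGroup.of_card (n := j) (by rw [Nat.card_zpowers, hj])
    obtain ⟨Q, hQ⟩ := hpz.exists_le_sylow
    have hQP : Q = P := Subsingleton.elim Q P
    have haP : (⟨a, ha⟩ : 𝔽) ∈ (P : Subgroup 𝔽) := by
      rw [← hQP]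
      exact hQ (Subgroup.mem_zpowers _)
    have h2 := (Subgroup.mem_center_iff.mp z₀.2) ⟨⟨a, ha⟩, haP⟩
    have h3 := congrArg (fun y : (P : Subgroup 𝔽) => ((y : 𝔽) : G)) h2
    simpa using h3
  · intro h
    apply hz₀
    apply Subtype.ext
    apply Subtype.ext
    apply Subtype.ext
    simpa using h

end QCen

end Cfsg.Agent.Lib.Helper77.FrobFree
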