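import Cfsg.Agent.Lib.Helper77.FrobFreeF

set_option autoImplicit false

/-!
# Free modules for Frobenius-like actions: main induction (helper77)

`thmT`: if `H` normalises the nilpotent group `F` of operators, no nontrivial element of `H`
commutes with a nontrivial element of `F`, and `F` has no nonzero fixed vector, then the
space is the direct sum of the translates `h W` of a subspace `W`.
-/

namespace Cfsg.Agent.Lib.Helper77.FrobFree

open Module
open scoped Classical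

universe u v w₁ w₂

section Res

variable {k : Type u} {V : Type v} [Field k] [AddCommGroup V] [Module k V]

/-- Restriction of a representation to an invariant subspace. -/
def resHom {G : Type*} [Monoid G] (ρ : G →* Module.End k V) (U : Submodule k V)
    (hU : ∀ g, ∀ u ∈ U, ρ g u ∈ U) : G →* Module.End k U where
  toFun g := (ρ g).restrict (hU g)
  map_one' := by
    ext u
    simp
  map_mul' a b := by
    ext u
    simp

@[simp] theorem resHom_apply {G : Type*} [Monoid G] (ρ : G →* Module.End k V)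
    (U : Submodule k V) (hU : ∀ g, ∀ u ∈ U, ρ g u ∈ U) (g : G) (u : U) :
    ((resHom ρ U hU g) u : V) = ρ g u := rfl

theorem fd_of_res {H : Type*} [Group H] [Fintype H] (ψ : H →* Module.End k V)
    (U : Submodule k V) (hU : ∀ g, ∀ u ∈ U, ψ g u ∈ U) (W' : Submodule k U)
    (h : FD (resHom ψ U hU) ⊤ W') : FD ψ U (W'.map U.subtype) := by
  refine ⟨?_, ?_, ?_⟩
  · rintro g w ⟨w', -, rfl⟩
    exact hU g _ w'.2
  · intro u hu
    obtain ⟨c, hc, hsum⟩ := h.2.1 ⟨u, hu⟩ Submodule.mem_top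
    refine ⟨fun g => (c g : V), fun g => ⟨c g, hc g, rfl⟩, ?_⟩
    have := congrArg Subtype.val hsum
    simpa using this
  · intro c hc hsum g
    have hc' : ∀ g, ∃ w' ∈ W', (w' : V) = c g := fun g => hc g
    choose c' hc' hcc' using hc'
    have h0 : ∑ g, (resHom ψ U hU g) (c' g) = 0 := by
      apply Subtype.ext
      rw [Submodule.coe_sum, Submodule.coe_zero, ← hsum]
      apply Finset.sum_congr rfl
      intro g _
      rw [resHom_apply, hcc']
    rw [← hcc' g, h.2.2 c' hc' h0 g]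
    rfl

end Res

section T

variable {k : Type u} [Field k] {F : Type w₁} {H : Type w₂} [Group F] [Finite F] [Group H]
  [Fintype H]

set_option maxHeartbeats 1000000 in
theorem thmT (hnil : Group.IsNilpotent F) :
    ∀ n : ℕ, ∀ (V : Type v) [AddCommGroup V] [Module k V] [FiniteDimensional k V]
      (φ : F →* Module.End k V) (ψ : H →* Module.End k V),
      (∀ h f, ∃ f', ψ h * φ f = φ f' * ψ h) →
      (∀ h : H, h ≠ 1 → ∀ f : F, ψ h * φ f = φ f * ψ h → φ f = 1) →
      (∀ v : V, (∀ f, φ f v = v) → v = 0) →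
      finrank k V = n → ∃ W : Submodule k V, FD ψ ⊤ W := by
  intro n
  induction n using Nat.strong_induction_on with
  | _ n ih =>
  intro V _ _ _ φ ψ hN hGP hC hn
  by_cases hV : Subsingleton V
  · refine ⟨⊥, fun _ _ _ => Submodule.mem_top, fun u _ => ⟨fun _ => 0, fun _ => Submodule.zero_mem _, ?_⟩,
      fun c hc _ h => (Submodule.mem_bot k).mp (hc h)⟩
    exact Subsingleton.elim _ _
  rw [not_subsingleton_iff_nontrivial] at hV
  -- the operator group
  let φu : F →* (Module.End k V)ˣ := φ.toHomUnits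
  let 𝔽 : Subgroup (Module.End k V)ˣ := φu.range
  have hφu : ∀ f, ((φu f : (Module.End k V)ˣ) : Module.End k V) = φ f := fun f => rfl
  haveI : Finite 𝔽 := Finite.of_surjective φu.rangeRestrict φu.rangeRestrict_surjective
  have hnil𝔽 : Group.IsNilpotent 𝔽 :=
    Group.nilpotent_of_surjective φu.rangeRestrict φu.rangeRestrict_surjective
  have hψinv : ∀ h : H, ψ h * ψ h⁻¹ = 1 := fun h => by
    rw [← map_mul, mul_inv_cancel, map_one]
  have hψinv' : ∀ h : H, ψ h⁻¹ * ψ h = 1 := fun h => by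
    rw [← map_mul, inv_mul_cancel, map_one]
  -- a prime divisor of the order invertible in k
  obtain ⟨q, hq, hqdvd, hqk⟩ : ∃ q : ℕ, q.Prime ∧ q ∣ Nat.card 𝔽 ∧ (q : k) ≠ 0 := by
    by_contra hcon
    push Not at hcon
    by_cases hcard1 : Nat.card 𝔽 = 1
    · obtain ⟨v, hv⟩ := exists_ne (0 : V)
      apply hv
      apply hC
      intro f
      haveI : Subsingleton 𝔽 := (Nat.card_eq_one_iff_unique.mp hcard1).1
      have h1 : (⟨φu f, ⟨f, rfl⟩⟩ : 𝔽) = 1 := Subsingleton.elim _ _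
      have h2 : φu f = 1 := congrArg Subtype.val h1
      have h3 : φ f = 1 := by rw [← hφu, h2]; rfl
      rw [h3]
      rfl
    · obtain ⟨p, hp, hpdvd⟩ := Nat.exists_prime_and_dvd hcard1
      have hpk := hcon p hp hpdvd
      have hchar : ringChar k = p :=
        ((Nat.dvd_prime hp).mp (ringChar.dvd hpk)).resolve_left CharP.ringChar_ne_one
      haveI : Fact p.Prime := ⟨hp⟩
      haveI : CharP k p := by
        rw [← hchar]
        exact ringChar.charP k
      have hpg : IsPGroup p 𝔽 := by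
        have h1 : Nat.card 𝔽 = p ^ (Nat.card 𝔽).primeFactorsList.length :=
          Nat.eq_prime_pow_of_unique_prime_dvd Nat.card_pos.ne' (fun {d} hd hdd => by
            have := hcon d hd hdd
            have h2 : ringChar k ∣ d := ringChar.dvd this
            rw [hchar] at h2
            exact ((Nat.prime_dvd_prime_iff_eq hp hd).mp h2).symm)
        exact IsPGroup.of_card h1
      let ρ : Representation k 𝔽 V := (Units.coeHom (Module.End k V)).comp 𝔽.subtype
      obtain ⟨u, -, hu0, hfix⟩ := Cfsg.Agent.Lib.Helper16.exists_fixed_ne_zero_rep hpg ρ ⊤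
        (fun _ _ _ => Submodule.mem_top) top_ne_bot
      apply hu0
      apply hC
      intro f
      exact hfix ⟨φu f, ⟨f, rfl⟩⟩
  haveI : Fact q.Prime := ⟨hq⟩
  -- the abelian normal q-subgroup
  let Z₀ : Subgroup (Module.End k V)ˣ := qCen 𝔽 q
  haveI : Finite Z₀ := Finite.of_injective (Subgroup.inclusion (qCen_le 𝔽 q))
    (Subgroup.inclusion_injective _)
  letI : Fintype Z₀ := Fintype.ofFinite Z₀
  let ζ : Z₀ →* Module.End k V := (Units.coeHom (Module.End k V)).comp Z₀.subtype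
  have hζ : ∀ z : Z₀, ζ z = ((z : (Module.End k V)ˣ) : Module.End k V) := fun z => rfl
  have hζinj : Function.Injective ζ := by
    intro a b hab
    apply Subtype.ext
    apply Units.ext
    exact hab
  have hcard : (Fintype.card Z₀ : k) ≠ 0 := by
    obtain ⟨m, hm⟩ := (IsPGroup.iff_card.mp (qCen_isPGroup 𝔽 q))
    rw [Fintype.card_eq_nat_card, hm, Nat.cast_pow]
    exact pow_ne_zero _ hqk
  have hcomm : ∀ z w : Z₀, ζ z * ζ w = ζ w * ζ z := by
    intro z w
    have := qCen_comm 𝔽 q z w z.2 w.2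
    rw [hζ, hζ, ← Units.val_mul, this, Units.val_mul]
  -- units normalising 𝔽 normalise Z₀
  have hnormZ : ∀ (s : (Module.End k V)ˣ), (∀ a ∈ 𝔽, s * a * s⁻¹ ∈ 𝔽) →
      (∀ a ∈ 𝔽, s⁻¹ * a * s ∈ 𝔽) → ∀ z : Z₀, ∃ z' : Z₀, (s : Module.End k V) * ζ z = ζ z' * s := by
    intro s hs hs' z
    refine ⟨⟨s * z * s⁻¹, qCen_conj 𝔽 q s hs hs' z z.2⟩, ?_⟩
    rw [hζ, hζ]
    simp only [← Units.val_mul]
    congr 1
    group
  let ψu : H →* (Module.End k V)ˣ := ψ.toHomUnits
  have hψu : ∀ h, ((ψu h : (Module.End k V)ˣ) : Module.End k V) = ψ h := fun h => rfl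
  have hψnorm : ∀ h : H, ∀ a ∈ 𝔽, ψu h * a * (ψu h)⁻¹ ∈ 𝔽 := by
    rintro h _ ⟨f, rfl⟩
    obtain ⟨f', hf'⟩ := hN h f
    refine ⟨f', ?_⟩
    have h1 : φu f' * ψu h = ψu h * φu f := Units.ext hf'.symm
    show φu f' = ψu h * φu f * (ψu h)⁻¹
    rw [← h1, mul_inv_cancel_right]
  have hψnorm' : ∀ h : H, ∀ a ∈ 𝔽, (ψu h)⁻¹ * a * ψu h ∈ 𝔽 := by
    intro h a ha
    have := hψnorm h⁻¹ a ha
    rwa [map_inv, inv_inv] at this
  have hNψ : ∀ (h : H) (z : Z₀), ∃ z' : Z₀, ψ h * ζ z = ζ z' * ψ h := fun h z =>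
    hnormZ (ψu h) (hψnorm h) (hψnorm' h) z
  have hNφ : ∀ (f : F) (z : Z₀), ∃ z' : Z₀, φ f * ζ z = ζ z' * φ f := fun f z =>
    hnormZ (φu f) (fun a ha => 𝔽.mul_mem (𝔽.mul_mem ⟨f, rfl⟩ ha) (𝔽.inv_mem ⟨f, rfl⟩))
      (fun a ha => 𝔽.mul_mem (𝔽.mul_mem (𝔽.inv_mem ⟨f, rfl⟩) ha) ⟨f, rfl⟩) z
  -- the hypothesis of thmP
  have hGP' : ∀ x : H, x ≠ 1 → ∀ U' : Submodule k V, (∀ z : Z₀, ∀ u ∈ U', ζ z u ∈ U') →
      (∀ u ∈ U', ψ x u ∈ U') → (∀ z : Z₀, ∀ u ∈ U', ψ x (ζ z u) = ζ z (ψ x u)) →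
      ∀ u ∈ U', ∀ z : Z₀, ζ z u = u := by
    intro x hx U' _ hU2 hU3 u hu z
    obtain ⟨f, hf⟩ := qCen_le 𝔽 q z.2
    have hzf : ζ z = φ f := by rw [hζ, ← hf]; rfl
    rw [hzf]
    exact lift_lemma φ ψ hN hGP x hx U' hU2 f (fun u hu => by rw [← hzf]; exact hU3 z u hu) u hu
  obtain ⟨W₁, hW₁⟩ := thmP ζ hζinj hcard hcomm ψ hNψ hGP'
  -- the fixed part
  have he₀ : avg ζ * avg ζ = avg ζ := avg_idem ζ hcard
  have hψe : ∀ h, ψ h * avg ζ = avg ζ * ψ h := fun h =>
    avg_comm ζ hζinj (ψ h) (ψ h⁻¹) (hψinv' h) (hNψ h)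
  have hφe : ∀ f, φ f * avg ζ = avg ζ * φ f := fun f =>
    avg_comm ζ hζinj (φ f) (φ f⁻¹) (by rw [← map_mul, inv_mul_cancel, map_one]) (hNφ f)
  let V₀ : Submodule k V := LinearMap.range (avg ζ)
  have hV₀ψ : ∀ h, ∀ u ∈ V₀, ψ h u ∈ V₀ := by
    rintro h _ ⟨v, rfl⟩
    exact ⟨ψ h v, by rw [← Module.End.mul_apply, ← Module.End.mul_apply, hψe]⟩
  have hV₀φ : ∀ f, ∀ u ∈ V₀, φ f u ∈ V₀ := by
    rintro f _ ⟨v, rfl⟩
    exact ⟨φ f v, by rw [← Module.End.mul_apply, ← Module.End.mul_apply, hφe]⟩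
  have hV₀lt : finrank k V₀ < n := by
    rw [← hn]
    apply Submodule.finrank_lt
    intro htop
    obtain ⟨z, hz, hz1⟩ := qCen_nontrivial 𝔽 hnil𝔽 q hqdvd
    apply hz1
    apply Units.ext
    ext v
    have hv : v ∈ V₀ := by rw [htop]; exact Submodule.mem_top
    have h1 : avg ζ v = v := (mem_range_idem he₀ v).mp hv
    exact fixed_of_avg_apply ζ v h1 ⟨z, hz⟩
  obtain ⟨W₀', hW₀'⟩ := ih _ hV₀lt V₀ (resHom φ V₀ hV₀φ) (resHom ψ V₀ hV₀ψ)
    (by
      intro h f
      obtain ⟨f', hf'⟩ := hN h f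
      refine ⟨f', ?_⟩
      ext u
      have := congrArg (fun g : Module.End k V => g (u : V)) hf'
      simpa using this)
    (by
      intro h hh f hcommf
      have h1 : ∀ u ∈ V₀, ψ h (φ f u) = φ f (ψ h u) := by
        intro u hu
        have := congrArg (fun g : Module.End k V₀ => ((g ⟨u, hu⟩ : V₀) : V)) hcommf
        simpa using this
      have h2 := lift_lemma φ ψ hN hGP h hh V₀ (hV₀ψ h) f h1
      ext u
      exact h2 u u.2)
    (by
      intro v hv
      apply Subtype.ext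
      apply hC
      intro f
      have := congrArg Subtype.val (hv f)
      simpa using this)
    rfl
  have hW₀ : FD ψ (LinearMap.range (avg ζ)) (W₀'.map V₀.subtype) :=
    fd_of_res ψ V₀ hV₀ψ W₀' hW₀'
  have h12 : avg ζ * (1 - avg ζ) = 0 := by rw [mul_sub, mul_one, he₀, sub_self]
  have h21 : (1 - avg ζ) * avg ζ = 0 := by rw [sub_mul, one_mul, he₀, sub_self]
  have h22 : (1 - avg ζ) * (1 - avg ζ) = 1 - avg ζ := by
    rw [mul_sub, mul_one, h21, sub_zero]
  have hfin := fd_add ψ (avg ζ) (1 - avg ζ) he₀ h22 h12 h21 hW₀ hW₁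
  rw [add_sub_cancel, Module.End.one_eq_id, LinearMap.range_id] at hfin
  exact ⟨_, hfin⟩

end T

section Final

theorem isInternal_of_fd {k V H : Type*} [Field k] [AddCommGroup V] [Module k V]
    [Fintype H] [DecidableEq H]
    (ψ : H → Module.End k V) (W : Submodule k V) (h : FD ψ ⊤ W) :
    DirectSum.IsInternal (fun g : H => W.map (ψ g)) := by
  constructor
  · rw [injective_iff_map_eq_zero]
    intro x hx
    rw [DirectSum.coeAddMonoidHom_eq_dfinsuppSum, DFinsupp.sum_eq_sum_fintype _ (fun i => rfl)]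
      at hx
    have hmem : ∀ g : H, ∃ w ∈ W, ψ g w = ((x g : W.map (ψ g)) : V) := fun g => (x g).2
    choose c hc hcx using hmem
    have hsum : ∑ g, ψ g (c g) = 0 := by
      rw [← hx]
      apply Finset.sum_congr rfl
      intro g _
      rw [hcx g]
      rfl
    have h0 := h.2.2 c hc hsum
    ext g
    rw [← hcx g, h0 g, map_zero]
    rfl
  · intro v
    obtain ⟨c, hc, hsum⟩ := h.2.1 v Submodule.mem_top
    refine ⟨∑ g, DirectSum.of (fun g : H => ↥(W.map (ψ g))) g
      ⟨ψ g (c g), Submodule.mem_map_of_mem (hc g)⟩, ?_⟩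
    rw [map_sum, hsum]
    apply Finset.sum_congr rfl
    intro g _
    rw [DirectSum.coeAddMonoidHom_of]

end Final

end Cfsg.Agent.Lib.Helper77.FrobFree
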