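import Mathlib
import Cfsg.Agent.Lib.Helper84.GADefs

/-!
# Project GA (S4840, helper84), piece SYLAB (proved by helper77)

If `p ^ 3` does not divide the order of `Γ`, the Sylow `p`-subgroups of `Γ` are commutative.
-/

set_option autoImplicit false

namespace Cfsg.Agent.Lib.Helper77.GA

open Cfsg.Agent.Lib.Helper84.GA

universe u

theorem sylAb : SylAbStmt.{u} := by
  intro Γ _ _ p _ h3 Q
  have hp : p.Prime := Fact.out
  obtain ⟨k, hk⟩ := IsPGroup.iff_card.1 Q.isPGroup'
  have hd : p ^ k ∣ Nat.card Γ := by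
    rw [← hk]
    exact Subgroup.card_subgroup_dvd_card (Q : Subgroup Γ)
  have hk2 : k ≤ 2 := by
    by_contra hlt
    have hlt' : 3 ≤ k := by omega
    exact h3 ((pow_dvd_pow p hlt').trans hd)
  interval_cases k
  · have h1 : Nat.card ↥(Q : Subgroup Γ) = 1 := by rw [hk, pow_zero]
    have hs : Subsingleton ↥(Q : Subgroup Γ) := (Nat.card_eq_one_iff_unique.1 h1).1
    exact ⟨⟨fun a b => Subsingleton.elim _ _⟩⟩
  · have h1 : Nat.card ↥(Q : Subgroup Γ) = p := by rw [hk, pow_one]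
    have hc : IsCyclic ↥(Q : Subgroup Γ) := isCyclic_of_prime_card h1
    obtain ⟨g, hg⟩ := hc.exists_generator
    refine ⟨⟨fun a b => ?_⟩⟩
    obtain ⟨i, rfl⟩ := Subgroup.mem_zpowers_iff.1 (hg a)
    obtain ⟨j, rfl⟩ := Subgroup.mem_zpowers_iff.1 (hg b)
    rw [← zpow_add, ← zpow_add, add_comm]
  · exact IsPGroup.isMulCommutative_of_card_eq_prime_sq hk

end Cfsg.Agent.Lib.Helper77.GA
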