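import Mathlib

set_option autoImplicit false

namespace Cfsg.Agent.Lib.Helper77

/-- number of solutions of `x ^ d = 1` -/
noncomputable def nsol (K : Type*) [Monoid K] (d : ℕ) : ℕ := Nat.card {k : K // k ^ d = 1}

/-- number of solutions of `x ^ d = 1` in a fibre of a sign character -/
noncomputable def gsol {K : Type*} [Monoid K] (χ : K →* ℤˣ) (q : ℤˣ) (d : ℕ) : ℕ :=
  Nat.card {k : K // χ k = q ∧ k ^ d = 1}

theorem nsol_prod (K L : Type*) [Monoid K] [Monoid L] (d : ℕ) :
    nsol (K × L) d = nsol K d * nsol L d := by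
  unfold nsol
  rw [← Nat.card_prod]
  apply Nat.card_congr
  exact
    { toFun := fun p => (⟨p.1.1, congrArg Prod.fst p.2⟩, ⟨p.1.2, congrArg Prod.snd p.2⟩)
      invFun := fun q => ⟨(q.1.1, q.2.1), Prod.ext q.1.2 q.2.2⟩
      left_inv := fun p => rfl
      right_inv := fun q => rfl }

theorem nsol_pi (K : Type*) [Monoid K] (m d : ℕ) :
    nsol (Fin m → K) d = nsol K d ^ m := by
  unfold nsol
  have h : Nat.card (Fin m → {k : K // k ^ d = 1}) = Nat.card {k : K // k ^ d = 1} ^ m := by
    rw [Nat.card_fun, Nat.card_fin]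
  rw [← h]
  apply Nat.card_congr
  exact
    { toFun := fun f i => ⟨f.1 i, congrFun f.2 i⟩
      invFun := fun g => ⟨fun i => (g i).1, funext fun i => (g i).2⟩
      left_inv := fun f => rfl
      right_inv := fun g => rfl }

theorem nsol_eq_gsol {K : Type*} [Monoid K] [Finite K] (χ : K →* ℤˣ) (d : ℕ) :
    nsol K d = gsol χ 1 d + gsol χ (-1) d := by
  classical
  have := Fintype.ofFinite K
  unfold nsol gsol
  rw [Nat.card_eq_fintype_card, Nat.card_eq_fintype_card, Nat.card_eq_fintype_card,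
    Fintype.card_subtype, Fintype.card_subtype, Fintype.card_subtype]
  rw [← Finset.card_union_of_disjoint]
  · congr 1
    ext k
    simp only [Finset.mem_filter, Finset.mem_univ, true_and, Finset.mem_union]
    constructor
    · intro h
      rcases Int.units_eq_one_or (χ k) with h1 | h1
      · exact Or.inl ⟨h1, h⟩
      · exact Or.inr ⟨h1, h⟩
    · rintro (h | h) <;> exact h.2
  · rw [Finset.disjoint_left]
    intro k hk hk'
    simp only [Finset.mem_filter, Finset.mem_univ, true_and] at hk hk'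
    have : (1 : ℤˣ) = -1 := hk.1.symm.trans hk'.1
    exact absurd this (by decide)

/-- fibre product of two groups over sign characters -/
def pull {K L : Type*} [Group K] [Group L] (χ : K →* ℤˣ) (ψ : L →* ℤˣ) : Subgroup (K × L) where
  carrier := {p | χ p.1 = ψ p.2}
  mul_mem' := by
    intro a b ha hb
    simp only [Set.mem_ofPred_eq] at ha hb ⊢
    rw [Prod.fst_mul, Prod.snd_mul, map_mul, map_mul, ha, hb]
  one_mem' := by
    simp only [Set.mem_ofPred_eq]
    rw [Prod.fst_one, Prod.snd_one, map_one, map_one]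
  inv_mem' := by
    intro a ha
    simp only [Set.mem_ofPred_eq] at ha ⊢
    rw [Prod.fst_inv, Prod.snd_inv, map_inv, map_inv, ha]

/-- the sign character of the fibre product -/
def pullHom {K L : Type*} [Group K] [Group L] (χ : K →* ℤˣ) (ψ : L →* ℤˣ) :
    ↥(pull χ ψ) →* ℤˣ :=
  χ.comp ((MonoidHom.fst K L).comp (pull χ ψ).subtype)

theorem gsol_pull {K L : Type*} [Group K] [Group L] (χ : K →* ℤˣ) (ψ : L →* ℤˣ)
    (q : ℤˣ) (d : ℕ) :
    gsol (pullHom χ ψ) q d = gsol χ q d * gsol ψ q d := by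
  unfold gsol
  rw [← Nat.card_prod]
  apply Nat.card_congr
  exact
    { toFun := fun p =>
        (⟨p.1.1.1, p.2.1, congrArg Prod.fst (congrArg Subtype.val p.2.2)⟩,
         ⟨p.1.1.2, (show χ p.1.1.1 = ψ p.1.1.2 from p.1.2) ▸ p.2.1,
           congrArg Prod.snd (congrArg Subtype.val p.2.2)⟩)
      invFun := fun r =>
        ⟨⟨(r.1.1, r.2.1), show χ r.1.1 = ψ r.2.1 from r.1.2.1.trans r.2.2.1.symm⟩,
          r.1.2.1, Subtype.ext (Prod.ext r.1.2.2 r.2.2.2)⟩
      left_inv := fun p => rfl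
      right_inv := fun r => rfl }

theorem nsol_ker {K : Type*} [Group K] (χ : K →* ℤˣ) (d : ℕ) :
    nsol χ.ker d = gsol χ 1 d := by
  unfold nsol gsol
  apply Nat.card_congr
  exact
    { toFun := fun p => ⟨p.1.1, p.1.2, congrArg Subtype.val p.2⟩
      invFun := fun r => ⟨⟨r.1, r.2.1⟩, Subtype.ext r.2.2⟩
      left_inv := fun p => rfl
      right_inv := fun r => rfl }

theorem nsol_gcd {K : Type*} [Group K] (e : ℕ) (h : ∀ k : K, k ^ e = 1) (n : ℕ) :
    nsol K n = nsol K (Nat.gcd n e) := by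
  unfold nsol
  apply Nat.card_congr
  apply Equiv.subtypeEquivRight
  intro k
  constructor
  · intro hk
    exact pow_gcd_eq_one.mpr ⟨hk, h k⟩
  · intro hk
    exact (pow_gcd_eq_one.mp hk).1

theorem nsol_eq_card {K : Type*} [Monoid K] [Fintype K] [DecidableEq K] (d : ℕ) :
    nsol K d = (Finset.univ.filter (fun k : K => k ^ d = 1)).card := by
  unfold nsol
  rw [Nat.card_eq_fintype_card, Fintype.card_subtype]

theorem gsol_eq_card {K : Type*} [Monoid K] [Fintype K] [DecidableEq K] (χ : K →* ℤˣ)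
    (q : ℤˣ) (d : ℕ) :
    gsol χ q d = (Finset.univ.filter (fun k : K => χ k = q ∧ k ^ d = 1)).card := by
  unfold gsol
  rw [Nat.card_eq_fintype_card, Fintype.card_subtype]

/-- every element has order dividing 84 -/
class Exp84 (K : Type*) [Monoid K] : Prop where
  pow84 : ∀ k : K, k ^ 84 = 1

instance exp84Prod {K L : Type*} [Monoid K] [Monoid L] [Exp84 K] [Exp84 L] : Exp84 (K × L) :=
  ⟨fun p => Prod.ext (Exp84.pow84 p.1) (Exp84.pow84 p.2)⟩

instance exp84Pi {K : Type*} [Monoid K] [Exp84 K] (m : ℕ) : Exp84 (Fin m → K) :=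
  ⟨fun f => funext fun i => Exp84.pow84 (f i)⟩

instance exp84Subgroup {K : Type*} [Group K] [Exp84 K] (H : Subgroup K) : Exp84 H :=
  ⟨fun x => Subtype.ext (Exp84.pow84 x.1)⟩

instance isSolvablePi {K : Type*} [Group K] [hK : Group.IsSolvable K] (m : ℕ) :
    Group.IsSolvable (Fin m → K) := by
  obtain ⟨n, hn⟩ := id hK
  refine ⟨⟨n, ?_⟩⟩
  rw [eq_bot_iff]
  intro f hf
  rw [Subgroup.mem_bot]
  funext i
  have h1 : (Pi.evalMonoidHom (fun _ : Fin m => K) i) f ∈
      (derivedSeries (Fin m → K) n).map (Pi.evalMonoidHom (fun _ : Fin m => K) i) :=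
    Subgroup.mem_map_of_mem _ hf
  have h2 := map_derivedSeries_le_derivedSeries (Pi.evalMonoidHom (fun _ : Fin m => K) i) n h1
  rw [hn, Subgroup.mem_bot] at h2
  exact h2

/-- a group with an abelian kernel of a sign character is solvable -/
theorem isSolvable_of_sign {K : Type*} [Group K] (χ : K →* ℤˣ)
    (h : ∀ a b : K, χ a = 1 → χ b = 1 → a * b = b * a) : Group.IsSolvable K := by
  have : Group.IsSolvable χ.ker :=
    Group.isSolvable_of_comm (fun a b => Subtype.ext (h a.1 b.1 a.2 b.2))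
  exact Group.isSolvable_of_ker_le_range χ.ker.subtype χ (by simp)

end Cfsg.Agent.Lib.Helper77
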