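import Mathlib
import Cfsg.Agent.S2119
import Cfsg.Agent.S0813
import Cfsg.Agent.S0254
import Cfsg.Agent.Lib.Helper27.PslnCard

/-!
# Piece PB of S2930 (helper6): `|Aut(A_n)|` divides `4 |A_n|`
-/

set_option autoImplicit false

namespace Cfsg.Agent.Lib.Helper6.PM3

open scoped Pointwise
open MulAction

theorem pb_card_ne_six (n : ℕ) (hn : 5 ≤ n) (h6 : n ≠ 6) :
    Nat.card (MulAut ↥(alternatingGroup (Fin n))) = 2 * Nat.card ↥(alternatingGroup (Fin n)) := by
  have hnt : Nontrivial (Fin n) := Fin.nontrivial_iff_two_le.mpr (by omega)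
  have hb := Cfsg.Agent.S2119.result n (by omega) h6
  rw [two_mul_nat_card_alternatingGroup]
  exact (Nat.card_congr (Equiv.ofBijective _ hb)).symm

theorem pb_card_six :
    Nat.card (MulAut ↥(alternatingGroup (Fin 6))) = 4 * Nat.card ↥(alternatingGroup (Fin 6)) := by
  have hp3 : Fact (Nat.Prime 3) := ⟨by norm_num⟩
  letI : Fintype (GaloisField 3 2) := Fintype.ofFinite _
  have hF : Fintype.card (GaloisField 3 2) = 3 ^ 2 := by
    rw [← Nat.card_eq_fintype_card]
    exact GaloisField.card 3 2 (by norm_num)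
  obtain ⟨e⟩ := Cfsg.Agent.S0254.result (F := GaloisField 3 2) (by rw [hF]; norm_num)
  have h1 : Nat.card (MulAut ↥(alternatingGroup (Fin 6)))
      = Nat.card (MulAut (Matrix.ProjectiveSpecialLinearGroup (Fin 2) (GaloisField 3 2))) :=
    Nat.card_congr (MulAut.congr e.symm).toEquiv
  have h2 := Cfsg.Agent.S0813.result (F := GaloisField 3 2) 3 2 (by norm_num) hF 2 (by norm_num)
    (fun _ => by norm_num)
  have h3 := Cfsg.Agent.Lib.Helper27.PslnCard.card_pgl_psl (F := GaloisField 3 2) hF 2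
    (by norm_num)
  have h4 : Nat.card (Matrix.ProjectiveSpecialLinearGroup (Fin 2) (GaloisField 3 2))
      = Nat.card ↥(alternatingGroup (Fin 6)) := Nat.card_congr e.toEquiv
  rw [h1, h2, h3, h4]
  norm_num
  ring

theorem card_aut_alt_dvd (n : ℕ) (hn : 5 ≤ n) :
    Nat.card (MulAut ↥(alternatingGroup (Fin n))) ∣ 4 * Nat.card ↥(alternatingGroup (Fin n)) := by
  by_cases h6 : n = 6
  · subst h6
    rw [pb_card_six]
  · rw [pb_card_ne_six n hn h6]
    exact ⟨2, by ring⟩

end Cfsg.Agent.Lib.Helper6.PM3
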