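import Cfsg.Agent.Lib.Helper77.OrdType

set_option autoImplicit false
set_option maxRecDepth 1000000

namespace Cfsg.Agent.Lib.Helper77

open scoped commutatorElement

/-- 3 by 3 matrices over the field with two elements -/
abbrev Mat3 := Matrix (Fin 3) (Fin 3) (ZMod 2)

/-- the simple group of order 168, as the group of invertible 3 by 3 matrices over `ZMod 2` -/
abbrev T168 := Mat3ˣ

theorem mat_c2 : (Finset.univ.filter (fun M : Mat3 => M ^ 2 = 1)).card = 22 := by decide
theorem mat_c3 : (Finset.univ.filter (fun M : Mat3 => M ^ 3 = 1)).card = 57 := by decide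
theorem mat_c4 : (Finset.univ.filter (fun M : Mat3 => M ^ 4 = 1)).card = 64 := by decide
theorem mat_c7 : (Finset.univ.filter (fun M : Mat3 => M ^ 7 = 1)).card = 49 := by decide

theorem mat_type : ∀ M : Mat3,
    (∃ v : Fin 3 → ZMod 2, v ≠ 0 ∧ M.mulVec v = 0) ∨ M ^ 4 = 1 ∨ M ^ 3 = 1 ∨ M ^ 7 = 1 := by
  decide

theorem nsol_T_eq (d : ℕ) (hd : d ≠ 0) :
    nsol T168 d = (Finset.univ.filter (fun M : Mat3 => M ^ d = 1)).card := by
  unfold nsol
  rw [← Fintype.card_subtype, ← Nat.card_eq_fintype_card]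
  apply Nat.card_congr
  exact
    { toFun := fun u => ⟨u.1.val, by
        have := congrArg Units.val u.2
        simpa using this⟩
      invFun := fun M => ⟨⟨M.1, M.1 ^ (d - 1),
          by rw [← pow_succ', Nat.sub_add_cancel (Nat.pos_of_ne_zero hd), M.2],
          by rw [← pow_succ, Nat.sub_add_cancel (Nat.pos_of_ne_zero hd), M.2]⟩,
        Units.ext (by simpa using M.2)⟩
      left_inv := fun u => Subtype.ext (Units.ext rfl)
      right_inv := fun M => rfl }

theorem T_type (u : T168) : u ^ 4 = 1 ∨ u ^ 3 = 1 ∨ u ^ 7 = 1 := by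
  rcases mat_type u.val with ⟨v, hv, h⟩ | h | h | h
  · exfalso
    apply hv
    have h1 : (u⁻¹.val * u.val).mulVec v = v := by
      rw [Units.inv_mul, Matrix.one_mulVec]
    rw [← Matrix.mulVec_mulVec, h, Matrix.mulVec_zero] at h1
    exact h1.symm
  · exact Or.inl (Units.ext (by simpa using h))
  · exact Or.inr (Or.inl (Units.ext (by simpa using h)))
  · exact Or.inr (Or.inr (Units.ext (by simpa using h)))

theorem T_point (u : T168) (d : ℕ) :
    (if u ^ d = 1 then 1 else 0) + (if u = 1 then 2 else 0) =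
      (if u ^ (Nat.gcd d 4) = 1 then 1 else 0) + (if u ^ (Nat.gcd d 3) = 1 then 1 else 0) +
        (if u ^ (Nat.gcd d 7) = 1 then 1 else 0) := by
  by_cases h1 : u = 1
  · subst h1
    simp
  · have h43 : u ^ 4 = 1 → u ^ 3 = 1 → False := by
      intro h4 h3
      apply h1
      have : u ^ 4 = u ^ 3 * u := pow_succ u 3
      rw [h4, h3, one_mul] at this
      exact this.symm
    have h47 : u ^ 4 = 1 → u ^ 7 = 1 → False := by
      intro h4 h7
      apply h1
      have : u ^ 8 = u ^ 7 * u := pow_succ u 7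
      have h8 : u ^ 8 = (u ^ 4) ^ 2 := by rw [← pow_mul]
      rw [h8, h4, h7, one_pow, one_mul] at this
      exact this.symm
    have h37 : u ^ 3 = 1 → u ^ 7 = 1 → False := by
      intro h3 h7
      apply h1
      have : u ^ 7 = (u ^ 3) ^ 2 * u := by rw [← pow_mul, ← pow_succ]
      rw [h7, h3, one_pow, one_mul] at this
      exact this.symm
    simp only [pow_gcd_eq_one, h1, if_false, add_zero]
    by_cases hd : u ^ d = 1
    · rcases T_type u with h | h | h
      · have h3 : ¬ u ^ 3 = 1 := fun h3 => h43 h h3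
        have h7 : ¬ u ^ 7 = 1 := fun h7 => h47 h h7
        simp [hd, h, h3, h7]
      · have h4 : ¬ u ^ 4 = 1 := fun h4 => h43 h4 h
        have h7 : ¬ u ^ 7 = 1 := fun h7 => h37 h h7
        simp [hd, h, h4, h7]
      · have h4 : ¬ u ^ 4 = 1 := fun h4 => h47 h4 h
        have h3 : ¬ u ^ 3 = 1 := fun h3 => h37 h3 h
        simp [hd, h, h4, h3]
    · simp [hd]

theorem nsol_T_split (d : ℕ) :
    nsol T168 d + 2 = nsol T168 (Nat.gcd d 4) + nsol T168 (Nat.gcd d 3) + nsol T168 (Nat.gcd d 7) := by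
  classical
  have key : ∀ e : ℕ, nsol T168 e = ∑ u : T168, (if u ^ e = 1 then 1 else 0) := by
    intro e
    rw [nsol_eq_card, Finset.card_filter]
  have h2 : (2 : ℕ) = ∑ u : T168, (if u = 1 then 2 else 0) := by
    rw [Finset.sum_ite_eq' Finset.univ (1 : T168) (fun _ => 2)]
    simp
  rw [key d, key (Nat.gcd d 4), key (Nat.gcd d 3), key (Nat.gcd d 7)]
  rw [← Finset.sum_add_distrib, ← Finset.sum_add_distrib]
  have h3 : (∑ u : T168, (if u ^ d = 1 then 1 else 0)) + 2 =
      ∑ u : T168, ((if u ^ d = 1 then 1 else 0) + (if u = 1 then 2 else 0)) := by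
    rw [Finset.sum_add_distrib, ← h2]
  rw [h3]
  exact Finset.sum_congr rfl (fun u _ => T_point u d)

theorem tb_T_1 : nsol T168 1 = 1 := by
  rw [nsol_T_eq 1 (by norm_num)]
  simp [pow_one, Finset.filter_eq']

theorem tb_T_2 : nsol T168 2 = 22 := by rw [nsol_T_eq 2 (by norm_num)]; exact mat_c2
theorem tb_T_3 : nsol T168 3 = 57 := by rw [nsol_T_eq 3 (by norm_num)]; exact mat_c3
theorem tb_T_4 : nsol T168 4 = 64 := by rw [nsol_T_eq 4 (by norm_num)]; exact mat_c4
theorem tb_T_7 : nsol T168 7 = 49 := by rw [nsol_T_eq 7 (by norm_num)]; exact mat_c7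

theorem tb_T_6 : nsol T168 6 = 78 := by
  have h := nsol_T_split 6
  norm_num [tb_T_1, tb_T_2, tb_T_3, tb_T_4, tb_T_7] at h
  omega

theorem tb_T_12 : nsol T168 12 = 120 := by
  have h := nsol_T_split 12
  norm_num [tb_T_1, tb_T_2, tb_T_3, tb_T_4, tb_T_7] at h
  omega

theorem tb_T_14 : nsol T168 14 = 70 := by
  have h := nsol_T_split 14
  norm_num [tb_T_1, tb_T_2, tb_T_3, tb_T_4, tb_T_7] at h
  omega

theorem tb_T_21 : nsol T168 21 = 105 := by
  have h := nsol_T_split 21
  norm_num [tb_T_1, tb_T_2, tb_T_3, tb_T_4, tb_T_7] at h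
  omega

theorem tb_T_28 : nsol T168 28 = 112 := by
  have h := nsol_T_split 28
  norm_num [tb_T_1, tb_T_2, tb_T_3, tb_T_4, tb_T_7] at h
  omega

theorem tb_T_42 : nsol T168 42 = 126 := by
  have h := nsol_T_split 42
  norm_num [tb_T_1, tb_T_2, tb_T_3, tb_T_4, tb_T_7] at h
  omega

theorem tb_T_84 : nsol T168 84 = 168 := by
  have h := nsol_T_split 84
  norm_num [tb_T_1, tb_T_2, tb_T_3, tb_T_4, tb_T_7] at h
  omega

instance exp84T : Exp84 T168 := ⟨by
  intro u
  rcases T_type u with h | h | h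
  · have : u ^ 84 = (u ^ 4) ^ 21 := by rw [← pow_mul]
    rw [this, h, one_pow]
  · have : u ^ 84 = (u ^ 3) ^ 28 := by rw [← pow_mul]
    rw [this, h, one_pow]
  · have : u ^ 84 = (u ^ 7) ^ 12 := by rw [← pow_mul]
    rw [this, h, one_pow]⟩

/-- a unit from an involutory matrix -/
def mkU (M : Mat3) (h : M * M = 1) : T168 := ⟨M, M, h, h⟩

/-- transvections -/
def e12 : T168 := mkU !![1, 1, 0; 0, 1, 0; 0, 0, 1] (by decide)
def e13 : T168 := mkU !![1, 0, 1; 0, 1, 0; 0, 0, 1] (by decide)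
def e23 : T168 := mkU !![1, 0, 0; 0, 1, 1; 0, 0, 1] (by decide)
def e21 : T168 := mkU !![1, 0, 0; 1, 1, 0; 0, 0, 1] (by decide)
def e31 : T168 := mkU !![1, 0, 0; 0, 1, 0; 1, 0, 1] (by decide)
def e32 : T168 := mkU !![1, 0, 0; 0, 1, 0; 0, 1, 1] (by decide)

theorem not_isSolvable_T : ¬ Group.IsSolvable T168 := by
  have key : ∀ n : ℕ, e12 ∈ derivedSeries T168 n ∧ e13 ∈ derivedSeries T168 n ∧
      e23 ∈ derivedSeries T168 n ∧ e21 ∈ derivedSeries T168 n ∧
      e31 ∈ derivedSeries T168 n ∧ e32 ∈ derivedSeries T168 n := by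
    intro n
    induction n with
    | zero => exact ⟨Subgroup.mem_top _, Subgroup.mem_top _, Subgroup.mem_top _,
        Subgroup.mem_top _, Subgroup.mem_top _, Subgroup.mem_top _⟩
    | succ n ih =>
      obtain ⟨h12, h13, h23, h21, h31, h32⟩ := ih
      rw [derivedSeries_succ]
      have c13 : e13 = ⁅e12, e23⁆ := by decide
      have c12 : e12 = ⁅e13, e32⁆ := by decide
      have c23 : e23 = ⁅e21, e13⁆ := by decide
      have c21 : e21 = ⁅e23, e31⁆ := by decide
      have c31 : e31 = ⁅e32, e21⁆ := by decide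
      have c32 : e32 = ⁅e31, e12⁆ := by decide
      refine ⟨?_, ?_, ?_, ?_, ?_, ?_⟩
      · rw [c12]; exact Subgroup.commutator_mem_commutator h13 h32
      · rw [c13]; exact Subgroup.commutator_mem_commutator h12 h23
      · rw [c23]; exact Subgroup.commutator_mem_commutator h21 h13
      · rw [c21]; exact Subgroup.commutator_mem_commutator h23 h31
      · rw [c31]; exact Subgroup.commutator_mem_commutator h32 h21
      · rw [c32]; exact Subgroup.commutator_mem_commutator h31 h12
  exact not_isSolvable_of_mem_derivedSeries (g := e12) (by decide) (fun n => (key n).1)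

end Cfsg.Agent.Lib.Helper77
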