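import Mathlib
import Cfsg.Agent.Lib.Helper44.PU3Defs
import Cfsg.Agent.S3430

/-! PU3 piece PPD (helper77 for helper44, S2784 + S2786): primitive prime divisors of
`p ^ (6 n) - 1`, from Zsigmondy (S3430) and four explicit cases. -/

set_option autoImplicit false

namespace Cfsg.Agent.Lib.Helper44.PU3

open Matrix

private theorem pu3ppd_case (p m r : ℕ) (hr : r.Prime) (hdvd : r ∣ p ^ m - 1)
    (hlt : ∀ d : ℕ, 1 ≤ d → d < m → ¬ r ∣ p ^ d - 1) :
    ∃ r : ℕ, r.Prime ∧ r ∣ p ^ m - 1 ∧ ∀ d : ℕ, 1 ≤ d → r ∣ p ^ d - 1 → m ≤ d := by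
  refine ⟨r, hr, hdvd, fun d hd1 hd => ?_⟩
  by_contra hlt'
  exact hlt d hd1 (not_le.mp hlt') hd

theorem pu3_ppd : PPDStmt := by
  intro p n hp hn hpn
  by_cases h2 : p = 2 ∧ (6 * n = 4 ∨ 6 * n = 6 ∨ 6 * n = 10 ∨ 6 * n = 12 ∨ 6 * n = 18)
  · obtain ⟨rfl, h⟩ := h2
    have hn' : n = 2 ∨ n = 3 := by
      rcases h with h | h | h | h | h
      · omega
      · exact absurd ⟨rfl, by omega⟩ hpn
      · omega
      · left; omega
      · right; omega
    rcases hn' with rfl | rfl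
    · apply pu3ppd_case 2 (6 * 2) 13 (by norm_num) (by norm_num)
      intro d hd1 hd
      interval_cases d <;> norm_num
    · apply pu3ppd_case 2 (6 * 3) 19 (by norm_num) (by norm_num)
      intro d hd1 hd
      interval_cases d <;> norm_num
  by_cases h3 : p = 3 ∧ (6 * n = 4 ∨ 6 * n = 6)
  · obtain ⟨rfl, h⟩ := h3
    have hn' : n = 1 := by omega
    subst hn'
    apply pu3ppd_case 3 (6 * 1) 7 (by norm_num) (by norm_num)
    intro d hd1 hd
    interval_cases d <;> norm_num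
  by_cases h4 : p = 5 ∧ 6 * n = 6
  · obtain ⟨rfl, h⟩ := h4
    have hn' : n = 1 := by omega
    subst hn'
    apply pu3ppd_case 5 (6 * 1) 7 (by norm_num) (by norm_num)
    intro d hd1 hd
    interval_cases d <;> norm_num
  have h1 : ¬ (6 * n = 2 ∧ ∃ s t : ℕ, t ≤ 1 ∧ p + 1 = 2 ^ s * 3 ^ t) := by
    rintro ⟨h, -⟩
    omega
  obtain ⟨r, hr, hdvd, hlt, -⟩ := Cfsg.Agent.S3430.result p (6 * n) hp.two_le (by omega) h1 h2 h3 h4
  exact pu3ppd_case p (6 * n) r hr hdvd hlt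

end Cfsg.Agent.Lib.Helper44.PU3
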