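import Mathlib
import Cfsg.Agent.S0904
import Cfsg.Agent.Lib.Helper76.SylPrime
import Cfsg.Agent.Lib.Helper23.Syl

/-! S0496 piece NS904 (helper77 for helper11): ten orders excluded via S0904. -/

set_option autoImplicit false
set_option linter.unusedVariables false

namespace Cfsg.Agent.S496

open Subgroup

/-- generic consequence of S0904: `|G| = p^a q^b r` simple nonabelian gives `e ∣ r - 1`, `e ≠ 1`,
`e * n_r = p^a q^b`, `n_r ≡ 1 mod r`. -/
theorem ns904_gen {G : Type*} [Group G] [Finite G] [IsSimpleGroup G] (p q r a b : ℕ)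
    (hp : p.Prime) (hq : q.Prime) [hr : Fact r.Prime] (hpq : p ≠ q) (hpr : p ≠ r) (hqr : q ≠ r)
    (hcard : Nat.card G = p ^ a * q ^ b * r) (hnp : ¬ (Nat.card G).Prime) :
    ∃ e n : ℕ, e ∣ r - 1 ∧ e ≠ 1 ∧ e * n = p ^ a * q ^ b ∧ n % r = 1 := by
  have hG := Cfsg.Agent.Lib.Helper23.not_comm_of_simple_of_not_prime hnp
  have hrm : ¬ r ∣ p ^ a * q ^ b := by
    intro h
    rcases (Nat.Prime.dvd_mul hr.out).1 h with h1 | h1
    · have := (Nat.prime_dvd_prime_iff_eq hr.out hp).1 (hr.out.dvd_of_dvd_pow h1)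
      exact hpr this.symm
    · have := (Nat.prime_dvd_prime_iff_eq hr.out hq).1 (hr.out.dvd_of_dvd_pow h1)
      exact hqr this.symm
  have hcard' : Nat.card G = r ^ 1 * (p ^ a * q ^ b) := by rw [hcard, pow_one, mul_comm]
  have hc : ∀ Q : Sylow r G, Nat.card (Q : Subgroup G) = r := by
    intro Q
    have := Cfsg.Agent.Lib.Helper23.sylow_card_of_eq hcard' hrm Q
    rwa [pow_one] at this
  obtain ⟨P⟩ : Nonempty (Sylow r G) := inferInstance
  obtain ⟨e, c, he, he1, hcen, hnor, hmul⟩ :=
    Cfsg.Agent.Lib.Helper76.SylPrime.card_centralizer_mul hG hc P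
  have hS := Cfsg.Agent.S0904.result p q r a b hp hq hpq hpr hqr hcard P
  have hcen' : Nat.card (centralizer ((P : Subgroup G) : Set G)) = r := by
    have h1 : centralizer ((P : Subgroup G) : Set G) = (P : Subgroup G) := hS
    rw [h1, hc P]
  have hc1 : c = 1 := by
    rw [hcen] at hcen'
    have hr0 : 0 < r := hr.out.pos
    have : r * c = r * 1 := by rw [hcen', mul_one]
    exact Nat.eq_of_mul_eq_mul_left hr0 this
  subst hc1
  refine ⟨e, Nat.card (Sylow r G), he, he1, ?_, ?_⟩
  · have hr0 : 0 < r := hr.out.pos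
    rw [hcard] at hmul
    have : r * (e * Nat.card (Sylow r G)) = r * (p ^ a * q ^ b) := by
      calc r * (e * Nat.card (Sylow r G)) = r * 1 * e * Nat.card (Sylow r G) := by ring
        _ = p ^ a * q ^ b * r := hmul
        _ = r * (p ^ a * q ^ b) := by ring
    exact Nat.eq_of_mul_eq_mul_left hr0 this
  · have := Cfsg.Agent.Lib.Helper23.card_sylow_mod (G := G) r
    rw [this]
    exact Nat.mod_eq_of_lt hr.out.one_lt

theorem ns180 {G : Type*} [Group G] [Finite G] [IsSimpleGroup G] (h : Nat.card G = 180) :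
    False := by
  have : Fact (Nat.Prime 5) := ⟨by norm_num⟩
  obtain ⟨e, n, he, he1, hmul, hmod⟩ := ns904_gen (G := G) 2 3 5 2 2 (by norm_num) (by norm_num)
    (by norm_num) (by norm_num) (by norm_num) (by rw [h]; norm_num) (by rw [h]; norm_num)
  norm_num at he hmul
  have := Nat.le_of_dvd (by norm_num) he
  interval_cases e <;> omega

theorem ns240 {G : Type*} [Group G] [Finite G] [IsSimpleGroup G] (h : Nat.card G = 240) :
    False := by
  have : Fact (Nat.Prime 5) := ⟨by norm_num⟩
  obtain ⟨e, n, he, he1, hmul, hmod⟩ := ns904_gen (G := G) 2 3 5 4 1 (by norm_num) (by norm_num)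
    (by norm_num) (by norm_num) (by norm_num) (by rw [h]; norm_num) (by rw [h]; norm_num)
  norm_num at he hmul
  have := Nat.le_of_dvd (by norm_num) he
  interval_cases e <;> omega

theorem ns300 {G : Type*} [Group G] [Finite G] [IsSimpleGroup G] (h : Nat.card G = 300) :
    False := by
  have : Fact (Nat.Prime 3) := ⟨by norm_num⟩
  obtain ⟨e, n, he, he1, hmul, hmod⟩ := ns904_gen (G := G) 2 5 3 2 2 (by norm_num) (by norm_num)
    (by norm_num) (by norm_num) (by norm_num) (by rw [h]; norm_num) (by rw [h]; norm_num)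
  norm_num at he hmul
  have := Nat.le_of_dvd (by norm_num) he
  interval_cases e <;> omega

theorem ns480 {G : Type*} [Group G] [Finite G] [IsSimpleGroup G] (h : Nat.card G = 480) :
    False := by
  have : Fact (Nat.Prime 5) := ⟨by norm_num⟩
  obtain ⟨e, n, he, he1, hmul, hmod⟩ := ns904_gen (G := G) 2 3 5 5 1 (by norm_num) (by norm_num)
    (by norm_num) (by norm_num) (by norm_num) (by rw [h]; norm_num) (by rw [h]; norm_num)
  norm_num at he hmul
  have := Nat.le_of_dvd (by norm_num) he
  interval_cases e <;> omega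

theorem ns540 {G : Type*} [Group G] [Finite G] [IsSimpleGroup G] (h : Nat.card G = 540) :
    False := by
  have : Fact (Nat.Prime 5) := ⟨by norm_num⟩
  obtain ⟨e, n, he, he1, hmul, hmod⟩ := ns904_gen (G := G) 2 3 5 2 3 (by norm_num) (by norm_num)
    (by norm_num) (by norm_num) (by norm_num) (by rw [h]; norm_num) (by rw [h]; norm_num)
  norm_num at he hmul
  have := Nat.le_of_dvd (by norm_num) he
  interval_cases e <;> omega

theorem ns560 {G : Type*} [Group G] [Finite G] [IsSimpleGroup G] (h : Nat.card G = 560) :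
    False := by
  have : Fact (Nat.Prime 7) := ⟨by norm_num⟩
  obtain ⟨e, n, he, he1, hmul, hmod⟩ := ns904_gen (G := G) 2 5 7 4 1 (by norm_num) (by norm_num)
    (by norm_num) (by norm_num) (by norm_num) (by rw [h]; norm_num) (by rw [h]; norm_num)
  norm_num at he hmul
  have := Nat.le_of_dvd (by norm_num) he
  interval_cases e <;> omega

theorem ns588 {G : Type*} [Group G] [Finite G] [IsSimpleGroup G] (h : Nat.card G = 588) :
    False := by
  have : Fact (Nat.Prime 3) := ⟨by norm_num⟩
  obtain ⟨e, n, he, he1, hmul, hmod⟩ := ns904_gen (G := G) 2 7 3 2 2 (by norm_num) (by norm_num)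
    (by norm_num) (by norm_num) (by norm_num) (by rw [h]; norm_num) (by rw [h]; norm_num)
  norm_num at he hmul
  have := Nat.le_of_dvd (by norm_num) he
  interval_cases e <;> omega

theorem ns672 {G : Type*} [Group G] [Finite G] [IsSimpleGroup G] (h : Nat.card G = 672) :
    False := by
  have : Fact (Nat.Prime 7) := ⟨by norm_num⟩
  obtain ⟨e, n, he, he1, hmul, hmod⟩ := ns904_gen (G := G) 2 3 7 5 1 (by norm_num) (by norm_num)
    (by norm_num) (by norm_num) (by norm_num) (by rw [h]; norm_num) (by rw [h]; norm_num)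
  norm_num at he hmul
  have := Nat.le_of_dvd (by norm_num) he
  interval_cases e <;> omega

theorem ns1008 {G : Type*} [Group G] [Finite G] [IsSimpleGroup G] (h : Nat.card G = 1008) :
    False := by
  have : Fact (Nat.Prime 7) := ⟨by norm_num⟩
  obtain ⟨e, n, he, he1, hmul, hmod⟩ := ns904_gen (G := G) 2 3 7 4 2 (by norm_num) (by norm_num)
    (by norm_num) (by norm_num) (by norm_num) (by rw [h]; norm_num) (by rw [h]; norm_num)
  norm_num at he hmul
  have := Nat.le_of_dvd (by norm_num) he
  interval_cases e <;> omega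

theorem ns1080 {G : Type*} [Group G] [Finite G] [IsSimpleGroup G] (h : Nat.card G = 1080) :
    False := by
  have : Fact (Nat.Prime 5) := ⟨by norm_num⟩
  obtain ⟨e, n, he, he1, hmul, hmod⟩ := ns904_gen (G := G) 2 3 5 3 3 (by norm_num) (by norm_num)
    (by norm_num) (by norm_num) (by norm_num) (by rw [h]; norm_num) (by rw [h]; norm_num)
  norm_num at he hmul
  have := Nat.le_of_dvd (by norm_num) he
  interval_cases e <;> omega

end Cfsg.Agent.S496
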