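import Mathlib
import Cfsg.Prelude.Def_Transfer
import Cfsg.Agent.S0012
import Cfsg.Agent.S0013
import Cfsg.Agent.Lib.Helper66.PAct

set_option autoImplicit false

/-!
General lemmas for P. Hall's theorem on `p`-groups of symplectic type:
commutator identities, a centraliser-index bound for groups with small commutators,
a criterion for extraspecial groups and groups of order `p^3`.
-/

namespace Cfsg.Agent.Lib.Helper77.Symp

open scoped commutatorElement

variable {G : Type*} [Group G]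

/-! ### Commutator identities, with `x⁻¹ * g⁻¹ * x * g` as the commutator -/

theorem cm_pow {x g : G} (h : Commute x (x⁻¹ * g⁻¹ * x * g)) (n : ℕ) :
    (x ^ n)⁻¹ * g⁻¹ * x ^ n * g = (x⁻¹ * g⁻¹ * x * g) ^ n := by
  have h1 : g⁻¹ * x ^ n * g = (g⁻¹ * x * g) ^ n := by
    have := conj_pow (a := g⁻¹) (b := x) (i := n)
    rw [inv_inv] at this; exact this.symm
  have h2 : g⁻¹ * x * g = x * (x⁻¹ * g⁻¹ * x * g) := by group
  calc (x ^ n)⁻¹ * g⁻¹ * x ^ n * g = (x ^ n)⁻¹ * (g⁻¹ * x ^ n * g) := by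
        simp only [mul_assoc]
    _ = (x ^ n)⁻¹ * (x ^ n * (x⁻¹ * g⁻¹ * x * g) ^ n) := by rw [h1, h2, h.mul_pow]
    _ = (x⁻¹ * g⁻¹ * x * g) ^ n := by rw [inv_mul_cancel_left]

theorem cm_mul_right {x g g' : G} (h : Commute g' (x⁻¹ * g⁻¹ * x * g)) :
    x⁻¹ * (g * g')⁻¹ * x * (g * g') = (x⁻¹ * g'⁻¹ * x * g') * (x⁻¹ * g⁻¹ * x * g) := by
  calc x⁻¹ * (g * g')⁻¹ * x * (g * g') = x⁻¹ * g'⁻¹ * x * ((x⁻¹ * g⁻¹ * x * g) * g') := by group
    _ = x⁻¹ * g'⁻¹ * x * (g' * (x⁻¹ * g⁻¹ * x * g)) := by rw [← h.eq]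
    _ = (x⁻¹ * g'⁻¹ * x * g') * (x⁻¹ * g⁻¹ * x * g) := by simp only [mul_assoc]

theorem cm_mul_left {x y g : G} (h : Commute y (x⁻¹ * g⁻¹ * x * g)) :
    (x * y)⁻¹ * g⁻¹ * (x * y) * g = (x⁻¹ * g⁻¹ * x * g) * (y⁻¹ * g⁻¹ * y * g) := by
  calc (x * y)⁻¹ * g⁻¹ * (x * y) * g
      = y⁻¹ * ((x⁻¹ * g⁻¹ * x * g) * y) * (y⁻¹ * g⁻¹ * y * g) := by group
    _ = y⁻¹ * (y * (x⁻¹ * g⁻¹ * x * g)) * (y⁻¹ * g⁻¹ * y * g) := by rw [← h.eq]
    _ = (x⁻¹ * g⁻¹ * x * g) * (y⁻¹ * g⁻¹ * y * g) := by rw [inv_mul_cancel_left]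

theorem cm_inv_left {x g : G} (h : Commute x (x⁻¹ * g⁻¹ * x * g)) :
    x⁻¹⁻¹ * g⁻¹ * x⁻¹ * g = (x⁻¹ * g⁻¹ * x * g)⁻¹ := by
  calc x⁻¹⁻¹ * g⁻¹ * x⁻¹ * g = x * (x⁻¹ * g⁻¹ * x * g)⁻¹ * x⁻¹ := by group
    _ = (x⁻¹ * g⁻¹ * x * g)⁻¹ := by rw [h.inv_right.eq, mul_inv_cancel_right]

theorem cm_symm (x g : G) : g⁻¹ * x⁻¹ * g * x = (x⁻¹ * g⁻¹ * x * g)⁻¹ := by group

theorem cm_eq_one_iff {x g : G} : x⁻¹ * g⁻¹ * x * g = 1 ↔ Commute x g := by
  constructor
  · intro h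
    show x * g = g * x
    calc x * g = g * x * (x⁻¹ * g⁻¹ * x * g) := by group
      _ = g * x := by rw [h, mul_one]
  · intro h
    calc x⁻¹ * g⁻¹ * x * g = x⁻¹ * g⁻¹ * (x * g) := by simp only [mul_assoc]
      _ = x⁻¹ * g⁻¹ * (g * x) := by rw [h.eq]
      _ = 1 := by group

/-! ### Powers of products in class two -/

theorem pow_mul_comm' {x y c : G} (hc : y * x = x * y * c) (hy : Commute y c)
    (n : ℕ) : y ^ n * x = x * y ^ n * c ^ n := by
  induction n with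
  | zero => simp
  | succ n ih =>
    have hyn : Commute (y ^ n) c := hy.pow_left n
    calc y ^ (n + 1) * x = y * (y ^ n * x) := by rw [pow_succ']; simp only [mul_assoc]
      _ = y * (x * y ^ n * c ^ n) := by rw [ih]
      _ = (y * x) * y ^ n * c ^ n := by simp only [mul_assoc]
      _ = x * y * c * y ^ n * c ^ n := by rw [hc]
      _ = x * y * (c * y ^ n) * c ^ n := by simp only [mul_assoc]
      _ = x * y * (y ^ n * c) * c ^ n := by rw [hyn.eq]
      _ = x * (y * y ^ n) * (c * c ^ n) := by simp only [mul_assoc]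
      _ = x * y ^ (n + 1) * c ^ (n + 1) := by rw [← pow_succ', ← pow_succ']

theorem mul_pow_class2 {x y c : G} (hc : y * x = x * y * c) (hx : Commute x c)
    (hy : Commute y c) (n : ℕ) : (x * y) ^ n = x ^ n * y ^ n * c ^ (n.choose 2) := by
  induction n with
  | zero => simp
  | succ n ih =>
    have h1 := pow_mul_comm' hc hy n
    have e : (n + 1).choose 2 = n + n.choose 2 := by
      rw [Nat.choose_succ_succ, Nat.choose_one_right]
    have cx : Commute (c ^ n.choose 2) x := (hx.pow_right _).symm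
    have cy : Commute (c ^ n.choose 2) y := (hy.pow_right _).symm
    have cyn : Commute (c ^ n) y := (hy.pow_right _).symm
    calc (x * y) ^ (n + 1) = x ^ n * y ^ n * c ^ n.choose 2 * (x * y) := by rw [pow_succ, ih]
      _ = x ^ n * y ^ n * (c ^ n.choose 2 * x) * y := by simp only [mul_assoc]
      _ = x ^ n * y ^ n * (x * c ^ n.choose 2) * y := by rw [cx.eq]
      _ = x ^ n * (y ^ n * x) * (c ^ n.choose 2 * y) := by simp only [mul_assoc]
      _ = x ^ n * (x * y ^ n * c ^ n) * (y * c ^ n.choose 2) := by rw [h1, cy.eq]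
      _ = x ^ n * x * y ^ n * (c ^ n * y) * c ^ n.choose 2 := by simp only [mul_assoc]
      _ = x ^ n * x * y ^ n * (y * c ^ n) * c ^ n.choose 2 := by rw [cyn.eq]
      _ = x ^ n * x * (y ^ n * y) * (c ^ n * c ^ n.choose 2) := by simp only [mul_assoc]
      _ = x ^ (n + 1) * y ^ (n + 1) * c ^ ((n + 1).choose 2) := by
          rw [← pow_succ, ← pow_succ, ← pow_add, e]

theorem dvd_choose_two (p : ℕ) (k : ℕ) (hk : 2 ≤ k) : p ∣ (p ^ k).choose 2 := by
  rw [Nat.choose_two_right]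
  obtain ⟨j, rfl⟩ : ∃ j, k = j + 2 := ⟨k - 2, by omega⟩
  have h2 : 2 ∣ p ^ (j + 1) * (p ^ (j + 2) - 1) := by
    rcases Nat.even_or_odd p with he | ho
    · exact dvd_mul_of_dvd_left (dvd_trans he.two_dvd (dvd_pow_self p (by omega))) _
    · apply dvd_mul_of_dvd_right
      have hodd : Odd (p ^ (j + 2)) := ho.pow
      obtain ⟨m, hm⟩ := hodd
      rw [hm]
      exact ⟨m, by omega⟩
  have e : p ^ (j + 2) * (p ^ (j + 2) - 1) = p * (p ^ (j + 1) * (p ^ (j + 2) - 1)) := by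
    rw [← mul_assoc, ← pow_succ']
  rw [e, Nat.mul_div_assoc _ h2]
  exact dvd_mul_right _ _

/-- In class two with commutators of order dividing `p`, the `p^k`-th power map (`k ≥ 2`) is
multiplicative. -/
theorem mul_pow_of_class2 {p : ℕ} {x y c : G} (hc : y * x = x * y * c) (hx : Commute x c)
    (hy : Commute y c) (hcp : c ^ p = 1) (k : ℕ) (hk : 2 ≤ k) :
    (x * y) ^ p ^ k = x ^ p ^ k * y ^ p ^ k := by
  rw [mul_pow_class2 hc hx hy]
  obtain ⟨d, hd⟩ := dvd_choose_two p k hk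
  rw [hd, pow_mul, hcp, one_pow, mul_one]

/-! ### Elements of prime order -/

theorem prime_gen {p : ℕ} [hp : Fact p.Prime] {z y : G} (hz : orderOf z = p)
    (hy : y ∈ Subgroup.zpowers z) (hy1 : y ≠ 1) : z ∈ Subgroup.zpowers y := by
  obtain ⟨i, rfl⟩ := Subgroup.mem_zpowers_iff.mp hy
  have hnd : ¬ (p : ℤ) ∣ i := by
    intro hd
    apply hy1
    rw [← hz] at hd
    exact orderOf_dvd_iff_zpow_eq_one.mp hd
  have hcop : IsCoprime i (p : ℤ) := by
    have hpi : Prime (p : ℤ) := Nat.prime_iff_prime_int.mp hp.out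
    exact (hpi.coprime_iff_not_dvd.mpr hnd).symm
  obtain ⟨u, v, huv⟩ := hcop
  have hzp : z ^ (p : ℤ) = 1 := by
    rw [zpow_natCast]
    have h0 := pow_orderOf_eq_one z
    rw [hz] at h0
    exact h0
  have e : z = (z ^ i) ^ u := by
    calc z = z ^ (u * i + v * p) := by rw [huv, zpow_one]
      _ = (z ^ i) ^ u * (z ^ (p : ℤ)) ^ v := by
          rw [zpow_add, mul_comm u i, zpow_mul, mul_comm v, zpow_mul]
      _ = (z ^ i) ^ u := by rw [hzp, one_zpow, mul_one]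
  have h := Subgroup.zpow_mem (Subgroup.zpowers (z ^ i)) (Subgroup.mem_zpowers (z ^ i)) u
  rw [← e] at h
  exact h

/-! ### Cyclic `p`-groups -/

section cyc

variable {p : ℕ} [hp : Fact p.Prime] {a : G} {n : ℕ}

theorem cyc_order_z (ha : orderOf a = p ^ n) (hn : 1 ≤ n) : orderOf (a ^ p ^ (n - 1)) = p := by
  have hp0 : p ≠ 0 := hp.out.ne_zero
  rw [orderOf_pow_of_dvd (pow_ne_zero _ hp0) (by rw [ha]; exact pow_dvd_pow p (by omega)), ha]
  have e : p ^ n = p ^ (n - 1) * p := by rw [← pow_succ]; congr 1; omega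
  rw [e, Nat.mul_div_cancel_left _ (pow_pos hp.out.pos _)]

theorem cyc_dvd (ha : orderOf a = p ^ n) (hn : 1 ≤ n) (i : ℤ) (h : (a ^ i) ^ p = 1) :
    ((p ^ (n - 1) : ℕ) : ℤ) ∣ i := by
  have h1 : a ^ (i * (p : ℤ)) = 1 := by rw [zpow_mul, zpow_natCast]; exact h
  have h2 := orderOf_dvd_iff_zpow_eq_one.mpr h1
  rw [ha] at h2
  have e : ((p ^ n : ℕ) : ℤ) = ((p ^ (n - 1) : ℕ) : ℤ) * (p : ℤ) := by
    rw [← Nat.cast_mul, ← pow_succ]; congr 2; omega
  rw [e] at h2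
  exact Int.dvd_of_mul_dvd_mul_right (by exact_mod_cast hp.out.ne_zero) h2

theorem cyc_mem_z (ha : orderOf a = p ^ n) (hn : 1 ≤ n) {x : G} (hx : x ∈ Subgroup.zpowers a)
    (h : x ^ p = 1) : x ∈ Subgroup.zpowers (a ^ p ^ (n - 1)) := by
  obtain ⟨i, rfl⟩ := Subgroup.mem_zpowers_iff.mp hx
  obtain ⟨j, hj⟩ := cyc_dvd ha hn i h
  rw [hj, zpow_mul, zpow_natCast]
  exact Subgroup.zpow_mem _ (Subgroup.mem_zpowers _) j

omit hp in
theorem cyc_pow_card (ha : orderOf a = p ^ n) {x : G} (hx : x ∈ Subgroup.zpowers a) :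
    x ^ p ^ n = 1 := by
  obtain ⟨i, rfl⟩ := Subgroup.mem_zpowers_iff.mp hx
  rw [← zpow_natCast, ← zpow_mul, mul_comm, zpow_mul, zpow_natCast, ← ha, pow_orderOf_eq_one,
    one_zpow]

theorem cyc_dvd' (ha : orderOf a = p ^ n) (hn : 1 ≤ n) (i : ℤ) (h : (a ^ i) ^ p ^ (n - 1) = 1) :
    (p : ℤ) ∣ i := by
  have h1 : a ^ (i * ((p ^ (n - 1) : ℕ) : ℤ)) = 1 := by rw [zpow_mul, zpow_natCast]; exact h
  have h2 := orderOf_dvd_iff_zpow_eq_one.mpr h1
  rw [ha] at h2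
  have e : ((p ^ n : ℕ) : ℤ) = (p : ℤ) * ((p ^ (n - 1) : ℕ) : ℤ) := by
    rw [← Nat.cast_mul, ← pow_succ']; congr 2; omega
  rw [e] at h2
  exact Int.dvd_of_mul_dvd_mul_right (by exact_mod_cast (pow_pos hp.out.pos (n - 1)).ne') h2

/-- A nontrivial cyclic subgroup of a finite `p`-group has a generator of order `p^n`, `n ≥ 1`. -/
theorem cyc_gen [Finite G] (hG : IsPGroup p G) (A : Subgroup G) (hA : IsCyclic A) (hne : A ≠ ⊥) :
    ∃ (a : G) (n : ℕ), 1 ≤ n ∧ Subgroup.zpowers a = A ∧ orderOf a = p ^ n := by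
  obtain ⟨a, ha⟩ := (Subgroup.isCyclic_iff_exists_zpowers_eq_top A).mp hA
  obtain ⟨n, hn⟩ := (IsPGroup.iff_orderOf.mp hG) a
  refine ⟨a, n, ?_, ha, hn⟩
  rcases Nat.eq_zero_or_pos n with h0 | h0
  · exfalso
    apply hne
    rw [h0, pow_zero] at hn
    rw [← ha, orderOf_eq_one_iff.mp hn, Subgroup.zpowers_one_eq_bot]
  · exact h0

/-- In a cyclic subgroup of a finite `p`-group containing `z` of order `p`, every element of order
dividing `p` is a power of `z`. -/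
theorem cyc_unique [Finite G] (hG : IsPGroup p G) (H : Subgroup G) (hH : IsCyclic H) {z w : G}
    (hz : orderOf z = p) (hzH : z ∈ H) (hwH : w ∈ H) (hw : w ^ p = 1) :
    w ∈ Subgroup.zpowers z := by
  have hz1 : z ≠ 1 := by
    intro h
    rw [h, orderOf_one] at hz
    exact hp.out.one_lt.ne hz
  have hne : H ≠ ⊥ := by
    intro h
    rw [h, Subgroup.mem_bot] at hzH
    exact hz1 hzH
  obtain ⟨h, k, hk, hh, hord⟩ := cyc_gen hG H hH hne
  have hzz : z ∈ Subgroup.zpowers (h ^ p ^ (k - 1)) :=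
    cyc_mem_z hord hk (hh ▸ hzH) (by rw [← hz, pow_orderOf_eq_one])
  have hwz : w ∈ Subgroup.zpowers (h ^ p ^ (k - 1)) := cyc_mem_z hord hk (hh ▸ hwH) hw
  have h3 : h ^ p ^ (k - 1) ∈ Subgroup.zpowers z := prime_gen (cyc_order_z hord hk) hzz hz1
  exact (Subgroup.zpowers_le.mpr h3) hwz

end cyc

/-! ### Characteristic subgroups -/

theorem char_mem (H : Subgroup G) [hH : H.Characteristic] (φ : G ≃* G) {x : G} (hx : x ∈ H) :
    φ x ∈ H :=
  (Subgroup.characteristic_iff_le_comap.mp hH φ) hx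

theorem char_of_mem (H : Subgroup G) (h : ∀ (φ : G ≃* G) (x : G), x ∈ H → φ x ∈ H) :
    H.Characteristic :=
  Subgroup.characteristic_iff_le_comap.mpr (fun φ x hx => h φ x hx)

theorem char_centralizer (H : Subgroup G) [hH : H.Characteristic] :
    (Subgroup.centralizer (H : Set G)).Characteristic := by
  apply char_of_mem
  intro φ g hg
  rw [Subgroup.mem_centralizer_iff] at hg ⊢
  intro h hh
  have h1 : φ.symm h ∈ H := char_mem H φ.symm hh
  have h2 := hg _ h1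
  have h3 := congrArg φ h2
  rw [map_mul, map_mul, φ.apply_symm_apply] at h3
  exact h3

theorem char_inf_centralizer (H : Subgroup G) [hH : H.Characteristic] :
    (H ⊓ Subgroup.centralizer (H : Set G)).Characteristic := by
  have := char_centralizer H
  apply char_of_mem
  intro φ x hx
  exact Subgroup.mem_inf.mpr ⟨char_mem H φ (Subgroup.mem_inf.mp hx).1,
    char_mem _ φ (Subgroup.mem_inf.mp hx).2⟩

end Cfsg.Agent.Lib.Helper77.Symp
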