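import Cfsg.Agent.Lib.Helper77.SympA

set_option autoImplicit false

/-!
Centraliser-index bound (`perp`), realisation of automorphisms by inner ones (`inn`),
lifting from the centre of a quotient (`lift`), the extraspecial criterion (`xs`) and groups of
order `p^3` (`p3`).
-/

namespace Cfsg.Agent.Lib.Helper77.Symp

open scoped commutatorElement

variable {G : Type*} [Group G]

theorem perp [Finite G] {p : ℕ} [Fact p.Prime] (hG : IsPGroup p G)
    (T E : Subgroup G) (z : G) (hz : orderOf z = p)
    (h1 : ∀ x ∈ E, ∀ t ∈ T, x⁻¹ * t⁻¹ * x * t ∈ Subgroup.zpowers z)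
    (h2 : ∀ t ∈ T, Commute t z)
    (h3 : ∀ y ∈ E, (∀ x ∈ E, Commute y x) → ∀ t ∈ T, Commute y t) :
    ∀ (m : ℕ) (H : Subgroup G), Nat.card H = m →
      E ⊓ Subgroup.centralizer (E : Set G) ≤ H → H ≤ E →
      (Subgroup.centralizer (H : Set G)).relIndex T
        ≤ (E ⊓ Subgroup.centralizer (E : Set G)).relIndex H := by
  intro m
  induction m using Nat.strong_induction_on with
  | _ m ih =>
    intro H hm hZH hHE
    by_cases hHZ : H ≤ E ⊓ Subgroup.centralizer (E : Set G)
    · have hT : T ≤ Subgroup.centralizer (H : Set G) := by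
        intro t ht
        rw [Subgroup.mem_centralizer_iff]
        intro y hy
        have hyZ := hHZ hy
        have hyE := (Subgroup.mem_inf.mp hyZ).1
        have hyC := (Subgroup.mem_inf.mp hyZ).2
        have hc := h3 y hyE
          (fun x hx => ((Subgroup.mem_centralizer_iff.mp hyC) x hx).symm) t ht
        exact hc.eq
      rw [Subgroup.relIndex_eq_one.mpr hT, Subgroup.relIndex_eq_one.mpr hHZ]
    · have hne : Nonempty {K : Subgroup G // E ⊓ Subgroup.centralizer (E : Set G) ≤ K ∧ K < H} :=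
        ⟨⟨E ⊓ Subgroup.centralizer (E : Set G), le_refl _,
          lt_of_le_of_ne hZH (fun h => hHZ (h ▸ le_refl _))⟩⟩
      obtain ⟨⟨K, hZK, hKH⟩, hKmax⟩ := Finite.exists_max
        (fun K : {K : Subgroup G // E ⊓ Subgroup.centralizer (E : Set G) ≤ K ∧ K < H} =>
          Nat.card K.1)
      obtain ⟨x, hxH, hxK⟩ := SetLike.exists_of_lt hKH
      have hKK' : K ≤ K ⊔ Subgroup.zpowers x := le_sup_left
      have hxK' : x ∈ K ⊔ Subgroup.zpowers x :=
        (le_sup_right : Subgroup.zpowers x ≤ _) (Subgroup.mem_zpowers x)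
      have hK'H : K ⊔ Subgroup.zpowers x ≤ H := sup_le hKH.le (Subgroup.zpowers_le.mpr hxH)
      have hK'eq : K ⊔ Subgroup.zpowers x = H := by
        rcases lt_or_eq_of_le hK'H with hlt | heq
        · exfalso
          have h4 := hKmax ⟨K ⊔ Subgroup.zpowers x, hZK.trans hKK', hlt⟩
          have heq := Subgroup.eq_of_le_of_card_ge hKK' h4
          exact hxK (heq ▸ hxK')
        · exact heq
      have hcardK : Nat.card K < m := by
        rw [← hm]
        by_contra hcon
        push Not at hcon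
        have h4 := Subgroup.eq_of_le_of_card_ge hKH.le hcon
        exact (ne_of_lt hKH) h4
      have ihK := ih (Nat.card K) hcardK K rfl hZK (hKH.le.trans hHE)
      have hcle : Subgroup.centralizer (K : Set G) ⊓ Subgroup.centralizer ({x} : Set G)
          ≤ Subgroup.centralizer (H : Set G) := by
        intro g hg
        obtain ⟨hgK, hgx⟩ := Subgroup.mem_inf.mp hg
        rw [Subgroup.mem_centralizer_iff]
        intro h hh
        have hle : K ⊔ Subgroup.zpowers x ≤ Subgroup.centralizer ({g} : Set G) := by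
          refine sup_le ?_ (Subgroup.zpowers_le.mpr ?_)
          · intro k hk
            rw [Subgroup.mem_centralizer_iff]
            intro g' hg'
            rw [Set.mem_singleton_iff] at hg'
            rw [hg']
            exact ((Subgroup.mem_centralizer_iff.mp hgK) k hk).symm
          · rw [Subgroup.mem_centralizer_iff]
            intro g' hg'
            rw [Set.mem_singleton_iff] at hg'
            rw [hg']
            exact ((Subgroup.mem_centralizer_iff.mp hgx) x rfl).symm
        rw [hK'eq] at hle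
        have h4 := (Subgroup.mem_centralizer_iff.mp (hle hh)) g rfl
        exact h4.symm
      have hxE : x ∈ E := hHE hxH
      have hzT : ∀ t : T, ∀ i : ℤ, Commute (t : G) (z ^ i) := fun t i => (h2 t.1 t.2).zpow_right i
      let f : T →* Subgroup.zpowers z :=
        { toFun := fun t => ⟨x⁻¹ * (t : G)⁻¹ * x * t, h1 x hxE t.1 t.2⟩
          map_one' := by
            apply Subtype.ext
            show x⁻¹ * ((1 : T) : G)⁻¹ * x * ((1 : T) : G) = 1
            simp
          map_mul' := by
            intro t t'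
            apply Subtype.ext
            show x⁻¹ * ((t * t' : T) : G)⁻¹ * x * ((t * t' : T) : G)
              = (x⁻¹ * (t : G)⁻¹ * x * t) * (x⁻¹ * (t' : G)⁻¹ * x * t')
            rw [Subgroup.coe_mul]
            obtain ⟨i, hi⟩ := Subgroup.mem_zpowers_iff.mp (h1 x hxE t.1 t.2)
            obtain ⟨j, hj⟩ := Subgroup.mem_zpowers_iff.mp (h1 x hxE t'.1 t'.2)
            rw [cm_mul_right (by rw [← hi]; exact hzT t' i), ← hi, ← hj]
            exact ((Commute.refl z).zpow_zpow j i).eq }
      have hker : f.ker = (Subgroup.centralizer ({x} : Set G)).subgroupOf T := by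
        ext t
        rw [MonoidHom.mem_ker, Subgroup.mem_subgroupOf, Subgroup.mem_centralizer_iff]
        constructor
        · intro h h' hh'
          rw [Set.mem_singleton_iff] at hh'
          rw [hh']
          have h0 : x⁻¹ * (t : G)⁻¹ * x * t = 1 := congrArg Subtype.val h
          exact (cm_eq_one_iff.mp h0).eq
        · intro h
          have h0 : x * (t : G) = t * x := h x rfl
          apply Subtype.ext
          show x⁻¹ * (t : G)⁻¹ * x * t = 1
          exact cm_eq_one_iff.mpr h0
      have hidx : (Subgroup.centralizer ({x} : Set G)).relIndex T ≤ p := by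
        have h4 : (Subgroup.centralizer ({x} : Set G)).relIndex T = f.ker.index := by
          rw [hker]; rfl
        rw [h4, Subgroup.index_ker]
        calc Nat.card f.range ≤ Nat.card (Subgroup.zpowers z) := Subgroup.card_le_card_group _
          _ = p := by rw [Nat.card_zpowers, hz]
      have hKidx : p ≤ K.relIndex H := by
        have hHp : IsPGroup p H := hG.to_subgroup H
        obtain ⟨k, hk⟩ := hHp.index (K.subgroupOf H)
        have h1' : K.relIndex H ≠ 1 := fun h => (not_le_of_gt hKH) (Subgroup.relIndex_eq_one.mp h)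
        have hk' : K.relIndex H = p ^ k := hk
        rw [hk'] at h1' ⊢
        rcases Nat.eq_zero_or_pos k with h0 | h0
        · rw [h0] at h1'; exact absurd (pow_zero p) h1'
        · exact Nat.le_self_pow (by omega) p
      have hne0 : (Subgroup.centralizer (K : Set G) ⊓ Subgroup.centralizer ({x} : Set G)).relIndex T
          ≠ 0 :=
        (Subgroup.index_ne_zero_of_finite : ((Subgroup.centralizer (K : Set G)
          ⊓ Subgroup.centralizer ({x} : Set G)).subgroupOf T).index ≠ 0)
      calc (Subgroup.centralizer (H : Set G)).relIndex T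
          ≤ (Subgroup.centralizer (K : Set G) ⊓ Subgroup.centralizer ({x} : Set G)).relIndex T :=
            Subgroup.relIndex_le_of_le_left hcle hne0
        _ ≤ (Subgroup.centralizer (K : Set G)).relIndex T
              * (Subgroup.centralizer ({x} : Set G)).relIndex T := Subgroup.relIndex_inf_le
        _ ≤ (E ⊓ Subgroup.centralizer (E : Set G)).relIndex K * p := Nat.mul_le_mul ihK hidx
        _ ≤ (E ⊓ Subgroup.centralizer (E : Set G)).relIndex K * K.relIndex H :=
            Nat.mul_le_mul_left _ hKidx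
        _ = (E ⊓ Subgroup.centralizer (E : Set G)).relIndex H :=
            Subgroup.relIndex_mul_relIndex _ K H hZK hKH.le

/-- If a normal subgroup `E` has all commutators with `G` in a central subgroup of order `p`
and `G` centralises `Z(E)`, then `G = E C_G(E)`. -/
theorem inn [Finite G] {p : ℕ} [Fact p.Prime] (hG : IsPGroup p G)
    (E : Subgroup G) [hEn : E.Normal] (z : G) (hz : orderOf z = p)
    (h1 : ∀ x ∈ E, ∀ t : G, x⁻¹ * t⁻¹ * x * t ∈ Subgroup.zpowers z)
    (h2 : ∀ t : G, Commute t z)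
    (h3 : ∀ y ∈ E, (∀ x ∈ E, Commute y x) → ∀ t : G, Commute y t) :
    ∀ g : G, ∃ e ∈ E, ∀ x ∈ E, Commute (g * e⁻¹) x := by
  have hperp := perp hG ⊤ E z hz (fun x hx t _ => h1 x hx t) (fun t _ => h2 t)
    (fun y hy hc t _ => h3 y hy hc t) (Nat.card E) E rfl inf_le_left le_rfl
  rw [Subgroup.relIndex_top_right] at hperp
  have hCn : (Subgroup.centralizer (E : Set G)).Normal := by
    constructor
    intro c hc t
    rw [Subgroup.mem_centralizer_iff] at hc ⊢
    intro x hx
    have hx' : t⁻¹ * x * t ∈ E := by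
      have h4 := hEn.conj_mem x hx t⁻¹
      rwa [inv_inv] at h4
    have h5 := hc _ hx'
    calc x * (t * c * t⁻¹) = t * ((t⁻¹ * x * t) * c) * t⁻¹ := by group
      _ = t * (c * (t⁻¹ * x * t)) * t⁻¹ := by rw [h5]
      _ = t * c * t⁻¹ * x := by group
  have e1 : (Subgroup.centralizer (E : Set G)).relIndex (Subgroup.centralizer (E : Set G) ⊔ E)
      = (E ⊓ Subgroup.centralizer (E : Set G)).relIndex E := by
    rw [Subgroup.relIndex_sup_left, inf_comm, Subgroup.inf_relIndex_right]
  have e2 := Subgroup.relIndex_mul_index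
    (le_sup_left : Subgroup.centralizer (E : Set G) ≤ Subgroup.centralizer (E : Set G) ⊔ E)
  rw [e1] at e2
  have hpos : 0 < (E ⊓ Subgroup.centralizer (E : Set G)).relIndex E :=
    Nat.pos_of_ne_zero (Subgroup.index_ne_zero_of_finite :
      ((E ⊓ Subgroup.centralizer (E : Set G)).subgroupOf E).index ≠ 0)
  have hidx1 : (Subgroup.centralizer (E : Set G) ⊔ E).index = 1 := by
    have hpos2 : 0 < (Subgroup.centralizer (E : Set G) ⊔ E).index :=
      Nat.pos_of_ne_zero Subgroup.index_ne_zero_of_finite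
    nlinarith
  have htop := Subgroup.index_eq_one.mp hidx1
  intro g
  have hg : g ∈ ((Subgroup.centralizer (E : Set G) ⊔ E : Subgroup G) : Set G) := by
    rw [htop]; exact Set.mem_univ g
  rw [Subgroup.mul_normal] at hg
  obtain ⟨c, hc, e, he, hce⟩ := Set.mem_mul.mp hg
  refine ⟨e, he, fun x hx => ?_⟩
  have h6 : g * e⁻¹ = c := by rw [← hce]; group
  rw [h6]
  exact ((Subgroup.mem_centralizer_iff.mp hc) x hx).symm

/-- A normal subgroup `D` not inside the normal subgroup `A` contains an element outside `A`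
whose `p`-th power and commutators lie in `A`. -/
theorem lift [Finite G] {p : ℕ} [Fact p.Prime] (hG : IsPGroup p G) (A D : Subgroup G)
    [A.Normal] [D.Normal] (h : ¬ D ≤ A) :
    ∃ x ∈ D, x ∉ A ∧ x ^ p ∈ A ∧ ∀ g : G, x⁻¹ * g⁻¹ * x * g ∈ A := by
  have hQ : IsPGroup p (G ⧸ A) := hG.to_quotient A
  have hne : D.map (QuotientGroup.mk' A) ≠ ⊥ := by
    intro h0
    apply h
    intro d hd
    have h1 : (QuotientGroup.mk' A) d ∈ D.map (QuotientGroup.mk' A) :=
      Subgroup.mem_map_of_mem _ hd
    rw [h0, Subgroup.mem_bot] at h1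
    exact (QuotientGroup.eq_one_iff d).mp h1
  have : (D.map (QuotientGroup.mk' A)).Normal :=
    Subgroup.Normal.map inferInstance _ (QuotientGroup.mk'_surjective A)
  have hne2 := Cfsg.Agent.Lib.Helper66.normal_inf_center_ne_bot hQ
    (N := D.map (QuotientGroup.mk' A)) hne
  obtain ⟨y, hy1⟩ := (Subgroup.ne_bot_iff_exists_ne_one).mp hne2
  have hy1' : y.1 ≠ 1 := fun h => hy1 (Subtype.ext h)
  obtain ⟨k, hk⟩ := (IsPGroup.iff_orderOf.mp hQ) y.1
  have hk1 : 1 ≤ k := by
    rcases Nat.eq_zero_or_pos k with h0 | h0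
    · exfalso; rw [h0, pow_zero] at hk; exact hy1' (orderOf_eq_one_iff.mp hk)
    · exact h0
  have hw_mem : y.1 ^ p ^ (k - 1) ∈ D.map (QuotientGroup.mk' A) ⊓ Subgroup.center (G ⧸ A) :=
    Subgroup.pow_mem _ y.2 _
  have hw1 : y.1 ^ p ^ (k - 1) ≠ 1 := by
    intro h1
    have h2 := orderOf_dvd_of_pow_eq_one h1
    rw [hk] at h2
    have h3 := Nat.le_of_dvd (pow_pos (Fact.out : p.Prime).pos _) h2
    have h4 := (Nat.pow_le_pow_iff_right (Fact.out : p.Prime).one_lt).mp h3
    omega
  have hwp : (y.1 ^ p ^ (k - 1)) ^ p = 1 := by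
    rw [← pow_mul, ← pow_succ, show k - 1 + 1 = k by omega, ← hk, pow_orderOf_eq_one]
  obtain ⟨hwD, hwZ⟩ := Subgroup.mem_inf.mp hw_mem
  obtain ⟨x, hxD, hx⟩ := Subgroup.mem_map.mp hwD
  refine ⟨x, hxD, ?_, ?_, ?_⟩
  · intro hxA; apply hw1; rw [← hx]; exact (QuotientGroup.eq_one_iff x).mpr hxA
  · have h1 : (QuotientGroup.mk' A) (x ^ p) = 1 := by rw [map_pow, hx]; exact hwp
    exact (QuotientGroup.eq_one_iff _).mp h1
  · intro g
    have hc := Subgroup.mem_center_iff.mp hwZ ((QuotientGroup.mk' A) g)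
    rw [← hx] at hc
    have h1 : (QuotientGroup.mk' A) (x⁻¹ * g⁻¹ * x * g) = 1 := by
      rw [map_mul, map_mul, map_mul, map_inv, map_inv]
      calc ((QuotientGroup.mk' A) x)⁻¹ * ((QuotientGroup.mk' A) g)⁻¹ * (QuotientGroup.mk' A) x
            * (QuotientGroup.mk' A) g
          = ((QuotientGroup.mk' A) x)⁻¹ * ((QuotientGroup.mk' A) g)⁻¹
            * ((QuotientGroup.mk' A) x * (QuotientGroup.mk' A) g) := by simp only [mul_assoc]
        _ = ((QuotientGroup.mk' A) x)⁻¹ * ((QuotientGroup.mk' A) g)⁻¹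
            * ((QuotientGroup.mk' A) g * (QuotientGroup.mk' A) x) := by rw [← hc]
        _ = 1 := by group
    exact (QuotientGroup.eq_one_iff _).mp h1

/-- Criterion for a subgroup to be extraspecial. -/
theorem xs [Finite G] {p : ℕ} [Fact p.Prime] (hG : IsPGroup p G) (E : Subgroup G) (z : G)
    (hz : orderOf z = p) (hzE : z ∈ E)
    (h1 : ∀ y ∈ E, (∀ x ∈ E, Commute y x) → y ∈ Subgroup.zpowers z)
    (h2 : ∀ x ∈ E, Commute z x)
    (h3 : ∀ x ∈ E, ∀ y ∈ E, x⁻¹ * y⁻¹ * x * y ∈ Subgroup.zpowers z)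
    (h4 : ∀ x ∈ E, x ^ p ∈ Subgroup.zpowers z)
    (h5 : ∃ x ∈ E, ∃ y ∈ E, x * y ≠ y * x) : Cfsg.IsExtraspecial p ↥E := by
  have hE : IsPGroup p ↥E := hG.to_subgroup E
  have hzle : Subgroup.zpowers z ≤ E := Subgroup.zpowers_le.mpr hzE
  have hcenter : Subgroup.center ↥E = (Subgroup.zpowers z).subgroupOf E := by
    ext y
    rw [Subgroup.mem_center_iff, Subgroup.mem_subgroupOf]
    constructor
    · intro h
      apply h1 y.1 y.2
      intro x hx
      have h6 := h ⟨x, hx⟩
      exact (congrArg Subtype.val h6).symm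
    · intro h x
      obtain ⟨i, hi⟩ := Subgroup.mem_zpowers_iff.mp h
      apply Subtype.ext
      show (x : G) * (y : G) = (y : G) * (x : G)
      rw [← hi]
      exact ((h2 x.1 x.2).zpow_left i).eq.symm
  have hcard : Nat.card ((Subgroup.zpowers z).subgroupOf E) = p := by
    rw [Nat.card_congr (Subgroup.subgroupOfEquivOfLe hzle).toEquiv, Nat.card_zpowers, hz]
  have hcomm_le : commutator ↥E ≤ (Subgroup.zpowers z).subgroupOf E := by
    rw [_root_.commutator_def, Subgroup.commutator_le]
    intro g₁ _ g₂ _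
    rw [Subgroup.mem_subgroupOf, commutatorElement_def]
    have h6 := h3 (g₁⁻¹ : ↥E).1 (g₁⁻¹ : ↥E).2 (g₂⁻¹ : ↥E).1 (g₂⁻¹ : ↥E).2
    simpa using h6
  have hcomm_ne : commutator ↥E ≠ ⊥ := by
    obtain ⟨x, hx, y, hy, hxy⟩ := h5
    intro h0
    have h6 : ⁅(⟨x, hx⟩ : ↥E), (⟨y, hy⟩ : ↥E)⁆ ∈ commutator ↥E := by
      rw [_root_.commutator_def]
      exact Subgroup.commutator_mem_commutator (Subgroup.mem_top _) (Subgroup.mem_top _)
    rw [h0, Subgroup.mem_bot, commutatorElement_eq_one_iff_mul_comm] at h6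
    exact hxy (congrArg Subtype.val h6)
  have hcomm : commutator ↥E = (Subgroup.zpowers z).subgroupOf E := by
    apply Subgroup.eq_of_le_of_card_ge hcomm_le
    rw [hcard]
    have hdvd := Subgroup.card_dvd_of_le hcomm_le
    rw [hcard] at hdvd
    rcases (Nat.dvd_prime (Fact.out : p.Prime)).mp hdvd with h6 | h6
    · exact absurd ((Subgroup.card_eq_one).mp h6) hcomm_ne
    · exact h6.ge
  have hZn : ((Subgroup.zpowers z).subgroupOf E).Normal := by
    rw [← hcenter]; infer_instance
  have hfrat : frattini ↥E = (Subgroup.zpowers z).subgroupOf E := by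
    apply le_antisymm
    · apply Cfsg.Agent.S0013.result p hE _ hcomm_le
      intro x
      rw [Subgroup.mem_subgroupOf]
      exact h4 x.1 x.2
    · rw [← hcomm]
      exact (Cfsg.Agent.S0012.result p hE).1
  exact ⟨⟨hE, by rw [hfrat, hcenter], by rw [hcomm, hcenter]⟩, by rw [hcenter, hcard]⟩

/-- A nonabelian group of order `p^3` has centre of order `p` with elementary abelian quotient. -/
theorem p3 {X : Type*} [Group X] [Finite X] {p : ℕ} [hp : Fact p.Prime] (hc : Nat.card X = p ^ 3)
    (hnc : ∃ x y : X, x * y ≠ y * x) :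
    Nat.card (Subgroup.center X) = p ∧ (∀ x y : X, x⁻¹ * y⁻¹ * x * y ∈ Subgroup.center X) ∧
      ∀ x : X, x ^ p ∈ Subgroup.center X := by
  have hX : IsPGroup p X := IsPGroup.of_card hc
  obtain ⟨x₀, y₀, hxy⟩ := hnc
  have : Nontrivial X := ⟨⟨x₀, y₀, fun h => hxy (by rw [h])⟩⟩
  have hZ1 : Nat.card (Subgroup.center X) ≠ 1 := by
    intro h
    exact (ne_of_gt hX.bot_lt_center) (Subgroup.card_eq_one.mp h)
  have hdvd : Nat.card (Subgroup.center X) ∣ p ^ 3 := hc ▸ Subgroup.card_subgroup_dvd_card _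
  obtain ⟨k, hk3, hk⟩ := (Nat.dvd_prime_pow hp.out).mp hdvd
  have hmul := Subgroup.card_eq_card_quotient_mul_card_subgroup (Subgroup.center X)
  rw [hc, hk] at hmul
  have hnotcyc : ¬ IsCyclic (X ⧸ Subgroup.center X) := by
    intro hcyc
    exact hxy (commutative_of_cyclic_center_quotient (QuotientGroup.mk' (Subgroup.center X))
      (by rw [QuotientGroup.ker_mk']) x₀ y₀)
  have hp1 : 1 < p := hp.out.one_lt
  have hk1 : k = 1 := by
    interval_cases k
    · exact absurd hk (by simpa using hZ1)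
    · rfl
    · exfalso
      apply hnotcyc
      have h1 : Nat.card (X ⧸ Subgroup.center X) = p := by
        have h2 : p ^ 3 = p * p ^ 2 := by ring
        rw [h2] at hmul
        exact (Nat.eq_of_mul_eq_mul_right (pow_pos hp.out.pos 2) hmul).symm
      exact isCyclic_of_prime_card h1
    · exfalso
      have h1 : Subgroup.center X = ⊤ := Subgroup.eq_top_of_card_eq _ (by rw [hk, hc])
      have h2 : y₀ ∈ Subgroup.center X := h1 ▸ Subgroup.mem_top _
      exact hxy (Subgroup.mem_center_iff.mp h2 x₀)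
  rw [hk1, pow_one] at hk hmul
  have hQ : Nat.card (X ⧸ Subgroup.center X) = p ^ 2 := by
    have h2 : p ^ 3 = p ^ 2 * p := by ring
    rw [h2] at hmul
    exact (Nat.eq_of_mul_eq_mul_right hp.out.pos hmul).symm
  have hQcomm := IsPGroup.commutative_of_card_eq_prime_sq hQ
  refine ⟨hk, ?_, ?_⟩
  · intro x y
    rw [← QuotientGroup.eq_one_iff]
    have h1 := hQcomm (x : X ⧸ Subgroup.center X) (y : X ⧸ Subgroup.center X)
    rw [QuotientGroup.mk_mul, QuotientGroup.mk_mul, QuotientGroup.mk_mul, QuotientGroup.mk_inv,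
      QuotientGroup.mk_inv]
    calc ((x : X ⧸ Subgroup.center X))⁻¹ * ((y : X ⧸ Subgroup.center X))⁻¹
          * (x : X ⧸ Subgroup.center X) * (y : X ⧸ Subgroup.center X)
        = ((x : X ⧸ Subgroup.center X))⁻¹ * ((y : X ⧸ Subgroup.center X))⁻¹
          * ((x : X ⧸ Subgroup.center X) * (y : X ⧸ Subgroup.center X)) := by
          simp only [mul_assoc]
      _ = 1 := by rw [h1]; group
  · intro x
    rw [← QuotientGroup.eq_one_iff, QuotientGroup.mk_pow]
    have hQp : IsPGroup p (X ⧸ Subgroup.center X) := hX.to_quotient _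
    obtain ⟨j, hj⟩ := (IsPGroup.iff_orderOf.mp hQp) (x : X ⧸ Subgroup.center X)
    have hjle : orderOf (x : X ⧸ Subgroup.center X) ∣ p ^ 2 := hQ ▸ orderOf_dvd_natCard _
    rw [hj] at hjle
    have hj2 : j ≤ 2 := (Nat.pow_dvd_pow_iff_le_right hp1).mp hjle
    have hjne : j ≠ 2 := by
      intro h2
      apply hnotcyc
      exact isCyclic_of_orderOf_eq_card (x : X ⧸ Subgroup.center X) (by rw [hj, h2, hQ])
    have hj1 : j ≤ 1 := by omega
    have h3 : orderOf (x : X ⧸ Subgroup.center X) ∣ p := by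
      rw [hj]
      exact (pow_dvd_pow p hj1).trans (by rw [pow_one])
    exact orderOf_dvd_iff_pow_eq_one.mp h3

end Cfsg.Agent.Lib.Helper77.Symp
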