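import Cfsg.Agent.Lib.Helper77.SympB

set_option autoImplicit false

/-!
P. Hall's theorem on `p`-groups of symplectic type, first part: for a maximal characteristic
abelian (cyclic) subgroup `A` with `C(A) ≠ A`, the subgroup `B` (preimage of
`Ω₁(Z(G/A)) ∩ C(A)/A`) equals `C(A)`, has centre `A`, and (when `|A| ≥ p²`) exponent
dividing `|A|`.
-/

namespace Cfsg.Agent.Lib.Helper77.Symp

open scoped commutatorElement

variable {G : Type*} [Group G]

theorem exists_B [Finite G] {p : ℕ} [Fact p.Prime] (hG : IsPGroup p G)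
    (A : Subgroup G) [hAc : A.Characteristic] (a : G) (n : ℕ) (hn : 1 ≤ n)
    (hA : Subgroup.zpowers a = A) (ha : orderOf a = p ^ n)
    (hmax : ∀ A' : Subgroup G, A'.Characteristic → (∀ x ∈ A', ∀ y ∈ A', x * y = y * x) →
      A ≤ A' → A' ≤ A)
    (hCA : ¬ Subgroup.centralizer (A : Set G) ≤ A) :
    ∃ B : Subgroup G, B.Characteristic ∧
      (∀ x, x ∈ B ↔ (x ∈ Subgroup.centralizer (A : Set G) ∧ x ^ p ∈ A ∧
        ∀ g : G, x⁻¹ * g⁻¹ * x * g ∈ A)) ∧
      (∀ y ∈ B, (∀ x ∈ B, Commute y x) → y ∈ A) ∧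
      Subgroup.centralizer (A : Set G) ≤ B ∧ ∃ x ∈ B, x ∉ A := by
  have hAn : A.Normal := Subgroup.normal_of_characteristic A
  have hAcomm : ∀ x ∈ A, ∀ y ∈ A, Commute x y := by
    intro x hx y hy
    rw [← hA] at hx hy
    obtain ⟨i, rfl⟩ := Subgroup.mem_zpowers_iff.mp hx
    obtain ⟨j, rfl⟩ := Subgroup.mem_zpowers_iff.mp hy
    exact (Commute.refl a).zpow_zpow i j
  have hCcomm : ∀ x ∈ Subgroup.centralizer (A : Set G), ∀ c ∈ A, Commute x c := by
    intro x hx c hc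
    exact ((Subgroup.mem_centralizer_iff.mp hx) c hc).symm
  have hCc : (Subgroup.centralizer (A : Set G)).Characteristic := char_centralizer A
  have hAconj : ∀ c ∈ A, ∀ g : G, g⁻¹ * c * g ∈ A := by
    intro c hc g
    have h1 := hAn.conj_mem c hc g⁻¹
    rwa [inv_inv] at h1
  let B : Subgroup G :=
    { carrier := {x | x ∈ Subgroup.centralizer (A : Set G) ∧ x ^ p ∈ A ∧
        ∀ g : G, x⁻¹ * g⁻¹ * x * g ∈ A}
      mul_mem' := by
        rintro x y ⟨hx1, hx2, hx3⟩ ⟨hy1, hy2, hy3⟩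
        refine ⟨Subgroup.mul_mem _ hx1 hy1, ?_, ?_⟩
        · have hc : y * x = x * y * (y⁻¹ * x⁻¹ * y * x) := by group
          rw [mul_pow_class2 hc (hCcomm x hx1 _ (hy3 x)) (hCcomm y hy1 _ (hy3 x))]
          exact A.mul_mem (A.mul_mem hx2 hy2) (A.pow_mem (hy3 x) _)
        · intro g
          rw [cm_mul_left (hCcomm y hy1 _ (hx3 g))]
          exact A.mul_mem (hx3 g) (hy3 g)
      one_mem' := ⟨Subgroup.one_mem _, by rw [one_pow]; exact A.one_mem,
        fun g => by simp⟩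
      inv_mem' := by
        rintro x ⟨hx1, hx2, hx3⟩
        refine ⟨Subgroup.inv_mem _ hx1, by rw [inv_pow]; exact A.inv_mem hx2, fun g => ?_⟩
        rw [cm_inv_left (hCcomm x hx1 _ (hx3 g))]
        exact A.inv_mem (hx3 g) }
  have hBmem : ∀ x, x ∈ B ↔ (x ∈ Subgroup.centralizer (A : Set G) ∧ x ^ p ∈ A ∧
      ∀ g : G, x⁻¹ * g⁻¹ * x * g ∈ A) := fun x => Iff.rfl
  have hBc : B.Characteristic := by
    apply char_of_mem
    intro φ x hx
    obtain ⟨hx1, hx2, hx3⟩ := (hBmem x).mp hx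
    refine (hBmem _).mpr ⟨char_mem _ φ hx1, ?_, fun g => ?_⟩
    · rw [← map_pow]; exact char_mem A φ hx2
    · have h1 := char_mem A φ (hx3 (φ.symm g))
      rw [map_mul, map_mul, map_mul, map_inv, map_inv, φ.apply_symm_apply] at h1
      exact h1
  have hAB : A ≤ B := by
    intro c hc
    refine (hBmem c).mpr ⟨?_, A.pow_mem hc p, fun g => ?_⟩
    · rw [Subgroup.mem_centralizer_iff]; intro h hh; exact (hAcomm h hh c hc).eq
    · have h1 := A.mul_mem (A.inv_mem hc) (hAconj c hc g)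
      have e : c⁻¹ * (g⁻¹ * c * g) = c⁻¹ * g⁻¹ * c * g := by simp only [mul_assoc]
      rw [e] at h1
      exact h1
  have hCn : (Subgroup.centralizer (A : Set G)).Normal := Subgroup.normal_of_characteristic _
  obtain ⟨x₀, hx₀C, hx₀A, hx₀p, hx₀c⟩ := lift hG A (Subgroup.centralizer (A : Set G)) hCA
  have hx₀B : x₀ ∈ B := (hBmem x₀).mpr ⟨hx₀C, hx₀p, hx₀c⟩
  have hZBchar : (B ⊓ Subgroup.centralizer (B : Set G)).Characteristic := char_inf_centralizer B
  have hAZB : A ≤ B ⊓ Subgroup.centralizer (B : Set G) := by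
    intro c hc
    refine Subgroup.mem_inf.mpr ⟨hAB hc, ?_⟩
    rw [Subgroup.mem_centralizer_iff]
    intro b hb
    exact (hCcomm b ((hBmem b).mp hb).1 c hc).eq
  have hZBle : B ⊓ Subgroup.centralizer (B : Set G) ≤ A := by
    apply hmax _ hZBchar
    · intro x hx y hy
      exact (Subgroup.mem_centralizer_iff.mp (Subgroup.mem_inf.mp hy).2) x
        (Subgroup.mem_inf.mp hx).1
    · exact hAZB
  have hZB : ∀ y ∈ B, (∀ x ∈ B, Commute y x) → y ∈ A := by
    intro y hy hc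
    apply hZBle
    refine Subgroup.mem_inf.mpr ⟨hy, ?_⟩
    rw [Subgroup.mem_centralizer_iff]
    intro x hx
    exact (hc x hx).eq.symm
  have hz : orderOf (a ^ p ^ (n - 1)) = p := cyc_order_z ha hn
  have haA : a ∈ A := by rw [← hA]; exact Subgroup.mem_zpowers a
  have hzA : a ^ p ^ (n - 1) ∈ A := A.pow_mem haA _
  have hmemz : ∀ x ∈ A, x ^ p = 1 → x ∈ Subgroup.zpowers (a ^ p ^ (n - 1)) :=
    fun x hx h => cyc_mem_z ha hn (by rw [hA]; exact hx) h
  have hBCz : ∀ x ∈ B, ∀ t ∈ Subgroup.centralizer (A : Set G),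
      x⁻¹ * t⁻¹ * x * t ∈ Subgroup.zpowers (a ^ p ^ (n - 1)) := by
    intro x hx t ht
    obtain ⟨hx1, hx2, hx3⟩ := (hBmem x).mp hx
    apply hmemz _ (hx3 t)
    rw [← cm_pow (hCcomm x hx1 _ (hx3 t))]
    exact cm_eq_one_iff.mpr (hCcomm t ht _ hx2).symm
  have hD : ∀ y ∈ Subgroup.centralizer (A : Set G), (∀ x ∈ B, Commute y x) → y ∈ A := by
    intro y hy hc
    by_contra hyA
    have hCBc : (Subgroup.centralizer (B : Set G)).Characteristic := char_centralizer B
    have hCBn : (Subgroup.centralizer (B : Set G)).Normal := Subgroup.normal_of_characteristic _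
    have hnot : ¬ (Subgroup.centralizer (A : Set G) ⊓ Subgroup.centralizer (B : Set G)) ≤ A := by
      intro hle
      apply hyA; apply hle
      refine Subgroup.mem_inf.mpr ⟨hy, ?_⟩
      rw [Subgroup.mem_centralizer_iff]; intro x hx; exact (hc x hx).eq.symm
    obtain ⟨x, hxD, hxA, hxp, hxc⟩ := lift hG A _ hnot
    obtain ⟨hxC, hxCB⟩ := Subgroup.mem_inf.mp hxD
    have hxB : x ∈ B := (hBmem x).mpr ⟨hxC, hxp, hxc⟩
    exact hxA (hZBle (Subgroup.mem_inf.mpr ⟨hxB, hxCB⟩))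
  have hCB : Subgroup.centralizer (A : Set G) ≤ B := by
    have hperp := perp hG (Subgroup.centralizer (A : Set G)) B (a ^ p ^ (n - 1)) hz hBCz
      (fun t ht => hCcomm t ht _ hzA)
      (fun y hy hc t ht => (hCcomm t ht y (hZB y hy hc)).symm)
      (Nat.card B) B rfl inf_le_left le_rfl
    have hZBeq : B ⊓ Subgroup.centralizer (B : Set G) = A := le_antisymm hZBle hAZB
    have hCBeq : Subgroup.centralizer (B : Set G) ⊓ Subgroup.centralizer (A : Set G) = A := by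
      apply le_antisymm
      · intro y hy
        obtain ⟨hy1, hy2⟩ := Subgroup.mem_inf.mp hy
        exact hD y hy2 (fun x hx => ((Subgroup.mem_centralizer_iff.mp hy1) x hx).symm)
      · intro c hc
        refine Subgroup.mem_inf.mpr ⟨(Subgroup.mem_inf.mp (hAZB hc)).2, ?_⟩
        rw [Subgroup.mem_centralizer_iff]; intro h hh; exact (hAcomm h hh c hc).eq
    rw [hZBeq, ← Subgroup.inf_relIndex_right (Subgroup.centralizer (B : Set G))
      (Subgroup.centralizer (A : Set G)), hCBeq] at hperp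
    have hBC' : B ≤ Subgroup.centralizer (A : Set G) := fun x hx => ((hBmem x).mp hx).1
    have hmul := Subgroup.relIndex_mul_relIndex A B (Subgroup.centralizer (A : Set G)) hAB hBC'
    rw [← hmul] at hperp
    have hpos : 0 < A.relIndex B :=
      Nat.pos_of_ne_zero (Subgroup.index_ne_zero_of_finite : (A.subgroupOf B).index ≠ 0)
    have hpos2 : 0 < B.relIndex (Subgroup.centralizer (A : Set G)) :=
      Nat.pos_of_ne_zero (Subgroup.index_ne_zero_of_finite :
        (B.subgroupOf (Subgroup.centralizer (A : Set G))).index ≠ 0)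
    have h1 : B.relIndex (Subgroup.centralizer (A : Set G)) = 1 := by nlinarith
    exact Subgroup.relIndex_eq_one.mp h1
  exact ⟨B, hBc, hBmem, hZB, hCB, x₀, hx₀B, hx₀A⟩

/-- The data of the nondegenerate case. -/
structure Ctx (p : ℕ) (A B : Subgroup G) (a : G) (n : ℕ) : Prop where
  hG : IsPGroup p G
  hAc : A.Characteristic
  hBc : B.Characteristic
  hA : Subgroup.zpowers a = A
  ha : orderOf a = p ^ n
  hn : 1 ≤ n
  hB : ∀ x, x ∈ B ↔ (x ∈ Subgroup.centralizer (A : Set G) ∧ x ^ p ∈ A ∧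
    ∀ g : G, x⁻¹ * g⁻¹ * x * g ∈ A)
  hZB : ∀ y ∈ B, (∀ x ∈ B, Commute y x) → y ∈ A
  hCB : Subgroup.centralizer (A : Set G) ≤ B
  hBne : ∃ x ∈ B, x ∉ A
  hmax : ∀ A' : Subgroup G, A'.Characteristic → (∀ x ∈ A', ∀ y ∈ A', x * y = y * x) →
    A ≤ A' → A' ≤ A

namespace Ctx

variable {p : ℕ} {A B : Subgroup G} {a : G} {n : ℕ}

/-- The element of order `p` in `A`. -/
def z (_ : Ctx p A B a n) : G := a ^ p ^ (n - 1)

variable (S : Ctx p A B a n)
include S

theorem aA : a ∈ A := by rw [← S.hA]; exact Subgroup.mem_zpowers a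

theorem zA : S.z ∈ A := A.pow_mem S.aA _

theorem An : A.Normal := by
  have := S.hAc
  exact Subgroup.normal_of_characteristic A

theorem Acomm : ∀ x ∈ A, ∀ y ∈ A, Commute x y := by
  intro x hx y hy
  rw [← S.hA] at hx hy
  obtain ⟨i, rfl⟩ := Subgroup.mem_zpowers_iff.mp hx
  obtain ⟨j, rfl⟩ := Subgroup.mem_zpowers_iff.mp hy
  exact (Commute.refl a).zpow_zpow i j

theorem comm_CA {t c : G} (ht : t ∈ Subgroup.centralizer (A : Set G)) (hc : c ∈ A) :
    Commute t c :=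
  ((Subgroup.mem_centralizer_iff.mp ht) c hc).symm

theorem BC {x : G} (hx : x ∈ B) : x ∈ Subgroup.centralizer (A : Set G) := ((S.hB x).mp hx).1

theorem comm_BA {x c : G} (hx : x ∈ B) (hc : c ∈ A) : Commute x c := S.comm_CA (S.BC hx) hc

theorem cm_A {c : G} (hc : c ∈ A) (g : G) : c⁻¹ * g⁻¹ * c * g ∈ A := by
  have h1 := S.An.conj_mem c hc g⁻¹
  rw [inv_inv] at h1
  have h2 := A.mul_mem (A.inv_mem hc) h1
  have e : c⁻¹ * (g⁻¹ * c * g) = c⁻¹ * g⁻¹ * c * g := by simp only [mul_assoc]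
  rw [e] at h2
  exact h2

theorem AB : A ≤ B := by
  intro c hc
  refine (S.hB c).mpr ⟨?_, A.pow_mem hc p, fun g => S.cm_A hc g⟩
  rw [Subgroup.mem_centralizer_iff]; intro h hh; exact (S.Acomm h hh c hc).eq

theorem ZBeq : B ⊓ Subgroup.centralizer (B : Set G) = A := by
  apply le_antisymm
  · intro y hy
    obtain ⟨hy1, hy2⟩ := Subgroup.mem_inf.mp hy
    exact S.hZB y hy1 (fun x hx => ((Subgroup.mem_centralizer_iff.mp hy2) x hx).symm)
  · intro c hc
    refine Subgroup.mem_inf.mpr ⟨S.AB hc, ?_⟩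
    rw [Subgroup.mem_centralizer_iff]
    intro b hb
    exact (S.comm_BA hb hc).eq

variable [hp : Fact p.Prime]

theorem z_ord : orderOf S.z = p := cyc_order_z S.ha S.hn

theorem z_pow : S.z ^ p = 1 := by
  have h := pow_orderOf_eq_one S.z
  rw [S.z_ord] at h
  exact h

theorem z_ne : S.z ≠ 1 := by
  intro h
  have h1 := S.z_ord
  rw [h, orderOf_one] at h1
  exact hp.out.one_lt.ne h1

theorem mem_z {x : G} (hx : x ∈ A) (h : x ^ p = 1) : x ∈ Subgroup.zpowers S.z :=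
  cyc_mem_z S.ha S.hn (by rw [S.hA]; exact hx) h

theorem zp_pow {y : G} (hy : y ∈ Subgroup.zpowers S.z) : y ^ p = 1 := by
  obtain ⟨i, rfl⟩ := Subgroup.mem_zpowers_iff.mp hy
  rw [← zpow_natCast, ← zpow_mul, mul_comm, zpow_mul, zpow_natCast, S.z_pow, one_zpow]

theorem zp_A {y : G} (hy : y ∈ Subgroup.zpowers S.z) : y ∈ A :=
  (Subgroup.zpowers_le.mpr S.zA) hy

theorem z_central [Finite G] (t : G) : Commute t S.z := by
  have hAn := S.An
  have hN : (Subgroup.zpowers S.z).Normal := by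
    constructor
    intro y hy g
    apply S.mem_z (hAn.conj_mem _ (S.zp_A hy) g)
    rw [conj_pow, S.zp_pow hy, mul_one, mul_inv_cancel]
  have hne : Subgroup.zpowers S.z ≠ ⊥ := by
    intro h
    have h1 : S.z ∈ Subgroup.zpowers S.z := Subgroup.mem_zpowers _
    rw [h, Subgroup.mem_bot] at h1
    exact S.z_ne h1
  have h := Cfsg.Agent.Lib.Helper66.normal_inf_center_ne_bot S.hG (N := Subgroup.zpowers S.z) hne
  obtain ⟨y, hy1⟩ := (Subgroup.ne_bot_iff_exists_ne_one).mp h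
  have hy1' : y.1 ≠ 1 := fun h => hy1 (Subtype.ext h)
  obtain ⟨hyN, hyZ⟩ := Subgroup.mem_inf.mp y.2
  have hzy : S.z ∈ Subgroup.zpowers y.1 := prime_gen S.z_ord hyN hy1'
  have hzZ : S.z ∈ Subgroup.center G := (Subgroup.zpowers_le.mpr hyZ) hzy
  exact (Subgroup.mem_center_iff.mp hzZ t)

theorem zp_central [Finite G] {y : G} (hy : y ∈ Subgroup.zpowers S.z) (g : G) : Commute g y := by
  obtain ⟨i, rfl⟩ := Subgroup.mem_zpowers_iff.mp hy
  exact (S.z_central g).zpow_right i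

theorem hBB : ∀ x ∈ B, ∀ t ∈ B, x⁻¹ * t⁻¹ * x * t ∈ Subgroup.zpowers S.z := by
  intro x hx t ht
  obtain ⟨hx1, hx2, hx3⟩ := (S.hB x).mp hx
  apply S.mem_z (hx3 t)
  rw [← cm_pow (S.comm_CA hx1 (hx3 t))]
  exact cm_eq_one_iff.mpr (S.comm_BA ht hx2).symm

theorem B_pow_hom [Finite G] (k : ℕ) (hk : 2 ≤ k) {x y : G} (hx : x ∈ B) (hy : y ∈ B) :
    (x * y) ^ p ^ k = x ^ p ^ k * y ^ p ^ k := by
  have hc : y * x = x * y * (y⁻¹ * x⁻¹ * y * x) := by group
  have hcz := S.hBB y hy x hx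
  exact mul_pow_of_class2 hc (S.zp_central hcz x) (S.zp_central hcz y) (S.zp_pow hcz) k hk

theorem pow_mem_z {x : G} (hx : x ∈ B) : x ^ p ^ n ∈ Subgroup.zpowers S.z := by
  obtain ⟨_, hx2, _⟩ := (S.hB x).mp hx
  rw [← S.hA] at hx2
  obtain ⟨i, hi⟩ := Subgroup.mem_zpowers_iff.mp hx2
  have e : p ^ n = p * p ^ (n - 1) := by
    rw [← pow_succ']; congr 1; have := S.hn; omega
  rw [e, pow_mul, ← hi]
  have e2 : (a ^ i) ^ p ^ (n - 1) = S.z ^ i := by
    show (a ^ i) ^ p ^ (n - 1) = (a ^ p ^ (n - 1)) ^ i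
    rw [← zpow_natCast (a ^ i), ← zpow_mul, mul_comm, zpow_mul, zpow_natCast]
  rw [e2]
  exact Subgroup.zpow_mem _ (Subgroup.mem_zpowers _) i

/-- Case `|A| = p`: the whole group is extraspecial. -/
theorem case_n1 [Finite G] (hn1 : n = 1) : Cfsg.IsExtraspecial p ↥(⊤ : Subgroup G) := by
  have hza : S.z = a := by
    show a ^ p ^ (n - 1) = a
    rw [hn1]; simp
  have hAz : ∀ c ∈ A, c ∈ Subgroup.zpowers S.z := by
    intro c hc
    rw [hza, S.hA]; exact hc
  have hBtop : ∀ x : G, x ∈ B := by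
    intro x
    apply S.hCB
    rw [Subgroup.mem_centralizer_iff]
    intro c hc
    exact (S.zp_central (hAz c hc) x).eq.symm
  apply xs S.hG ⊤ S.z S.z_ord (Subgroup.mem_top _)
  · intro y _ hc
    exact hAz y (S.hZB y (hBtop y) (fun x _ => hc x (Subgroup.mem_top x)))
  · intro x _
    exact (S.z_central x).symm
  · intro x _ y _
    exact S.hBB x (hBtop x) y (hBtop y)
  · intro x _
    exact hAz _ ((S.hB x).mp (hBtop x)).2.1
  · obtain ⟨x₀, hx₀B, hx₀A⟩ := S.hBne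
    by_contra hcon
    push Not at hcon
    exact hx₀A (S.hZB x₀ hx₀B (fun x _ => hcon x₀ (Subgroup.mem_top _) x (Subgroup.mem_top _)))

/-- When `|A| ≥ p²`, every element of `B` has order dividing `|A|`. -/
theorem pow_card_eq_one [Finite G] (hn2 : 2 ≤ n) : ∀ x ∈ B, x ^ p ^ n = 1 := by
  by_contra hcon
  push Not at hcon
  obtain ⟨x₀, hx₀B, hx₀⟩ := hcon
  have hBc := S.hBc
  have hAc := S.hAc
  let K : Subgroup G :=
    { carrier := {x | x ∈ B ∧ x ^ p ^ n = 1}
      mul_mem' := by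
        rintro x y ⟨hx, hx1⟩ ⟨hy, hy1⟩
        exact ⟨B.mul_mem hx hy, by rw [S.B_pow_hom n hn2 hx hy, hx1, hy1, one_mul]⟩
      one_mem' := ⟨B.one_mem, one_pow _⟩
      inv_mem' := by
        rintro x ⟨hx, hx1⟩
        exact ⟨B.inv_mem hx, by rw [inv_pow, hx1, inv_one]⟩ }
  have hKmem : ∀ x, x ∈ K ↔ (x ∈ B ∧ x ^ p ^ n = 1) := fun x => Iff.rfl
  have hKB : K ≤ B := fun x hx => ((hKmem x).mp hx).1
  have hAK : A ≤ K := fun c hc =>
    (hKmem c).mpr ⟨S.AB hc, cyc_pow_card S.ha (by rw [S.hA]; exact hc)⟩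
  have hKc : K.Characteristic := by
    apply char_of_mem
    intro φ x hx
    obtain ⟨hx1, hx2⟩ := (hKmem x).mp hx
    exact (hKmem _).mpr ⟨char_mem B φ hx1, by rw [← map_pow, hx2, map_one]⟩
  have hBK : ¬ B ≤ K := fun h => hx₀ ((hKmem x₀).mp (h hx₀B)).2
  have hperp := perp S.hG B B S.z S.z_ord S.hBB (fun t _ => S.z_central t)
    (fun y _ hc t ht => hc t ht) (Nat.card K) K rfl (by rw [S.ZBeq]; exact hAK) hKB
  rw [S.ZBeq] at hperp
  have hAcentK : ∀ c ∈ A, c ∈ Subgroup.centralizer (K : Set G) := by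
    intro c hc
    rw [Subgroup.mem_centralizer_iff]
    intro k hk
    exact (S.comm_BA (hKB hk) hc).eq
  have hv : ∃ v ∈ Subgroup.centralizer (K : Set G) ⊓ B, v ∉ A := by
    by_contra hcon2
    push Not at hcon2
    have hDeq : Subgroup.centralizer (K : Set G) ⊓ B = A := by
      apply le_antisymm
      · intro v hv; exact hcon2 v hv
      · intro c hc
        exact Subgroup.mem_inf.mpr ⟨hAcentK c hc, S.AB hc⟩
    rw [← Subgroup.inf_relIndex_right (Subgroup.centralizer (K : Set G)) B, hDeq] at hperp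
    have hmul := Subgroup.relIndex_mul_relIndex A K B hAK hKB
    rw [← hmul] at hperp
    have hpos : 0 < A.relIndex K :=
      Nat.pos_of_ne_zero (Subgroup.index_ne_zero_of_finite : (A.subgroupOf K).index ≠ 0)
    have hpos2 : 0 < K.relIndex B :=
      Nat.pos_of_ne_zero (Subgroup.index_ne_zero_of_finite : (K.subgroupOf B).index ≠ 0)
    have h1 : K.relIndex B = 1 := by nlinarith
    exact hBK (Subgroup.relIndex_eq_one.mp h1)
  obtain ⟨v, hvD, hvA⟩ := hv
  obtain ⟨hvC, hvB⟩ := Subgroup.mem_inf.mp hvD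
  have hvK : v ∈ K := by
    by_contra hvK
    have hv1 : v ^ p ^ n ≠ 1 := fun h => hvK ((hKmem v).mpr ⟨hvB, h⟩)
    apply hvA
    apply S.hZB v hvB
    intro b hb
    have hbz := S.pow_mem_z hb
    have hvz := S.pow_mem_z hvB
    have hzv : S.z ∈ Subgroup.zpowers (v ^ p ^ n) := prime_gen S.z_ord hvz hv1
    have hbv : b ^ p ^ n ∈ Subgroup.zpowers (v ^ p ^ n) := (Subgroup.zpowers_le.mpr hzv) hbz
    obtain ⟨j, hj⟩ := Subgroup.mem_zpowers_iff.mp hbv
    have hvj : (v ^ j)⁻¹ ∈ B := B.inv_mem (B.zpow_mem hvB j)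
    have hk : b * (v ^ j)⁻¹ ∈ K := by
      refine (hKmem _).mpr ⟨B.mul_mem hb hvj, ?_⟩
      rw [S.B_pow_hom n hn2 hb hvj, inv_pow, ← hj]
      have e : (v ^ j) ^ p ^ n = (v ^ p ^ n) ^ j := by
        rw [← zpow_natCast (v ^ j), ← zpow_mul, mul_comm, zpow_mul, zpow_natCast]
      rw [e, mul_inv_cancel]
    have hc1 : Commute v (b * (v ^ j)⁻¹) := ((Subgroup.mem_centralizer_iff.mp hvC) _ hk).symm
    have e : b = (b * (v ^ j)⁻¹) * v ^ j := by group
    rw [e]
    exact hc1.mul_right ((Commute.refl v).zpow_right j)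
  have hZKc : (K ⊓ Subgroup.centralizer (K : Set G)).Characteristic := char_inf_centralizer K
  have hle := S.hmax _ hZKc (by
      intro x hx y hy
      exact (Subgroup.mem_centralizer_iff.mp (Subgroup.mem_inf.mp hy).2) x
        (Subgroup.mem_inf.mp hx).1)
    (fun c hc => Subgroup.mem_inf.mpr ⟨hAK hc, hAcentK c hc⟩)
  exact hvA (hle (Subgroup.mem_inf.mpr ⟨hvK, hvC⟩))

end Ctx

end Cfsg.Agent.Lib.Helper77.Symp
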