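import Cfsg.Agent.Lib.Helper77.SympC

set_option autoImplicit false

/-!
P. Hall's theorem on `p`-groups of symplectic type, second part: the extraspecial subgroup `E`
with `E A = B`, `E ∩ A = Ω₁(A)`, and `G = E C_G(E)`.
-/

namespace Cfsg.Agent.Lib.Helper77.Symp

open scoped commutatorElement

variable {G : Type*} [Group G]

namespace Ctx

variable {p : ℕ} {A B : Subgroup G} {a : G} {n : ℕ} (S : Ctx p A B a n)
include S

variable [hp : Fact p.Prime]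

theorem exists_pow_one (hpow : ∀ x ∈ B, x ^ p ^ n = 1) {x : G} (hx : x ∈ B) :
    ∃ c ∈ A, (x * c) ^ p = 1 := by
  obtain ⟨_, hx2, _⟩ := (S.hB x).mp hx
  have hx2' := hx2
  rw [← S.hA] at hx2'
  obtain ⟨i, hi⟩ := Subgroup.mem_zpowers_iff.mp hx2'
  have e : p ^ n = p * p ^ (n - 1) := by
    rw [← pow_succ']; congr 1; have := S.hn; omega
  have h1 : (a ^ i) ^ p ^ (n - 1) = 1 := by
    rw [hi, ← pow_mul, ← e]; exact hpow x hx
  obtain ⟨j, hj⟩ := cyc_dvd' S.ha S.hn i h1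
  refine ⟨a ^ (-j), A.zpow_mem S.aA _, ?_⟩
  rw [(S.comm_BA hx (A.zpow_mem S.aA _)).mul_pow, ← hi, hj, ← zpow_natCast (a ^ (-j)) p,
    ← zpow_mul, ← zpow_add]
  have e2 : (p : ℤ) * j + -j * (p : ℤ) = 0 := by ring
  rw [e2, zpow_zero]

theorem E_cm {E : Subgroup G} [Finite G] (hEB : E ≤ B)
    (hEA : ∀ y ∈ E, y ∈ A → y ∈ Subgroup.zpowers S.z) :
    ∀ e ∈ E, ∀ g : G, e⁻¹ * g⁻¹ * e * g ∈ Subgroup.zpowers S.z := by
  intro e he g
  obtain ⟨he1, he2, he3⟩ := (S.hB e).mp (hEB he)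
  apply S.mem_z (he3 g)
  rw [← cm_pow (S.comm_CA he1 (he3 g))]
  have hep : e ^ p ∈ Subgroup.zpowers S.z := hEA _ (E.pow_mem he p) he2
  exact cm_eq_one_iff.mpr (S.zp_central hep g).symm

theorem E_normal {E : Subgroup G} [Finite G] (hzE : S.z ∈ E) (hEB : E ≤ B)
    (hEA : ∀ y ∈ E, y ∈ A → y ∈ Subgroup.zpowers S.z) : E.Normal := by
  constructor
  intro e he g
  have h1 := S.E_cm hEB hEA e he g⁻¹
  have e1 : g * e * g⁻¹ = e * (e⁻¹ * g⁻¹⁻¹ * e * g⁻¹) := by group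
  rw [e1]
  exact E.mul_mem he ((Subgroup.zpowers_le.mpr hzE) h1)

theorem exists_E [Finite G] (hpow : ∀ x ∈ B, x ^ p ^ n = 1) :
    ∃ E : Subgroup G, S.z ∈ E ∧ E ≤ B ∧ (∀ y ∈ E, y ∈ A → y ∈ Subgroup.zpowers S.z) ∧
      ∀ x ∈ B, ∃ e ∈ E, ∃ c ∈ A, x = e * c := by
  have hne : Nonempty {E : Subgroup G // S.z ∈ E ∧ E ≤ B ∧
      ∀ y ∈ E, y ∈ A → y ∈ Subgroup.zpowers S.z} :=
    ⟨⟨Subgroup.zpowers S.z, Subgroup.mem_zpowers _, Subgroup.zpowers_le.mpr (S.AB S.zA),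
      fun y hy _ => hy⟩⟩
  obtain ⟨⟨E, hzE, hEB, hEA⟩, hEmax⟩ := Finite.exists_max
    (fun E : {E : Subgroup G // S.z ∈ E ∧ E ≤ B ∧
      ∀ y ∈ E, y ∈ A → y ∈ Subgroup.zpowers S.z} => Nat.card E.1)
  refine ⟨E, hzE, hEB, hEA, ?_⟩
  by_contra hcon
  push Not at hcon
  obtain ⟨x, hxB, hx⟩ := hcon
  obtain ⟨c₀, hc₀, hxc⟩ := S.exists_pow_one hpow hxB
  obtain ⟨x₁, hx₁def⟩ : ∃ x₁ : G, x₁ = x * c₀ := ⟨_, rfl⟩
  rw [← hx₁def] at hxc
  have hx₁B : x₁ ∈ B := by rw [hx₁def]; exact B.mul_mem hxB (S.AB hc₀)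
  have hx₁ : ∀ e ∈ E, ∀ c ∈ A, x₁ ≠ e * c := by
    intro e he c hc h
    apply hx e he (c * c₀⁻¹) (A.mul_mem hc (A.inv_mem hc₀))
    rw [← mul_assoc, ← h, hx₁def, mul_inv_cancel_right]
  have hx₁ne : x₁ ≠ 1 := by
    intro h
    exact hx₁ 1 E.one_mem 1 A.one_mem (by rw [h, mul_one])
  have hx₁ord : orderOf x₁ = p := orderOf_eq_prime hxc hx₁ne
  have hEn : E.Normal := S.E_normal hzE hEB hEA
  have hmemE₁ : ∀ y ∈ E ⊔ Subgroup.zpowers x₁, ∃ e ∈ E, ∃ i : ℤ, y = e * x₁ ^ i := by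
    intro y hy
    have hy' : y ∈ ((E ⊔ Subgroup.zpowers x₁ : Subgroup G) : Set G) := hy
    rw [Subgroup.normal_mul] at hy'
    obtain ⟨e, he, w, hw, hew⟩ := Set.mem_mul.mp hy'
    obtain ⟨i, hi⟩ := Subgroup.mem_zpowers_iff.mp hw
    exact ⟨e, he, i, by rw [hi, hew]⟩
  have hE₁A : ∀ y ∈ E ⊔ Subgroup.zpowers x₁, y ∈ A → y ∈ Subgroup.zpowers S.z := by
    intro y hy hyA
    obtain ⟨e, he, i, hyi⟩ := hmemE₁ y hy
    by_cases hi : x₁ ^ i = 1
    · rw [hyi, hi, mul_one] at hyA ⊢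
      exact hEA e he hyA
    · exfalso
      have hgen : x₁ ∈ Subgroup.zpowers (x₁ ^ i) :=
        prime_gen hx₁ord (Subgroup.zpow_mem _ (Subgroup.mem_zpowers _) i) hi
      obtain ⟨j, hj⟩ := Subgroup.mem_zpowers_iff.mp hgen
      have h1 : x₁ ^ i = e⁻¹ * y := by rw [hyi, inv_mul_cancel_left]
      have hcomm : Commute e⁻¹ y := (S.comm_BA (hEB he) hyA).inv_left
      have h2 : x₁ = (e⁻¹) ^ j * y ^ j := by
        rw [← hcomm.mul_zpow, ← h1, hj]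
      exact hx₁ _ (E.zpow_mem (E.inv_mem he) j) _ (A.zpow_mem hyA j) h2
  have hcard := hEmax ⟨E ⊔ Subgroup.zpowers x₁, (le_sup_left : E ≤ E ⊔ Subgroup.zpowers x₁) hzE,
    sup_le hEB (Subgroup.zpowers_le.mpr hx₁B), hE₁A⟩
  have heq := Subgroup.eq_of_le_of_card_ge (le_sup_left : E ≤ E ⊔ Subgroup.zpowers x₁) hcard
  have hx₁E : x₁ ∈ E := by
    have h3 : x₁ ∈ E ⊔ Subgroup.zpowers x₁ :=
      (le_sup_right : Subgroup.zpowers x₁ ≤ _) (Subgroup.mem_zpowers x₁)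
    rw [← heq] at h3
    exact h3
  exact hx₁ x₁ hx₁E 1 A.one_mem (by rw [mul_one])

end Ctx

/-- The data with the extraspecial subgroup `E`. -/
structure ECtx (p : ℕ) (A B : Subgroup G) (a : G) (n : ℕ) (E : Subgroup G) : Prop where
  S : Ctx p A B a n
  hn2 : 2 ≤ n
  hpow : ∀ x ∈ B, x ^ p ^ n = 1
  hzE : S.z ∈ E
  hEB : E ≤ B
  hEA : ∀ y ∈ E, y ∈ A → y ∈ Subgroup.zpowers S.z
  hdec : ∀ x ∈ B, ∃ e ∈ E, ∃ c ∈ A, x = e * c

namespace ECtx

variable {p : ℕ} {A B : Subgroup G} {a : G} {n : ℕ} {E : Subgroup G} (T : ECtx p A B a n E)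
include T

variable [hp : Fact p.Prime] [Finite G]

theorem E_cm : ∀ e ∈ E, ∀ g : G, e⁻¹ * g⁻¹ * e * g ∈ Subgroup.zpowers T.S.z :=
  T.S.E_cm T.hEB T.hEA

theorem En : E.Normal := T.S.E_normal T.hzE T.hEB T.hEA

theorem E_pow : ∀ e ∈ E, e ^ p ∈ Subgroup.zpowers T.S.z := by
  intro e he
  exact T.hEA _ (E.pow_mem he p) ((T.S.hB e).mp (T.hEB he)).2.1

theorem E_center : ∀ y ∈ E, (∀ x ∈ E, Commute y x) → y ∈ Subgroup.zpowers T.S.z := by
  intro y hy hc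
  apply T.hEA y hy
  apply T.S.hZB y (T.hEB hy)
  intro b hb
  obtain ⟨e, he, c, hcA, rfl⟩ := T.hdec b hb
  exact (hc e he).mul_right (T.S.comm_BA (T.hEB hy) hcA)

theorem E_nc : ∃ x ∈ E, ∃ y ∈ E, x * y ≠ y * x := by
  by_contra hcon
  push Not at hcon
  obtain ⟨x₀, hx₀B, hx₀A⟩ := T.S.hBne
  apply hx₀A
  apply T.S.hZB x₀ hx₀B
  intro b hb
  obtain ⟨e, he, c, hcA, rfl⟩ := T.hdec b hb
  obtain ⟨e', he', c', hcA', rfl⟩ := T.hdec x₀ hx₀B
  have h1 : Commute e' e := hcon e' he' e he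
  have h2 : Commute e' c := T.S.comm_BA (T.hEB he') hcA
  have h3 : Commute c' e := (T.S.comm_BA (T.hEB he) hcA').symm
  have h4 : Commute c' c := T.S.Acomm c' hcA' c hcA
  exact (h1.mul_right h2).mul_left (h3.mul_right h4)

theorem E_xs : Cfsg.IsExtraspecial p ↥E :=
  xs T.S.hG E T.S.z T.S.z_ord T.hzE T.E_center (fun x _ => (T.S.z_central x).symm)
    (fun x hx y _ => T.E_cm x hx y) T.E_pow T.E_nc

theorem dec_G : ∀ g : G, ∃ e ∈ E, ∀ x ∈ E, Commute (g * e⁻¹) x := by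
  have hEn := T.En
  exact inn T.S.hG E T.S.z T.S.z_ord T.E_cm T.S.z_central
    (fun y hy hc t => (T.S.zp_central (T.E_center y hy hc) t).symm)

theorem dec_G' : ∀ g : G, ∃ r ∈ Subgroup.centralizer (E : Set G), ∃ e ∈ E, g = r * e := by
  intro g
  obtain ⟨e, he, hc⟩ := T.dec_G g
  refine ⟨g * e⁻¹, ?_, e, he, by group⟩
  rw [Subgroup.mem_centralizer_iff]
  intro x hx
  exact (hc x hx).eq.symm

theorem sup_top : E ⊔ Subgroup.centralizer (E : Set G) = ⊤ := by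
  rw [eq_top_iff]
  intro g _
  obtain ⟨r, hr, e, he, rfl⟩ := T.dec_G' g
  exact Subgroup.mul_mem _ ((le_sup_right : Subgroup.centralizer (E : Set G) ≤ _) hr)
    ((le_sup_left : E ≤ _) he)

theorem A_le_R : A ≤ Subgroup.centralizer (E : Set G) := by
  intro c hc
  rw [Subgroup.mem_centralizer_iff]
  intro e he
  exact (T.S.comm_BA (T.hEB he) hc).eq

theorem R_A : ∀ r ∈ Subgroup.centralizer (E : Set G), (∀ c ∈ A, Commute r c) → r ∈ A := by
  intro r hr hc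
  have hrB : r ∈ B := by
    apply T.S.hCB
    rw [Subgroup.mem_centralizer_iff]
    intro c hcA
    exact (hc c hcA).eq.symm
  apply T.S.hZB r hrB
  intro b hb
  obtain ⟨e, he, c, hcA, rfl⟩ := T.hdec b hb
  have hre : Commute r e := ((Subgroup.mem_centralizer_iff.mp hr) e he).symm
  exact hre.mul_right (hc c hcA)

theorem comm_RE {r e : G} (hr : r ∈ Subgroup.centralizer (E : Set G)) (he : e ∈ E) :
    Commute r e :=
  ((Subgroup.mem_centralizer_iff.mp hr) e he).symm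

/-- If `C_G(E)` is nonabelian of order `p^3` then `G` is extraspecial. -/
theorem xs_top (hcard : Nat.card ↥(Subgroup.centralizer (E : Set G)) = p ^ 3)
    (hnc : ∃ r₁ ∈ Subgroup.centralizer (E : Set G), ∃ r₂ ∈ Subgroup.centralizer (E : Set G),
      r₁ * r₂ ≠ r₂ * r₁) : Cfsg.IsExtraspecial p ↥(⊤ : Subgroup G) := by
  obtain ⟨r₁, hr₁, r₂, hr₂, hr12⟩ := hnc
  have hnc' : ∃ x y : ↥(Subgroup.centralizer (E : Set G)), x * y ≠ y * x :=
    ⟨⟨r₁, hr₁⟩, ⟨r₂, hr₂⟩, fun h => hr12 (congrArg Subtype.val h)⟩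
  obtain ⟨hZcard, hZcm, hZpow⟩ := p3 hcard hnc'
  have hzR : T.S.z ∈ Subgroup.centralizer (E : Set G) := T.A_le_R T.S.zA
  have hzle : Subgroup.zpowers T.S.z ≤ Subgroup.centralizer (E : Set G) :=
    Subgroup.zpowers_le.mpr hzR
  have hle : (Subgroup.zpowers T.S.z).subgroupOf (Subgroup.centralizer (E : Set G))
      ≤ Subgroup.center ↥(Subgroup.centralizer (E : Set G)) := by
    intro r hr
    rw [Subgroup.mem_subgroupOf] at hr
    rw [Subgroup.mem_center_iff]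
    intro g
    apply Subtype.ext
    exact (T.S.zp_central hr g.1).eq
  have hcardZ : Nat.card ((Subgroup.zpowers T.S.z).subgroupOf (Subgroup.centralizer (E : Set G)))
      = p := by
    rw [Nat.card_congr (Subgroup.subgroupOfEquivOfLe hzle).toEquiv, Nat.card_zpowers, T.S.z_ord]
  have heq := Subgroup.eq_of_le_of_card_ge hle (by rw [hcardZ, hZcard])
  have hcen : ∀ r : ↥(Subgroup.centralizer (E : Set G)),
      r ∈ Subgroup.center ↥(Subgroup.centralizer (E : Set G)) → r.1 ∈ Subgroup.zpowers T.S.z := by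
    intro r hr
    rw [← heq] at hr
    exact Subgroup.mem_subgroupOf.mp hr
  have hRcm : ∀ r ∈ Subgroup.centralizer (E : Set G), ∀ r' ∈ Subgroup.centralizer (E : Set G),
      r⁻¹ * r'⁻¹ * r * r' ∈ Subgroup.zpowers T.S.z := by
    intro r hr r' hr'
    exact hcen _ (hZcm ⟨r, hr⟩ ⟨r', hr'⟩)
  have hRpow : ∀ r ∈ Subgroup.centralizer (E : Set G), r ^ p ∈ Subgroup.zpowers T.S.z := by
    intro r hr
    exact hcen _ (hZpow ⟨r, hr⟩)
  apply xs T.S.hG ⊤ T.S.z T.S.z_ord (Subgroup.mem_top _)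
  · intro y _ hc
    have hyR : y ∈ Subgroup.centralizer (E : Set G) := by
      rw [Subgroup.mem_centralizer_iff]
      intro e _
      exact (hc e (Subgroup.mem_top e)).eq.symm
    apply hcen ⟨y, hyR⟩
    rw [Subgroup.mem_center_iff]
    intro g
    apply Subtype.ext
    exact (hc g.1 (Subgroup.mem_top _)).eq.symm
  · intro x _
    exact (T.S.z_central x).symm
  · intro x _ y _
    obtain ⟨r, hr, e, he, rfl⟩ := T.dec_G' x
    obtain ⟨r', hr', e', he', rfl⟩ := T.dec_G' y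
    have h1 : r⁻¹ * (r' * e')⁻¹ * r * (r' * e') ∈ Subgroup.zpowers T.S.z := by
      rw [cm_mul_right (T.S.zp_central (hRcm r hr r' hr') e')]
      rw [cm_eq_one_iff.mpr (T.comm_RE hr he'), one_mul]
      exact hRcm r hr r' hr'
    have h2 : e⁻¹ * (r' * e')⁻¹ * e * (r' * e') ∈ Subgroup.zpowers T.S.z := by
      have h3 : e⁻¹ * r'⁻¹ * e * r' = 1 := cm_eq_one_iff.mpr (T.comm_RE hr' he).symm
      rw [cm_mul_right (by rw [h3]; exact Commute.one_right e'), h3, mul_one]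
      exact T.E_cm e he e'
    rw [cm_mul_left (T.S.zp_central h1 e)]
    exact Subgroup.mul_mem _ h1 h2
  · intro x _
    obtain ⟨r, hr, e, he, rfl⟩ := T.dec_G' x
    rw [(T.comm_RE hr he).mul_pow]
    exact Subgroup.mul_mem _ (hRpow r hr) (T.E_pow e he)
  · exact ⟨r₁, Subgroup.mem_top _, r₂, Subgroup.mem_top _, hr12⟩

end ECtx

end Cfsg.Agent.Lib.Helper77.Symp
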