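import Cfsg.Agent.Lib.Helper77.SympD
import Cfsg.Agent.S3761
import Cfsg.Prelude.Def_CaseTheorems

set_option autoImplicit false

/-!
P. Hall's theorem on `p`-groups of symplectic type, third part: the centraliser of the
extraspecial subgroup, and the assembly.
-/

namespace Cfsg.Agent.Lib.Helper77.Symp

open scoped commutatorElement

variable {G : Type*} [Group G]

/-- The conclusion of the theorem. -/
def Concl (p : ℕ) (G : Type*) [Group G] : Prop :=
  ∃ E R : Subgroup G, (∀ e ∈ E, ∀ r ∈ R, e * r = r * e) ∧ E ⊔ R = ⊤ ∧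
    (E = ⊥ ∨ Cfsg.IsExtraspecial p ↥E) ∧
    (IsCyclic R ∨ (p = 2 ∧ 16 ≤ Nat.card R ∧ ((∃ m : ℕ, Nonempty (↥R ≃* DihedralGroup m)) ∨
      (∃ m : ℕ, Nonempty (↥R ≃* QuaternionGroup m)) ∨ Cfsg.IsQuasiDihedral ↥R)))

theorem concl_of_xs {p : ℕ} (h : Cfsg.IsExtraspecial p ↥(⊤ : Subgroup G)) : Concl p G :=
  ⟨⊤, ⊥, fun e _ r hr => by rw [Subgroup.mem_bot.mp hr, mul_one, one_mul], sup_bot_eq _,
    Or.inr h, Or.inl inferInstance⟩

theorem not_cyclic_elem {p : ℕ} [Fact p.Prime] (H : Subgroup G)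
    (hel : Cfsg.IsElementaryAbelian p H) (hcard : Nat.card H = p ^ 2) (hcyc : IsCyclic H) :
    False := by
  obtain ⟨g, hg⟩ := IsCyclic.exists_generator (α := ↥H)
  have hord : orderOf g = p ^ 2 := by rw [orderOf_eq_card_of_forall_mem_zpowers hg, hcard]
  have hgp : g ^ p = 1 := Subtype.ext (hel.2 g.1 g.2)
  have h1 := orderOf_dvd_of_pow_eq_one hgp
  rw [hord] at h1
  have h2 := Nat.le_of_dvd (Fact.out : p.Prime).pos h1
  have h3 := (Fact.out : p.Prime).one_lt
  nlinarith

theorem xs_of_p3 [Finite G] {p : ℕ} [Fact p.Prime] (hG : IsPGroup p G)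
    (hc : Nat.card G = p ^ 3) (hnc : ∃ x y : G, x * y ≠ y * x) :
    Cfsg.IsExtraspecial p ↥(⊤ : Subgroup G) := by
  obtain ⟨hZcard, hZcm, hZpow⟩ := p3 hc hnc
  have hne : Subgroup.center G ≠ ⊥ := by
    intro h
    rw [h, Subgroup.card_bot] at hZcard
    exact (Fact.out : p.Prime).one_lt.ne hZcard
  obtain ⟨z', hz'1⟩ := (Subgroup.ne_bot_iff_exists_ne_one).mp hne
  have hz'1' : z'.1 ≠ 1 := fun h => hz'1 (Subtype.ext h)
  have hz'ord : orderOf z'.1 = p := by
    have h1 : orderOf z'.1 ∣ p := by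
      have h0 := Subgroup.orderOf_dvd_natCard (Subgroup.center G) z'.2
      rwa [hZcard] at h0
    rcases (Nat.dvd_prime (Fact.out : p.Prime)).mp h1 with h2 | h2
    · exact absurd (orderOf_eq_one_iff.mp h2) hz'1'
    · exact h2
  have hZeq : Subgroup.zpowers z'.1 = Subgroup.center G :=
    Subgroup.eq_of_le_of_card_ge (Subgroup.zpowers_le.mpr z'.2)
      (by rw [Nat.card_zpowers, hz'ord, hZcard])
  obtain ⟨x₀, y₀, hxy⟩ := hnc
  apply xs hG ⊤ z'.1 hz'ord (Subgroup.mem_top _)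
  · intro y _ hcm
    rw [hZeq, Subgroup.mem_center_iff]
    intro g
    exact (hcm g (Subgroup.mem_top g)).eq.symm
  · intro x _
    exact (Subgroup.mem_center_iff.mp z'.2 x).symm
  · intro x _ y _
    rw [hZeq]; exact hZcm x y
  · intro x _
    rw [hZeq]; exact hZpow x
  · exact ⟨x₀, Subgroup.mem_top _, y₀, Subgroup.mem_top _, hxy⟩

theorem exists_max_char [Finite G] :
    ∃ A : Subgroup G, A.Characteristic ∧ (∀ x ∈ A, ∀ y ∈ A, x * y = y * x) ∧
      ∀ A' : Subgroup G, A'.Characteristic → (∀ x ∈ A', ∀ y ∈ A', x * y = y * x) →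
        A ≤ A' → A' ≤ A := by
  have hne : Nonempty {A : Subgroup G // A.Characteristic ∧ ∀ x ∈ A, ∀ y ∈ A, x * y = y * x} :=
    ⟨⟨⊥, Subgroup.botCharacteristic, fun x hx y hy => by
      rw [Subgroup.mem_bot.mp hx, Subgroup.mem_bot.mp hy]⟩⟩
  obtain ⟨⟨A, hAc, hAcomm⟩, hmax⟩ := Finite.exists_max
    (fun A : {A : Subgroup G // A.Characteristic ∧ ∀ x ∈ A, ∀ y ∈ A, x * y = y * x} =>
      Nat.card A.1)
  refine ⟨A, hAc, hAcomm, fun A' hA'c hA'comm hle => ?_⟩
  have h1 := hmax ⟨A', hA'c, hA'comm⟩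
  exact (Subgroup.eq_of_le_of_card_ge hle h1).ge

/-- Case `C(A) = A`. -/
theorem case1 [Finite G] {p : ℕ} [Fact p.Prime] (hG : IsPGroup p G)
    (hsymp : ∀ A : Subgroup G, A.Characteristic → IsMulCommutative A → IsCyclic A)
    (hna : ¬ ∀ x y : G, x * y = y * x) (A : Subgroup G) (hAc : A.Characteristic)
    (hAcyc : IsCyclic A) (a : G) (n : ℕ) (hA : Subgroup.zpowers a = A) (ha : orderOf a = p ^ n)
    (hCA : Subgroup.centralizer (A : Set G) ≤ A) : Concl p G := by
  have hAn : A.Normal := Subgroup.normal_of_characteristic A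
  have hC : Subgroup.centralizer (A : Set G) = A := by
    apply le_antisymm hCA
    intro c hc
    rw [Subgroup.mem_centralizer_iff]
    intro h hh
    rw [← hA] at hc hh
    obtain ⟨i, rfl⟩ := Subgroup.mem_zpowers_iff.mp hc
    obtain ⟨j, rfl⟩ := Subgroup.mem_zpowers_iff.mp hh
    exact ((Commute.refl a).zpow_zpow j i).eq
  have hna' : ¬ IsMulCommutative G := fun h => hna (fun x y => h.is_comm.comm x y)
  have hcardA : Nat.card A = p ^ n := by rw [← hA, Nat.card_zpowers, ha]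
  obtain ⟨x₀, y₀, hxy⟩ : ∃ x y : G, x * y ≠ y * x := by
    by_contra hcon
    push Not at hcon
    exact hna hcon
  rcases Cfsg.Agent.S3761.result hG hna' A hAcyc n hcardA hC with h | h
  · obtain ⟨hp2, hcard, hDQ⟩ := h
    rcases Nat.lt_or_ge n 3 with hn3 | hn3
    · apply concl_of_xs
      have hn2 : n = 2 := by
        by_contra hne
        have hn1 : n ≤ 1 := by omega
        apply hna
        interval_cases n
        · have hA1 : A = ⊥ := Subgroup.card_eq_one.mp (by rw [hcardA, pow_zero])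
          have hall : ∀ x : G, x = 1 := by
            intro x
            have hx : x ∈ Subgroup.centralizer (A : Set G) := by
              rw [Subgroup.mem_centralizer_iff]
              intro h hh
              rw [hA1] at hh
              have hh' : h = 1 := Subgroup.mem_bot.mp hh
              rw [hh', one_mul, mul_one]
            rw [hC, hA1, Subgroup.mem_bot] at hx
            exact hx
          intro x y
          rw [hall x, hall y]
        · have hc4 : Nat.card G = p ^ 2 := by rw [hcard, hp2]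
          exact IsPGroup.commutative_of_card_eq_prime_sq hc4
      have hc8 : Nat.card G = p ^ 3 := by rw [hcard, hp2, hn2]
      exact xs_of_p3 hG hc8 ⟨x₀, y₀, hxy⟩
    · refine ⟨⊥, ⊤, fun e he r _ => by rw [Subgroup.mem_bot.mp he, one_mul, mul_one],
        bot_sup_eq _, Or.inl rfl, Or.inr ⟨hp2, ?_, ?_⟩⟩
      · rw [Subgroup.card_top, hcard]
        calc 16 = 2 ^ 4 := by norm_num
          _ ≤ 2 ^ (n + 1) := Nat.pow_le_pow_right (by norm_num) (by omega)
      · rcases hDQ with ⟨m, ⟨e⟩⟩ | ⟨m, ⟨e⟩⟩ | hQD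
        · exact Or.inl ⟨m, ⟨Subgroup.topEquiv.trans e⟩⟩
        · exact Or.inr (Or.inl ⟨m, ⟨Subgroup.topEquiv.trans e⟩⟩)
        · right; right
          obtain ⟨k, hk, hck, x, y, hx, hy, hxy'⟩ := hQD
          exact ⟨k, hk, by rw [Subgroup.card_top]; exact hck, ⟨x, Subgroup.mem_top x⟩,
            ⟨y, Subgroup.mem_top y⟩, by rw [Subgroup.orderOf_mk]; exact hx,
            by rw [Subgroup.orderOf_mk]; exact hy, Subtype.ext hxy'⟩
  · obtain ⟨_, hel, hcardΩ, hchar⟩ := h
    exact (not_cyclic_elem _ hel hcardΩ (hsymp _ hchar hel.1)).elim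

namespace ECtx

variable {p : ℕ} {A B : Subgroup G} {a : G} {n : ℕ} {E : Subgroup G} (T : ECtx p A B a n E)
include T

variable [hp : Fact p.Prime] [Finite G]

/-- For `|A| ≥ p³` there is no element `w ∈ C_G(E) ∖ A` of order `p` centralising `A^p`. -/
theorem no_w (hn3 : 3 ≤ n)
    (hsymp : ∀ A' : Subgroup G, A'.Characteristic → IsMulCommutative A' → IsCyclic A')
    (w : G) (hwR : w ∈ Subgroup.centralizer (E : Set G)) (hwA : w ∉ A) (hwp : w ^ p = 1)
    (hwc : ∀ c ∈ A, Commute w (c ^ p)) : False := by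
  have S := T.S
  have hAc := S.hAc
  have hBc := S.hBc
  obtain ⟨MP, hMPdef⟩ : ∃ MP : Subgroup G,
      MP = Subgroup.centralizer {y : G | ∃ c ∈ A, y = c ^ p} := ⟨_, rfl⟩
  have hMPmem : ∀ g, g ∈ MP ↔ ∀ c ∈ A, Commute g (c ^ p) := by
    intro g
    rw [hMPdef, Subgroup.mem_centralizer_iff]
    constructor
    · intro h c hc; exact (h _ ⟨c, hc, rfl⟩).symm
    · intro h y hy
      obtain ⟨c, hc, hyc⟩ := hy
      rw [hyc]
      exact (h c hc).eq.symm
  have hwMP : w ∈ MP := (hMPmem w).mpr hwc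
  have hBMP : B ≤ MP := fun b hb => (hMPmem b).mpr (fun c hc => S.comm_BA hb (A.pow_mem hc p))
  have hAMP : ∀ c ∈ A, ∀ g ∈ MP, c⁻¹ * g⁻¹ * c * g ∈ Subgroup.zpowers S.z := by
    intro c hc g hg
    have hd : c⁻¹ * g⁻¹ * c * g ∈ A := S.cm_A hc g
    apply S.mem_z hd
    rw [← cm_pow (S.Acomm c hc _ hd)]
    exact cm_eq_one_iff.mpr ((hMPmem g).mp hg c hc).symm
  have hwa : ¬ Commute w a := by
    intro h
    apply hwA
    apply T.R_A w hwR
    intro c hc
    rw [← S.hA] at hc
    obtain ⟨i, rfl⟩ := Subgroup.mem_zpowers_iff.mp hc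
    exact h.zpow_right i
  have hd₀ := hAMP a S.aA w hwMP
  have hd₀1 : a⁻¹ * w⁻¹ * a * w ≠ 1 := fun h => hwa (cm_eq_one_iff.mp h).symm
  have hzd : S.z ∈ Subgroup.zpowers (a⁻¹ * w⁻¹ * a * w) := prime_gen S.z_ord hd₀ hd₀1
  have hcw : w⁻¹ * a⁻¹ * w * a ∈ Subgroup.zpowers S.z := by
    rw [cm_symm a w]; exact Subgroup.inv_mem _ hd₀
  have hdecMP : ∀ g ∈ MP, ∃ j : ℕ, g * w ^ j ∈ B := by
    intro g hg
    have hd := hAMP a S.aA g hg
    have h1 : (a⁻¹ * g⁻¹ * a * g)⁻¹ ∈ Subgroup.zpowers (a⁻¹ * w⁻¹ * a * w) :=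
      (Subgroup.zpowers_le.mpr hzd) (Subgroup.inv_mem _ hd)
    have hfin : IsOfFinOrder (a⁻¹ * w⁻¹ * a * w) := isOfFinOrder_of_finite _
    rw [← mem_powers_iff_mem_zpowers] at h1
    obtain ⟨j, hj⟩ := (Submonoid.mem_powers_iff _ _).mp h1
    refine ⟨j, ?_⟩
    apply S.hCB
    have hcm : a⁻¹ * (g * w ^ j)⁻¹ * a * (g * w ^ j) = 1 := by
      rw [cm_mul_right (S.zp_central hd _)]
      have h2 : a⁻¹ * (w ^ j)⁻¹ * a * w ^ j = (a⁻¹ * w⁻¹ * a * w) ^ j := by
        have h3 : (w ^ j)⁻¹ * a⁻¹ * w ^ j * a = (w⁻¹ * a⁻¹ * w * a) ^ j :=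
          cm_pow (S.zp_central hcw w) j
        rw [cm_symm (w ^ j) a, h3, cm_symm a w, inv_pow, inv_inv]
      rw [h2, hj, inv_mul_cancel]
    have hc : Commute a (g * w ^ j) := cm_eq_one_iff.mp hcm
    rw [Subgroup.mem_centralizer_iff]
    intro c hc'
    rw [← S.hA] at hc'
    obtain ⟨i, rfl⟩ := Subgroup.mem_zpowers_iff.mp hc'
    exact (hc.zpow_left i).eq
  have hBMPcm : ∀ b ∈ B, ∀ g ∈ MP, b⁻¹ * g⁻¹ * b * g ∈ Subgroup.zpowers S.z := by
    intro b hb g hg
    obtain ⟨e, he, c, hc, rfl⟩ := T.hdec b hb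
    rw [cm_mul_left (S.zp_central (T.E_cm e he g) c)]
    exact Subgroup.mul_mem _ (T.E_cm e he g) (hAMP c hc g hg)
  have hform : ∀ b ∈ B, ∀ u ∈ Subgroup.zpowers w, ∀ b' ∈ B, ∀ u' ∈ Subgroup.zpowers w,
      (b * u)⁻¹ * (b' * u')⁻¹ * (b * u) * (b' * u') ∈ Subgroup.zpowers S.z := by
    intro b hb u hu b' hb' u' hu'
    have huMP : u ∈ MP := (Subgroup.zpowers_le.mpr hwMP) hu
    have hu'MP : u' ∈ MP := (Subgroup.zpowers_le.mpr hwMP) hu'
    have hyMP : b' * u' ∈ MP := MP.mul_mem (hBMP hb') hu'MP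
    have h1 := hBMPcm b hb _ hyMP
    have h2 : u⁻¹ * b'⁻¹ * u * b' ∈ Subgroup.zpowers S.z := by
      rw [cm_symm b' u]; exact Subgroup.inv_mem _ (hBMPcm b' hb' u huMP)
    have huu : Commute u u' := by
      obtain ⟨i, rfl⟩ := Subgroup.mem_zpowers_iff.mp hu
      obtain ⟨i', rfl⟩ := Subgroup.mem_zpowers_iff.mp hu'
      exact (Commute.refl w).zpow_zpow i i'
    have h3 : u⁻¹ * (b' * u')⁻¹ * u * (b' * u') ∈ Subgroup.zpowers S.z := by
      rw [cm_mul_right (S.zp_central h2 u'), cm_eq_one_iff.mpr huu, one_mul]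
      exact h2
    rw [cm_mul_left (S.zp_central h1 u)]
    exact Subgroup.mul_mem _ h1 h3
  have hMPcm : ∀ x ∈ MP, ∀ y ∈ MP, x⁻¹ * y⁻¹ * x * y ∈ Subgroup.zpowers S.z := by
    intro x hx y hy
    obtain ⟨j, hj⟩ := hdecMP x hx
    obtain ⟨j', hj'⟩ := hdecMP y hy
    have h1 := hform _ hj ((w ^ j)⁻¹)
      (Subgroup.inv_mem _ (Subgroup.pow_mem _ (Subgroup.mem_zpowers w) j)) _ hj' ((w ^ j')⁻¹)
      (Subgroup.inv_mem _ (Subgroup.pow_mem _ (Subgroup.mem_zpowers w) j'))
    rw [mul_inv_cancel_right, mul_inv_cancel_right] at h1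
    exact h1
  have hhom : ∀ x ∈ MP, ∀ y ∈ MP, (x * y) ^ p ^ (n - 1) = x ^ p ^ (n - 1) * y ^ p ^ (n - 1) := by
    intro x hx y hy
    have hc : y * x = x * y * (y⁻¹ * x⁻¹ * y * x) := by group
    have hcz := hMPcm y hy x hx
    exact mul_pow_of_class2 hc (S.zp_central hcz x) (S.zp_central hcz y) (S.zp_pow hcz) (n - 1)
      (by omega)
  let N₁ : Subgroup G :=
    { carrier := {x | x ∈ MP ∧ x ^ p ^ (n - 1) = 1}
      mul_mem' := by
        rintro x y ⟨hx, hx1⟩ ⟨hy, hy1⟩
        exact ⟨MP.mul_mem hx hy, by rw [hhom x hx y hy, hx1, hy1, one_mul]⟩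
      one_mem' := ⟨MP.one_mem, one_pow _⟩
      inv_mem' := by
        rintro x ⟨hx, hx1⟩
        exact ⟨MP.inv_mem hx, by rw [inv_pow, hx1, inv_one]⟩ }
  have hN₁mem : ∀ x, x ∈ N₁ ↔ (x ∈ MP ∧ x ^ p ^ (n - 1) = 1) := fun x => Iff.rfl
  have hMPc : MP.Characteristic := by
    apply char_of_mem
    intro φ g hg
    rw [hMPmem] at hg ⊢
    intro c hc
    have h1 := hg (φ.symm c) (char_mem A φ.symm hc)
    have h2 := h1.map φ
    rw [map_pow, φ.apply_symm_apply] at h2
    exact h2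
  have hN₁c : N₁.Characteristic := by
    apply char_of_mem
    intro φ x hx
    obtain ⟨hx1, hx2⟩ := (hN₁mem x).mp hx
    exact (hN₁mem _).mpr ⟨char_mem MP φ hx1, by rw [← map_pow, hx2, map_one]⟩
  have e1 : p ^ (n - 1) = p * p ^ (n - 2) := by
    rw [← pow_succ']; congr 1; omega
  have hwN : w ∈ N₁ := (hN₁mem w).mpr ⟨hwMP, by rw [e1, pow_mul, hwp, one_pow]⟩
  have hzN : S.z ∈ N₁ := (hN₁mem _).mpr ⟨hBMP (S.AB S.zA), by
    rw [e1, pow_mul, S.z_pow, one_pow]⟩
  have hwcent : ∀ x ∈ N₁, Commute w x := by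
    intro x hx
    obtain ⟨hxMP, hx1⟩ := (hN₁mem x).mp hx
    obtain ⟨j, hj⟩ := hdecMP x hxMP
    obtain ⟨e, he, c, hc, hec⟩ := T.hdec _ hj
    rw [← S.hA] at hc
    obtain ⟨i, hi⟩ := Subgroup.mem_zpowers_iff.mp hc
    rw [← hi] at hec
    have hx' : x = e * a ^ i * (w ^ j)⁻¹ := by rw [← hec, mul_inv_cancel_right]
    have heMP : e ∈ MP := hBMP (T.hEB he)
    have haMP : a ^ i ∈ MP := hBMP (S.AB (A.zpow_mem S.aA i))
    have huMP : (w ^ j)⁻¹ ∈ MP := MP.inv_mem (MP.pow_mem hwMP j)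
    have hpw : (e * a ^ i * (w ^ j)⁻¹) ^ p ^ (n - 1) = (a ^ i) ^ p ^ (n - 1) := by
      rw [hhom _ (MP.mul_mem heMP haMP) _ huMP, hhom _ heMP _ haMP]
      have he1 : e ^ p ^ (n - 1) = 1 := by
        have e2 : p ^ (n - 1) = p * (p * p ^ (n - 3)) := by
          rw [← pow_succ', ← pow_succ']; congr 1; omega
        rw [e2, pow_mul, pow_mul, S.zp_pow (T.E_pow e he), one_pow]
      have hu1 : ((w ^ j)⁻¹) ^ p ^ (n - 1) = 1 := by
        rw [inv_pow, ← pow_mul, mul_comm, pow_mul, ((hN₁mem w).mp hwN).2, one_pow, inv_one]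
      rw [he1, hu1, one_mul, mul_one]
    rw [← hx', hx1] at hpw
    have hpi : (p : ℤ) ∣ i := cyc_dvd' S.ha S.hn i hpw.symm
    obtain ⟨i', hi'⟩ := hpi
    have hwai : Commute w (a ^ i) := by
      rw [hi', mul_comm, zpow_mul, zpow_natCast]
      exact hwc _ (A.zpow_mem S.aA i')
    have hwe : Commute w e := T.comm_RE hwR he
    rw [hx']
    exact (hwe.mul_right hwai).mul_right ((Commute.refl w).pow_right j).inv_right
  have hZNc : (N₁ ⊓ Subgroup.centralizer (N₁ : Set G)).Characteristic := char_inf_centralizer N₁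
  have hZNcomm : IsMulCommutative ↥(N₁ ⊓ Subgroup.centralizer (N₁ : Set G)) :=
    ⟨⟨fun x y => Subtype.ext ((Subgroup.mem_centralizer_iff.mp (Subgroup.mem_inf.mp y.2).2) x.1
      (Subgroup.mem_inf.mp x.2).1)⟩⟩
  have hcyc := hsymp _ hZNc hZNcomm
  have hzZN : S.z ∈ N₁ ⊓ Subgroup.centralizer (N₁ : Set G) := Subgroup.mem_inf.mpr ⟨hzN, by
    rw [Subgroup.mem_centralizer_iff]; intro x _; exact (S.z_central x).eq⟩
  have hwZN : w ∈ N₁ ⊓ Subgroup.centralizer (N₁ : Set G) := Subgroup.mem_inf.mpr ⟨hwN, by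
    rw [Subgroup.mem_centralizer_iff]; intro x hx; exact (hwcent x hx).eq.symm⟩
  have hwz := cyc_unique S.hG _ hcyc S.z_ord hzZN hwZN hwp
  exact hwA (S.zp_A hwz)

/-- The case `|A| ≥ p²`. -/
theorem case_n2
    (hsymp : ∀ A' : Subgroup G, A'.Characteristic → IsMulCommutative A' → IsCyclic A') :
    Concl p G := by
  have S := T.S
  have hAcyc : IsCyclic ↥A := hsymp A S.hAc
    ⟨⟨fun x y => Subtype.ext (S.Acomm x.1 x.2 y.1 y.2).eq⟩⟩
  have hcommER : ∀ e ∈ E, ∀ r ∈ Subgroup.centralizer (E : Set G), e * r = r * e :=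
    fun e he r hr => (Subgroup.mem_centralizer_iff.mp hr) e he
  by_cases hRc : ∀ r ∈ Subgroup.centralizer (E : Set G),
      ∀ r' ∈ Subgroup.centralizer (E : Set G), r * r' = r' * r
  · have hRA : Subgroup.centralizer (E : Set G) = A :=
      le_antisymm (fun r hr => T.R_A r hr (fun c hc => hRc r hr c (T.A_le_R hc))) T.A_le_R
    refine ⟨E, Subgroup.centralizer (E : Set G), hcommER, T.sup_top, Or.inr T.E_xs, Or.inl ?_⟩
    rw [hRA]; exact hAcyc
  · push Not at hRc
    obtain ⟨r₁, hr₁, r₂, hr₂, hr12⟩ := hRc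
    have hAR : A ≤ Subgroup.centralizer (E : Set G) := T.A_le_R
    have hRp : IsPGroup p ↥(Subgroup.centralizer (E : Set G)) := S.hG.to_subgroup _
    have hna : ¬ IsMulCommutative ↥(Subgroup.centralizer (E : Set G)) := by
      intro h
      have h1 := h.is_comm.comm (⟨r₁, hr₁⟩ : ↥(Subgroup.centralizer (E : Set G))) ⟨r₂, hr₂⟩
      exact hr12 (congrArg Subtype.val h1)
    have hAn := S.An
    have hUn : (A.subgroupOf (Subgroup.centralizer (E : Set G))).Normal := inferInstance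
    have hUcyc : IsCyclic ↥(A.subgroupOf (Subgroup.centralizer (E : Set G))) :=
      isCyclic_of_surjective (Subgroup.subgroupOfEquivOfLe hAR).symm
        (Subgroup.subgroupOfEquivOfLe hAR).symm.surjective
    have hUcard : Nat.card ↥(A.subgroupOf (Subgroup.centralizer (E : Set G))) = p ^ n := by
      rw [Nat.card_congr (Subgroup.subgroupOfEquivOfLe hAR).toEquiv, ← S.hA, Nat.card_zpowers,
        S.ha]
    have hUC : Subgroup.centralizer
        ((A.subgroupOf (Subgroup.centralizer (E : Set G)) :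
          Subgroup ↥(Subgroup.centralizer (E : Set G))) :
          Set ↥(Subgroup.centralizer (E : Set G)))
        = A.subgroupOf (Subgroup.centralizer (E : Set G)) := by
      ext r
      rw [Subgroup.mem_centralizer_iff, Subgroup.mem_subgroupOf]
      constructor
      · intro h
        apply T.R_A r.1 r.2
        intro c hc
        have h1 := h ⟨c, hAR hc⟩ (Subgroup.mem_subgroupOf.mpr hc)
        exact (congrArg Subtype.val h1).symm
      · intro h u hu
        apply Subtype.ext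
        exact (S.Acomm u.1 (Subgroup.mem_subgroupOf.mp hu) r.1 h).eq
    have hxs : Nat.card ↥(Subgroup.centralizer (E : Set G)) = p ^ 3 → Concl p G := fun hc =>
      concl_of_xs (T.xs_top hc ⟨r₁, hr₁, r₂, hr₂, hr12⟩)
    rcases Cfsg.Agent.S3761.result hRp hna (A.subgroupOf (Subgroup.centralizer (E : Set G)))
      hUcyc n hUcard hUC with h | h
    · obtain ⟨hp2, hcard, hDQ⟩ := h
      rcases Nat.lt_or_ge n 3 with hn3 | hn3
      · have hn2 : n = 2 := by have := T.hn2; omega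
        exact hxs (by rw [hcard, hp2, hn2])
      · refine ⟨E, Subgroup.centralizer (E : Set G), hcommER, T.sup_top, Or.inr T.E_xs,
          Or.inr ⟨hp2, ?_, hDQ⟩⟩
        rw [hcard]
        calc 16 = 2 ^ 4 := by norm_num
          _ ≤ 2 ^ (n + 1) := Nat.pow_le_pow_right (by norm_num) (by omega)
    · obtain ⟨hidx, hel, hcardΩ, _⟩ := h
      rcases Nat.lt_or_ge n 3 with hn3 | hn3
      · have hn2 : n = 2 := by have := T.hn2; omega
        apply hxs
        have hMtop : Subgroup.centralizer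
            (Cfsg.powerClosure p 1 (A.subgroupOf (Subgroup.centralizer (E : Set G))) :
              Set ↥(Subgroup.centralizer (E : Set G))) = ⊤ := by
          rw [Subgroup.centralizer_eq_top_iff_subset]
          have hle : Cfsg.powerClosure p 1 (A.subgroupOf (Subgroup.centralizer (E : Set G)))
              ≤ Subgroup.center ↥(Subgroup.centralizer (E : Set G)) := by
            unfold Cfsg.powerClosure
            rw [Subgroup.closure_le]
            intro y hy
            obtain ⟨x, hx, hyx⟩ := hy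
            rw [SetLike.mem_coe, Subgroup.mem_center_iff]
            intro g
            apply Subtype.ext
            have hxA : x.1 ∈ A := Subgroup.mem_subgroupOf.mp hx
            have hz : x.1 ^ p ∈ Subgroup.zpowers S.z := by
              apply S.mem_z (A.pow_mem hxA p)
              rw [← pow_mul, ← pow_two, ← hn2]
              exact cyc_pow_card S.ha (by rw [S.hA]; exact hxA)
            have hyv : y.1 = x.1 ^ p := by rw [hyx, pow_one]; rfl
            show g.1 * y.1 = y.1 * g.1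
            rw [hyv]
            exact (S.zp_central hz g.1).eq
          exact hle
        rw [hMtop, Subgroup.relIndex_top_right] at hidx
        have hmul := Subgroup.card_mul_index (A.subgroupOf (Subgroup.centralizer (E : Set G)))
        rw [hUcard, hidx, hn2] at hmul
        rw [← hmul]; ring
      · exfalso
        have hw : ∃ w : ↥(Subgroup.centralizer (E : Set G)),
            w ∈ Subgroup.centralizer
              (Cfsg.powerClosure p 1 (A.subgroupOf (Subgroup.centralizer (E : Set G))) :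
                Set ↥(Subgroup.centralizer (E : Set G))) ∧
            w ∉ A.subgroupOf (Subgroup.centralizer (E : Set G)) ∧ w ^ p = 1 := by
          by_contra hcon
          push Not at hcon
          have hle : Cfsg.omegaOne p (Subgroup.centralizer
              (Cfsg.powerClosure p 1 (A.subgroupOf (Subgroup.centralizer (E : Set G))) :
                Set ↥(Subgroup.centralizer (E : Set G))))
              ≤ A.subgroupOf (Subgroup.centralizer (E : Set G)) := by
            unfold Cfsg.omegaOne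
            rw [Subgroup.closure_le]
            intro x hx
            by_contra hxU
            exact hcon x hx.1 hxU hx.2
          have hΩcyc := Subgroup.isCyclic_of_le hle
          exact not_cyclic_elem _ hel hcardΩ hΩcyc
        obtain ⟨w, hw1, hw2, hw3⟩ := hw
        apply T.no_w hn3 hsymp w.1 w.2 (fun h => hw2 (Subgroup.mem_subgroupOf.mpr h))
          (congrArg Subtype.val hw3)
        intro c hc
        have hmem : (⟨c, hAR hc⟩ : ↥(Subgroup.centralizer (E : Set G))) ^ p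
            ∈ (Cfsg.powerClosure p 1 (A.subgroupOf (Subgroup.centralizer (E : Set G))) :
              Set ↥(Subgroup.centralizer (E : Set G))) :=
          Subgroup.subset_closure ⟨⟨c, hAR hc⟩, Subgroup.mem_subgroupOf.mpr hc, by rw [pow_one]⟩
        have h1 := (Subgroup.mem_centralizer_iff.mp hw1) _ hmem
        exact (congrArg Subtype.val h1).symm

end ECtx

end Cfsg.Agent.Lib.Helper77.Symp
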