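import Cfsg.Agent.S1952
import Cfsg.Agent.Lib.Helper77.NormEngel

set_option autoImplicit false

/-!
From an Engel-type "singularity" `[x, z; p-1] ∈ W₀ ∖ Φ(W₀)` (`W₀` maximal in the `p`-group `S`)
to a homomorphic image `C_p ≀ C_p` of `S`.
-/

namespace Cfsg.Agent.Lib.Helper77

open Cfsg
open scoped commutatorElement

/-- A maximal subgroup of a finite `p`-group is normal of index `p`. -/
theorem coatom_pgroup {S : Type*} [Group S] [Finite S] {p : ℕ} [Fact p.Prime]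
    (hS : IsPGroup p S) (M : Subgroup S) (hM : IsCoatom M) : M.Normal ∧ M.index = p := by
  have hp : p.Prime := Fact.out
  obtain ⟨n, hn⟩ := IsPGroup.iff_card.1 hS
  have hMp : IsPGroup p M := hS.to_subgroup M
  obtain ⟨m, hm⟩ := IsPGroup.iff_card.1 hMp
  have hdvd : Nat.card M ∣ Nat.card S := Subgroup.card_subgroup_dvd_card M
  have hmn : m ≤ n := by
    rw [hm, hn] at hdvd
    exact (Nat.pow_dvd_pow_iff_le_right hp.one_lt).1 hdvd
  have hne : m ≠ n := by
    intro h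
    apply hM.1
    apply Subgroup.eq_top_of_card_eq
    rw [hm, hn, h]
  have hlt : m + 1 ≤ n := by omega
  have hd2 : p ^ (m + 1) ∣ Nat.card S := by
    rw [hn]
    exact pow_dvd_pow p hlt
  obtain ⟨K, hK, hMK⟩ := Sylow.exists_subgroup_card_pow_succ hd2 hm
  have hKM : M < K := by
    refine lt_of_le_of_ne hMK ?_
    intro h
    rw [← h, hm] at hK
    have := Nat.pow_right_injective hp.two_le hK
    omega
  have hKtop : K = ⊤ := hM.2 K hKM
  have hcard : Nat.card S = p ^ (m + 1) := by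
    rw [← hK, hKtop, Subgroup.card_top]
  have hidx : M.index = p := by
    have h1 := Subgroup.card_mul_index M
    rw [hm, hcard, pow_succ] at h1
    exact Nat.eq_of_mul_eq_mul_left (pow_pos hp.pos m) h1
  refine ⟨?_, hidx⟩
  apply Subgroup.normal_of_index_eq_minFac_card
  rw [hidx, hcard, Nat.Prime.pow_minFac hp (Nat.succ_ne_zero m)]

/-- In a finite `p`-group, `p`-th powers lie in the Frattini subgroup. -/
theorem pow_mem_frattini {S : Type*} [Group S] [Finite S] {p : ℕ} [Fact p.Prime]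
    (hS : IsPGroup p S) (a : S) : a ^ p ∈ frattini S := by
  unfold frattini Order.radical
  simp only [Subgroup.mem_iInf, Set.mem_ofPred_eq]
  intro M hM
  obtain ⟨hn, hi⟩ := coatom_pgroup hS M hM
  have := Subgroup.pow_index_mem M a
  rwa [hi] at this

/-- In a finite `p`-group, commutators lie in the Frattini subgroup. -/
theorem comm_mem_frattini {S : Type*} [Group S] [Finite S] {p : ℕ} [Fact p.Prime]
    (hS : IsPGroup p S) (a b : S) : a⁻¹ * b⁻¹ * a * b ∈ frattini S := by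
  unfold frattini Order.radical
  simp only [Subgroup.mem_iInf, Set.mem_ofPred_eq]
  intro M hM
  obtain ⟨hn, hi⟩ := coatom_pgroup hS M hM
  haveI := hn
  have hc : Nat.card (S ⧸ M) = p := by rw [← Subgroup.index_eq_card, hi]
  haveI : IsCyclic (S ⧸ M) := isCyclic_of_prime_card hc
  have h1 : IsMulCommutative (S ⧸ M) := inferInstance
  have h2 := Subgroup.Normal.quotient_commutative_iff_commutator_le.1 h1
  apply h2
  have h3 : a⁻¹ * b⁻¹ * a * b = ⁅a⁻¹, b⁻¹⁆ := by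
    rw [commutatorElement_def]; group
  rw [h3]
  exact Subgroup.commutator_mem_commutator (Subgroup.mem_top _) (Subgroup.mem_top _)

theorem wreath_of_engel {S : Type*} [Group S] [Finite S] {p : ℕ} [Fact p.Prime]
    (hS : IsPGroup p S) (W₀ : Subgroup S) (hW₀ : IsCoatom W₀) (x z : S)
    (h1 : (fun y : S => y⁻¹ * z⁻¹ * y * z)^[p - 1] x ∈ W₀)
    (h2 : (fun y : S => y⁻¹ * z⁻¹ * y * z)^[p - 1] x ∉ (frattini ↥W₀).map W₀.subtype) :
    ∃ (Q : Sylow p (Equiv.Perm (Fin (p ^ 2))))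
      (f : S →* ↥(Q : Subgroup (Equiv.Perm (Fin (p ^ 2))))), Function.Surjective f := by
  have hp : p.Prime := Fact.out
  obtain ⟨hWn, hWi⟩ := coatom_pgroup hS W₀ hW₀
  haveI := hWn
  set K : Subgroup S := (frattini ↥W₀).map W₀.subtype with hKdef
  haveI hKn : K.Normal := by
    rw [hKdef]; infer_instance
  have hKW : K ≤ W₀ := Subgroup.map_subtype_le _
  have hW₀p : IsPGroup p ↥W₀ := hS.to_subgroup W₀
  -- powers and commutators of `W₀` lie in `K`
  have hpow : ∀ a ∈ W₀, a ^ p ∈ K := by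
    intro a ha
    exact ⟨⟨a, ha⟩ ^ p, pow_mem_frattini hW₀p ⟨a, ha⟩, rfl⟩
  have hcomm : ∀ a ∈ W₀, ∀ b ∈ W₀, a⁻¹ * b⁻¹ * a * b ∈ K := by
    intro a ha b hb
    exact ⟨(⟨a, ha⟩ : ↥W₀)⁻¹ * (⟨b, hb⟩ : ↥W₀)⁻¹ * ⟨a, ha⟩ * ⟨b, hb⟩,
      comm_mem_frattini hW₀p ⟨a, ha⟩ ⟨b, hb⟩, rfl⟩
  -- the quotient
  let π : S →* S ⧸ K := QuotientGroup.mk' K
  have hπs : Function.Surjective π := QuotientGroup.mk'_surjective K
  have hπ1 : ∀ s : S, π s = 1 ↔ s ∈ K := fun s => QuotientGroup.eq_one_iff s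
  set A : Subgroup (S ⧸ K) := W₀.map π with hAdef
  haveI hAn : A.Normal := Subgroup.Normal.map hWn π hπs
  have hAidx : A.index = p := by
    rw [hAdef, Subgroup.index_map_eq W₀ hπs (by rw [QuotientGroup.ker_mk']; exact hKW), hWi]
  have hAmem : ∀ s : S, π s ∈ A ↔ s ∈ W₀ := by
    intro s
    constructor
    · rintro ⟨w, hw, hws⟩
      have h3 : w⁻¹ * s ∈ K := by
        rw [← hπ1, map_mul, map_inv, hws, inv_mul_cancel]
      have h4 : s = w * (w⁻¹ * s) := by group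
      rw [h4]
      exact mul_mem hw (hKW h3)
    · intro hs
      exact ⟨s, hs, rfl⟩
  have hAc : ∀ a ∈ A, ∀ b ∈ A, a * b = b * a := by
    rintro _ ⟨a, ha, rfl⟩ _ ⟨b, hb, rfl⟩
    have h3 := hcomm a ha b hb
    rw [← hπ1] at h3
    have h4 : π a * π b = π b * π a * π (a⁻¹ * b⁻¹ * a * b) := by
      simp only [map_mul, map_inv]; group
    rw [h4, h3, mul_one]
  have hAe : ∀ a ∈ A, a ^ p = 1 := by
    rintro _ ⟨a, ha, rfl⟩
    rw [← map_pow, hπ1]
    exact hpow a ha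
  have hAel : Cfsg.IsElementaryAbelian p A :=
    ⟨⟨⟨fun a b => Subtype.ext (hAc a a.2 b b.2)⟩⟩, hAe⟩
  have hQp : IsPGroup p (S ⧸ K) := hS.to_quotient K
  -- the Engel map commutes with `π`
  have hδπ : ∀ (z' y : S) (n : ℕ), π ((fun y : S => y⁻¹ * z'⁻¹ * y * z')^[n] y) =
      (fun y : S ⧸ K => y⁻¹ * (π z')⁻¹ * y * π z')^[n] (π y) := by
    intro z' y n
    induction n with
    | zero => rfl
    | succ n ih =>
      rw [Function.iterate_succ_apply', Function.iterate_succ_apply', ← ih]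
      simp only [map_mul, map_inv]
  -- the general conclusion from a good pair
  have hmain : ∀ (w y : S), w ∈ W₀ → y ∉ W₀ →
      (fun t : S => t⁻¹ * y⁻¹ * t * y)^[p - 1] w ∉ K →
      ∃ (Q : Sylow p (Equiv.Perm (Fin (p ^ 2))))
        (f : S →* ↥(Q : Subgroup (Equiv.Perm (Fin (p ^ 2))))), Function.Surjective f := by
    intro w y hw hy hwy
    have hzA : ∀ a ∈ A, (π y)⁻¹ * a * π y ∈ A := by
      intro a ha
      have := hAn.conj_mem a ha (π y)⁻¹
      simpa using this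
    have h3 := engel_subgroup (p := p) A hAc hAe (π y) hzA (π w) ((hAmem w).2 hw)
    rw [← hδπ] at h3
    have h4 : ((List.range p).map (fun i => (π y ^ i)⁻¹ * π w * π y ^ i)).prod ≠ 1 := by
      rw [← h3]
      intro h5
      exact hwy ((hπ1 _).1 h5)
    obtain ⟨Q, f, hf⟩ := Cfsg.Agent.S1952.result hQp A hAel hAidx (π w) (π y)
      ((hAmem w).2 hw) (fun h => hy ((hAmem y).1 h)) h4
    exact ⟨Q, f.comp π, hf.comp hπs⟩
  -- the Engel map with `z ∈ W₀` sends `W₀` into `K` and `K` into `K`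
  have hKstep : ∀ (z' : S) (y : S), y ∈ K → y⁻¹ * z'⁻¹ * y * z' ∈ K := by
    intro z' y hy
    have h3 := hKn.conj_mem y hy z'⁻¹
    have h4 : y⁻¹ * z'⁻¹ * y * z' = y⁻¹ * (z'⁻¹ * y * z'⁻¹⁻¹) := by group
    rw [h4]
    exact mul_mem (inv_mem hy) h3
  have hKiter : ∀ (z' : S) (n : ℕ) (y : S), y ∈ K →
      (fun t : S => t⁻¹ * z'⁻¹ * t * z')^[n] y ∈ K := by
    intro z' n
    induction n with
    | zero => intro y hy; exact hy
    | succ n ih =>
      intro y hy
      rw [Function.iterate_succ_apply]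
      exact ih _ (hKstep z' y hy)
  have hp1 : p - 1 = (p - 2) + 1 := by have := hp.two_le; omega
  by_cases hz : z ∈ W₀
  · by_cases hx : x ∈ W₀
    · exfalso
      apply h2
      rw [hp1, Function.iterate_succ_apply]
      exact hKiter z _ _ (hcomm x hx z hz)
    · -- `x ∉ W₀`, `z ∈ W₀`
      have hδx : x⁻¹ * z⁻¹ * x * z ∈ W₀ := by
        have h3 := hWn.conj_mem z⁻¹ (inv_mem hz) x⁻¹
        have h4 : x⁻¹ * z⁻¹ * x * z = (x⁻¹ * z⁻¹ * x⁻¹⁻¹) * z := by group
        rw [h4]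
        exact mul_mem h3 hz
      by_cases hp2 : p = 2
      · apply hmain z x hz hx
        intro h3
        apply h2
        subst hp2
        have h5 : (fun y : S => y⁻¹ * z⁻¹ * y * z)^[2 - 1] x = x⁻¹ * z⁻¹ * x * z := rfl
        have h6 : (fun t : S => t⁻¹ * x⁻¹ * t * x)^[2 - 1] z = z⁻¹ * x⁻¹ * z * x := rfl
        rw [h5]
        rw [h6] at h3
        have h7 : x⁻¹ * z⁻¹ * x * z = (z⁻¹ * x⁻¹ * z * x)⁻¹ := by group
        rw [h7]
        exact inv_mem h3
      · exfalso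
        apply h2
        have hp3 : p - 1 = (p - 3) + 1 + 1 := by have := hp.two_le; omega
        rw [hp3, Function.iterate_succ_apply, Function.iterate_succ_apply]
        exact hKiter z _ _ (hcomm _ hδx z hz)
  · -- `z ∉ W₀`: write `x = z^k * w`
    have hc : Nat.card (S ⧸ W₀) = p := by rw [← Subgroup.index_eq_card, hWi]
    have hz1 : (QuotientGroup.mk z : S ⧸ W₀) ≠ 1 := by
      intro h; exact hz ((QuotientGroup.eq_one_iff z).1 h)
    have hmem : (QuotientGroup.mk x : S ⧸ W₀) ∈ Subgroup.zpowers (QuotientGroup.mk z : S ⧸ W₀) :=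
      mem_zpowers_of_prime_card hc hz1
    obtain ⟨k, hk⟩ := Subgroup.mem_zpowers_iff.1 hmem
    have hw : (z ^ k)⁻¹ * x ∈ W₀ := by
      have h3 : ((QuotientGroup.mk ((z ^ k)⁻¹ * x) : S ⧸ W₀)) = 1 := by
        rw [QuotientGroup.mk_mul, QuotientGroup.mk_inv, QuotientGroup.mk_zpow, hk, inv_mul_cancel]
      exact (QuotientGroup.eq_one_iff _).1 h3
    apply hmain ((z ^ k)⁻¹ * x) z hw hz
    have h3 : (fun t : S => t⁻¹ * z⁻¹ * t * z)^[p - 1] ((z ^ k)⁻¹ * x) =
        (fun y : S => y⁻¹ * z⁻¹ * y * z)^[p - 1] x := by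
      rw [hp1, Function.iterate_succ_apply, Function.iterate_succ_apply]
      congr 1
      have h4 : z⁻¹ * (z ^ k)⁻¹ = (z ^ k)⁻¹ * z⁻¹ := by
        rw [← zpow_neg, ← zpow_neg_one, ← zpow_add, ← zpow_add, add_comm]
      calc ((z ^ k)⁻¹ * x)⁻¹ * z⁻¹ * ((z ^ k)⁻¹ * x) * z
          = x⁻¹ * z ^ k * (z⁻¹ * (z ^ k)⁻¹) * x * z := by group
        _ = x⁻¹ * z ^ k * ((z ^ k)⁻¹ * z⁻¹) * x * z := by rw [h4]
        _ = x⁻¹ * z⁻¹ * x * z := by group
    rw [h3]
    exact h2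

end Cfsg.Agent.Lib.Helper77
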